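import Cfsg.Agent.H18.Carter.Ctx
import Cfsg.Agent.H763.Ccp.Alt

/-!
# Elements of odd prime order are conjugate to proper powers: definition, alternating groups
-/

set_option autoImplicit false
set_option linter.unusedSectionVars false
set_option linter.unusedVariables false

namespace Cfsg.Agent.H18.Carter

open Subgroup
open Equiv (Perm)

/-- every element of odd prime order is conjugate to another power of itself -/
def PowConj (K : Type*) [Group K] : Prop :=
  ∀ z : K, (orderOf z).Prime → orderOf z ≠ 2 → ∃ g : K, g * z * g⁻¹ ≠ z ∧ g * z * g⁻¹ ∈ zpowers z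

theorem PowConj.of_equiv {K K' : Type*} [Group K] [Group K'] (e : K ≃* K') (h : PowConj K) : PowConj K' := by
  intro z hz hz2
  have ho : orderOf (e.symm z) = orderOf z := orderOf_injective e.symm.toMonoidHom e.symm.injective z
  obtain ⟨g, h1, h2⟩ := h (e.symm z) (by rwa [ho]) (by rwa [ho])
  refine ⟨e g, fun h3 => h1 ?_, ?_⟩
  · apply e.injective
    rw [map_mul, map_mul, map_inv, e.apply_symm_apply]
    exact h3
  · obtain ⟨k, hk⟩ := mem_zpowers_iff.1 h2
    rw [mem_zpowers_iff]
    refine ⟨k, ?_⟩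
    have := congrArg e hk
    rwa [map_zpow, e.apply_symm_apply, map_mul, map_mul, map_inv, e.apply_symm_apply] at this

/-- real elements of odd order -/
theorem ne_inv_of_odd {K : Type*} [Group K] {z : K} (hz : (orderOf z).Prime) (hz2 : orderOf z ≠ 2) : z⁻¹ ≠ z := by
  intro h
  apply hz2
  have h1 : z ^ 2 = 1 := by rw [sq]; nth_rw 1 [← h]; exact inv_mul_cancel z
  exact (Nat.prime_dvd_prime_iff_eq hz Nat.prime_two).1 (orderOf_dvd_of_pow_eq_one h1)

theorem pow_ne_self {K : Type*} [Group K] {z : K} (hz : (orderOf z).Prime) {k : ℕ} (hk : 1 < k)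
    (hnd : ¬ orderOf z ∣ k - 1) : z ^ k ≠ z := by
  intro h
  apply hnd
  apply orderOf_dvd_of_pow_eq_one
  have e : k = (k - 1) + 1 := by omega
  rw [e, pow_succ] at h
  exact mul_right_cancel (h.trans (one_mul z).symm)

theorem alt_powConj {n : ℕ} (h5 : 5 ≤ n) : PowConj ↥(alternatingGroup (Fin n)) := by
  intro s hs hs2
  rcases H763.Ccp.real_or hs s rfl with ⟨g, hg⟩ | ⟨hct, hn, -⟩
  · refine ⟨g, ?_, ?_⟩
    · rw [hg]; exact ne_inv_of_odd hs hs2
    · rw [hg]; exact inv_mem (mem_zpowers s)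
  · set p := orderOf s with hp
    have hp5 : 5 ≤ p := by
      have h1 := hs.two_le
      have h2 : p ≠ 4 := by rintro h; rw [h] at hs; exact absurd hs (by norm_num)
      omega
    have hodd : Odd p := hs.odd_of_ne_two hs2
    have hcop : Nat.Coprime 2 p := (Nat.coprime_two_left).2 hodd
    have hso : orderOf (s : Perm (Fin n)) = p := orderOf_injective (alternatingGroup (Fin n)).subtype (subtype_injective _) s
    have h1 : IsConj (s : Perm (Fin n)) ((s : Perm (Fin n)) ^ 2) := by
      rw [Equiv.Perm.isConj_iff_cycleType_eq]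
      have hcyc : (s : Perm (Fin n)).IsCycle := by
        rw [← Equiv.Perm.card_cycleType_eq_one, hct]; rfl
      have hcyc2 : ((s : Perm (Fin n)) ^ 2).IsCycle := by
        rw [Equiv.Perm.IsCycle.pow_iff hcyc]
        rw [hso]; exact hcop
      rw [hcyc.cycleType, hcyc2.cycleType]
      congr 1
      have h3 := Equiv.Perm.IsCycle.orderOf hcyc
      have h4 := Equiv.Perm.IsCycle.orderOf hcyc2
      rw [← h3, ← h4, Nat.Coprime.orderOf_pow]
      rw [hso]; exact hcop.symm
    obtain ⟨h, hh⟩ := isConj_iff.1 h1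
    have hh2 : h * h * (s : Perm (Fin n)) * (h * h)⁻¹ = (s : Perm (Fin n)) ^ 4 := by
      calc h * h * (s : Perm (Fin n)) * (h * h)⁻¹ = h * (h * s * h⁻¹) * h⁻¹ := by group
        _ = h * (s : Perm (Fin n)) ^ 2 * h⁻¹ := by rw [hh]
        _ = (h * s * h⁻¹) ^ 2 := by rw [conj_pow]
        _ = _ := by rw [hh, ← pow_mul]
    have hsg : Equiv.Perm.sign (h * h) = 1 := by
      rw [map_mul]
      exact Int.units_mul_self _
    refine ⟨⟨h * h, Equiv.Perm.mem_alternatingGroup.2 hsg⟩, ?_, ?_⟩
    · have e : (⟨h * h, Equiv.Perm.mem_alternatingGroup.2 hsg⟩ : ↥(alternatingGroup (Fin n))) * s *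
          (⟨h * h, Equiv.Perm.mem_alternatingGroup.2 hsg⟩)⁻¹ = s ^ 4 := Subtype.ext hh2
      rw [e]
      refine pow_ne_self hs (by norm_num) ?_
      intro hd
      have := Nat.le_of_dvd (by norm_num) hd
      omega
    · have e : (⟨h * h, Equiv.Perm.mem_alternatingGroup.2 hsg⟩ : ↥(alternatingGroup (Fin n))) * s *
          (⟨h * h, Equiv.Perm.mem_alternatingGroup.2 hsg⟩)⁻¹ = s ^ 4 := Subtype.ext hh2
      rw [e]
      exact pow_mem (mem_zpowers s) 4

end Cfsg.Agent.H18.Carter
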