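import Cfsg.Agent.H18.Carter.Pass
import Cfsg.Agent.SolvableStructure.CarterSystem

/-!
# PASS in an arbitrary group, one component and orbits of components; Sylow subgroups pulled back
-/

set_option autoImplicit false
set_option linter.unusedSectionVars false
set_option linter.unusedVariables false

namespace Cfsg.Agent.H18.Carter

open Subgroup Pointwise
open Cfsg.Agent.Solvable.Carter
open scoped commutatorElement

universe u

variable {G : Type u} [Group G]

/-- elements of `DD K E` -/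
theorem mem_DD {K E : Subgroup G} {x : G} :
    x ∈ DD K E ↔ ∃ k ∈ K, k ∈ normalizer (E : Set G) ∧ ∃ e ∈ E, x = k * e := by
  constructor
  · intro hx
    obtain ⟨k, hk, e, he, rfl⟩ := mul_mem_of_norm' (inf_le_right : K ⊓ normalizer (E : Set G) ≤ _) hx
    exact ⟨k, hk.1, hk.2, e, he, rfl⟩
  · rintro ⟨k, hk, hkn, e, he, rfl⟩
    exact mul_mem (inf_le_DD _ _ ⟨hk, hkn⟩) (le_DD _ _ he)

theorem mem_normalizer_subgroupOf {X E : Subgroup G} (hE : E ≤ X) {x : X} :
    x ∈ normalizer ((E.subgroupOf X : Subgroup X) : Set X) ↔ (x : G) ∈ normalizer (E : Set G) := by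
  rw [← subgroupOf_normalizer_eq hE, mem_subgroupOf]

theorem DD_le {X K E : Subgroup G} (hK : K ≤ X) (hE : E ≤ X) : DD K E ≤ X := sup_le (inf_le_left.trans hK) hE

theorem mem_DD_sub {X K E : Subgroup G} (hE : E ≤ X) {x : X} :
    x ∈ DD (K.subgroupOf X) (E.subgroupOf X) ↔ (x : G) ∈ DD K E := by
  rw [mem_DD, mem_DD]
  constructor
  · rintro ⟨k, hk, hkn, e, he, rfl⟩
    exact ⟨k, hk, (mem_normalizer_subgroupOf hE).1 hkn, e, he, rfl⟩
  · rintro ⟨k, hk, hkn, e, he, hx⟩
    have hkX : k ∈ X := by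
      have : k = (x : G) * e⁻¹ := by rw [hx]; group
      rw [this]
      exact mul_mem x.2 (inv_mem (hE he))
    exact ⟨⟨k, hkX⟩, hk, (mem_normalizer_subgroupOf hE).2 hkn, ⟨e, hE he⟩, he, Subtype.ext hx⟩

theorem PassD.transport {X K E : Subgroup G} (hK : K ≤ X) (hE : E ≤ X) {B : Type u} [Group B] {S R : Subgroup B}
    {f' : ↥(DD (K.subgroupOf X) (E.subgroupOf X)) →* B} (h : PassD (K.subgroupOf X) (E.subgroupOf X) B S R f') :
    ∃ f : ↥(DD K E) →* B, PassD K E B S R f := by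
  let j : ↥(DD K E) →* ↥(DD (K.subgroupOf X) (E.subgroupOf X)) :=
    { toFun := fun x => ⟨⟨x, DD_le hK hE x.2⟩, (mem_DD_sub hE).2 x.2⟩
      map_one' := rfl
      map_mul' := fun _ _ => rfl }
  have hj : Function.Surjective j := fun y => ⟨⟨y, (mem_DD_sub hE).1 y.2⟩, rfl⟩
  refine ⟨f'.comp j, ?_, ?_, ?_, ?_, h.normal, h.cen, h.carter, h.sup⟩
  · exact h.surj.comp hj
  · intro x
    rw [MonoidHom.comp_apply, h.ker]
    constructor
    · intro h1 e he
      exact congrArg Subtype.val (h1 ⟨e, hE he⟩ he)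
    · intro h1 e he
      exact Subtype.ext (h1 e he)
  · intro b
    rw [h.S_iff]
    constructor
    · rintro ⟨x, hx, rfl⟩
      obtain ⟨y, rfl⟩ := hj x
      exact ⟨y, hx, rfl⟩
    · rintro ⟨x, hx, rfl⟩
      exact ⟨j x, hx, rfl⟩
  · intro b
    rw [h.R_iff]
    constructor
    · rintro ⟨x, hx, rfl⟩
      obtain ⟨y, rfl⟩ := hj x
      exact ⟨y, hx, rfl⟩
    · rintro ⟨x, hx, rfl⟩
      exact ⟨j x, hx, rfl⟩

namespace Comps

variable {K : Subgroup G} {m : ℕ} (c : Comps G K m)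

/-- restriction to a subgroup -/
def sub {X : Subgroup G} (hK : K ≤ X) (hE : ∀ i, c.E i ≤ X) : Comps X (K.subgroupOf X) m where
  E := fun i => (c.E i).subgroupOf X
  perf := fun i => by
    apply Subgroup.map_injective X.subtype_injective
    rw [map_commutator, subgroupOf_map_subtype, inf_eq_left.2 (hE i), c.perf i]
  ne := fun i h => c.ne i (by
    rw [subgroupOf_eq_bot] at h
    exact h.eq_bot_of_le (hE i))
  comm := fun i j hij x hx y hy => Subtype.ext (c.comm i j hij x hx y hy)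
  perm := fun k hk i => by
    obtain ⟨j, hj⟩ := c.perm k hk i
    refine ⟨j, ?_⟩
    rw [← hj]
    exact conj_smul_subgroupOf (hE i) k
  trans := fun i j => by
    obtain ⟨k, hk, hj⟩ := c.trans i j
    refine ⟨⟨k, hK hk⟩, hk, ?_⟩
    rw [← hj]
    exact conj_smul_subgroupOf (hE i) ⟨k, hK hk⟩

/-- **PASS.** -/
theorem pass [Finite G] (hK : IsCarter K) (IH : ∀ (B : Type u) [Group B] [Finite B], Nat.card B < Nat.card G → CC B)
    (i : Fin m) : ∃ (B : Type u) (_ : Group B) (_ : Finite B) (S R : Subgroup B) (f : ↥(DD K (c.E i)) →* B),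
      PassD K (c.E i) B S R f ∧ Nat.card B ≤ Nat.card ↥(K ⊔ c.N) := by
  set X := K ⊔ c.N with hX
  have hKX : K ≤ X := le_sup_left
  have hEX : ∀ i, c.E i ≤ X := fun i => (c.le_N i).trans le_sup_right
  let c' := c.sub hKX hEX
  have hN : c'.N = c.N.subgroupOf X := by
    apply Subgroup.map_injective X.subtype_injective
    rw [subgroupOf_map_subtype, inf_eq_left.2 (le_sup_right : c.N ≤ X)]
    show (⨆ i, (c.E i).subgroupOf X).map X.subtype = ⨆ i, c.E i
    rw [Subgroup.map_iSup]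
    refine iSup_congr fun i => ?_
    rw [subgroupOf_map_subtype, inf_eq_left.2 (hEX i)]
  have htop : K.subgroupOf X ⊔ c'.N = ⊤ := by
    apply Subgroup.map_injective X.subtype_injective
    rw [hN, Subgroup.map_sup, subgroupOf_map_subtype, subgroupOf_map_subtype, inf_eq_left.2 hKX,
      inf_eq_left.2 (le_sup_right : c.N ≤ X), ← hX, ← MonoidHom.range_eq_map, range_subtype]
  have hIH : ∀ H : Subgroup X, H ≠ ⊤ → CC H := fun H hH => IH H
    ((Cfsg.Agent.Lib.SolvableNormalP.card_lt_of_ne_top hH).trans_le (Subgroup.card_le_card_group X))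
  obtain ⟨B, _, _, S, R, f', h⟩ := c'.pass_top htop (hK.subgroupOf hKX) hIH i
  obtain ⟨f, hf⟩ := PassD.transport hKX (hEX i) h
  refine ⟨B, inferInstance, inferInstance, S, R, f, hf, ?_⟩
  calc Nat.card B ≤ Nat.card ↥(DD K (c.E i)) := Nat.card_le_card_of_surjective _ hf.surj
    _ ≤ Nat.card X := Nat.card_mono (Set.toFinite _) (DD_le hKX (hEX i))

end Comps

/-! ### Sylow subgroups -/

/-- `K` normalises a Sylow `l`-subgroup of `N` -/
def Nrm (l : ℕ) (K N : Subgroup G) : Prop :=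
  ∃ P : Subgroup G, P ≤ N ∧ IsPGroup l P ∧ ¬ l ∣ P.relIndex N ∧ K ≤ normalizer (P : Set G)

theorem relIndex_sup_sup_dvd' [Finite G] {A M N : Subgroup G} (hMN : M ≤ N) (hN : N ≤ normalizer (A : Set G)) :
    (M ⊔ A).relIndex (N ⊔ A) ∣ M.relIndex N := by
  have hA : A ≤ normalizer (A : Set G) := le_normalizer
  have hM := hMN.trans hN
  have h := Cfsg.Agent.SolvableStructure.CarterSystem.relIndex_sup_sup_dvd (Q := M.subgroupOf (normalizer (A : Set G)))
    (C := N.subgroupOf (normalizer (A : Set G))) (fun x hx => hMN hx) (A.subgroupOf (normalizer (A : Set G)))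
  rwa [← subgroupOf_sup hM hA, ← subgroupOf_sup hN hA, relIndex_subgroupOf (sup_le hN hA), relIndex_subgroupOf hN] at h

theorem fin_sup [Finite G] {l : ℕ} (hl : l.Prime) {m : ℕ} (E P : Fin m → Subgroup G) (hPE : ∀ j, P j ≤ E j)
    (comm : ∀ i j, i ≠ j → E j ≤ centralizer (E i : Set G)) (hp : ∀ j, IsPGroup l (P j))
    (hi : ∀ j, ¬ l ∣ (P j).relIndex (E j)) (s : Finset (Fin m)) :
    IsPGroup l (s.sup P : Subgroup G) ∧ ¬ l ∣ (s.sup P).relIndex (s.sup E) ∧ s.sup P ≤ s.sup E := by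
  classical
  induction s using Finset.induction_on with
  | empty =>
    refine ⟨?_, ?_, ?_⟩
    · rw [Finset.sup_empty]; exact IsPGroup.of_bot
    · rw [Finset.sup_empty, Finset.sup_empty, relIndex_self]
      exact fun h => hl.one_lt.ne' (Nat.dvd_one.1 h)
    · rw [Finset.sup_empty, Finset.sup_empty]
  | insert j s hj ih =>
    obtain ⟨h1, h2, h3⟩ := ih
    rw [Finset.sup_insert, Finset.sup_insert]
    have hE : s.sup E ≤ centralizer (E j : Set G) := by
      refine Finset.sup_le fun i hi' => comm j i ?_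
      rintro rfl
      exact hj hi'
    have hE' : E j ≤ centralizer ((s.sup E : Subgroup G) : Set G) := Subgroup.le_centralizer_iff.1 hE
    have hEP : E j ≤ normalizer ((s.sup P : Subgroup G) : Set G) :=
      (hE'.trans (centralizer_le h3)).trans (centralizer_le_normalizer _)
    refine ⟨?_, ?_, sup_le_sup (hPE j) h3⟩
    · exact IsPGroup.to_sup_of_normal_right' (hp j) h1 ((hPE j).trans hEP)
    · intro hd
      have e := relIndex_mul_relIndex (P j ⊔ s.sup P) (E j ⊔ s.sup P) (E j ⊔ s.sup E)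
        (sup_le_sup_right (hPE j) _) (sup_le_sup_left h3 _)
      rw [← e] at hd
      rcases (Nat.Prime.dvd_mul hl).1 hd with h | h
      · exact hi j (h.trans (relIndex_sup_sup_dvd' (hPE j) hEP))
      · apply h2
        refine h.trans ?_
        have := relIndex_sup_sup_dvd' (A := E j) h3 (hE.trans (centralizer_le_normalizer _))
        rwa [sup_comm, sup_comm (s.sup E)] at this

theorem le_normalizer_of_conj {P : Subgroup G} {k : G} (h : MulAut.conj k • P ≤ P) (h' : MulAut.conj k⁻¹ • P ≤ P) :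
    k ∈ normalizer (P : Set G) := by
  rw [← cj_eq_self_iff]
  refine le_antisymm h ?_
  have h2 := Subgroup.pointwise_smul_le_pointwise_smul_iff (a := MulAut.conj k).2 h'
  rwa [cj_cj, mul_inv_cancel, cj_one] at h2

/-- **Sylow subgroups of the orbit of a component.** -/
theorem Comps.nrm [Finite G] {K : Subgroup G} {m : ℕ} (c : Comps G K m) {l : ℕ} (hl : l.Prime) (i : Fin m)
    (h : Nrm l (K ⊓ normalizer (c.E i : Set G)) (c.E i)) : Nrm l K c.N := by
  obtain ⟨P, hPE, hP, hPi, hPK⟩ := h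
  choose k hk hkE using fun j => c.trans i j
  let Q : Fin m → Subgroup G := fun j => MulAut.conj (k j) • P
  have hQE : ∀ j, Q j ≤ c.E j := fun j => by
    rw [← hkE j]
    exact Subgroup.pointwise_smul_le_pointwise_smul_iff.2 hPE
  have hQ : ∀ j, IsPGroup l (Q j) := fun j => by
    show IsPGroup l (MulAut.conj (k j) • P : Subgroup G)
    rw [conj_smul_eq_map]
    exact hP.map _
  have hQi : ∀ j, ¬ l ∣ (Q j).relIndex (c.E j) := fun j => by
    rw [← hkE j]
    show ¬ l ∣ (MulAut.conj (k j) • P : Subgroup G).relIndex (MulAut.conj (k j) • c.E i)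
    rw [conj_smul_eq_map, conj_smul_eq_map, relIndex_map_map_of_injective _ _ (MulAut.conj (k j)).injective]
    exact hPi
  obtain ⟨h1, h2, h3⟩ := fin_sup hl c.E Q hQE (fun i j hij => c.E_le_cent hij) hQ hQi Finset.univ
  have e1 : Finset.univ.sup c.E = c.N := Finset.sup_univ_eq_iSup _
  have e2 : Finset.univ.sup Q = ⨆ j, Q j := Finset.sup_univ_eq_iSup _
  rw [e1, e2] at h2 h3
  rw [e2] at h1
  refine ⟨⨆ j, Q j, h3, h1, h2, ?_⟩
  have key : ∀ κ ∈ K, MulAut.conj κ • (⨆ j, Q j) ≤ ⨆ j, Q j := by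
    intro κ hκ
    rw [conj_smul_eq_map, Subgroup.map_iSup]
    refine iSup_le fun j => ?_
    obtain ⟨j', hj'⟩ := c.perm κ hκ j
    refine le_trans ?_ (le_iSup Q j')
    rw [← conj_smul_eq_map]
    show MulAut.conj κ • MulAut.conj (k j) • P ≤ MulAut.conj (k j') • P
    have h4 : (k j')⁻¹ * (κ * k j) ∈ normalizer (P : Set G) := by
      apply hPK
      refine mem_inf.2 ⟨mul_mem (inv_mem (hk j')) (mul_mem hκ (hk j)), ?_⟩
      rw [← cj_eq_self_iff, ← cj_cj, ← cj_cj, hkE j, hj', ← hkE j', cj_cj, inv_mul_cancel, cj_one]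
    rw [← cj_eq_self_iff] at h4
    have h5 : MulAut.conj κ • MulAut.conj (k j) • P = MulAut.conj (k j') • P := by
      rw [cj_cj]
      nth_rw 2 [← h4]
      rw [cj_cj, mul_inv_cancel_left]
    exact h5.le
  intro κ hκ
  exact le_normalizer_of_conj (key κ hκ) (key κ⁻¹ (inv_mem hκ))

/-- **Sylow subgroups of a component from its automorphism group.** -/
theorem PassD.nrm [Finite G] {K E : Subgroup G} {B : Type u} [Group B] [Finite B] {S R : Subgroup B}
    {f : ↥(DD K E) →* B} (h : PassD K E B S R f) {l : ℕ} [hl : Fact l.Prime] (hn : Nrm l R S) :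
    Nrm l (K ⊓ normalizer (E : Set G)) E := by
  obtain ⟨P', hPS, hP', hPi, hPR⟩ := hn
  have hED : E ≤ DD K E := le_DD _ _
  set E' : Subgroup (DD K E) := E.subgroupOf (DD K E) with hE'
  have hSE : S = E'.map f := by
    ext b
    rw [h.S_iff]
    rfl
  set Q : Subgroup (DD K E) := P'.comap f ⊓ E' with hQ
  -- `Q` is nilpotent
  let g : ↥Q →* ↥P' := (f.comp Q.subtype).codRestrict P' fun x => x.2.1
  have hg : g.ker ≤ center Q := by
    intro x hx
    rw [MonoidHom.mem_ker] at hx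
    have h1 : f x = 1 := congrArg Subtype.val hx
    have h2 := (h.ker _).1 h1
    rw [mem_center_iff]
    intro y
    apply Subtype.ext
    apply Subtype.ext
    exact h2 _ y.2.2
  have hQn : Group.IsNilpotent Q := by
    have := hP'.isNilpotent
    exact Subgroup.isNilpotent_of_ker_le_center g hg
  obtain ⟨P0⟩ : Nonempty (Sylow l Q) := inferInstance
  have hP0 : (P0 : Subgroup Q).Normal := inferInstance
  have hchar : ∀ y : Q, (∃ n : ℕ, y ^ l ^ n = 1) → y ∈ (P0 : Subgroup Q) := by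
    rintro y ⟨n, hy⟩
    have h1 : IsPGroup l (zpowers y) := by
      apply IsPGroup.of_card_dvd_pow (n := n)
      rw [Nat.card_zpowers]
      exact orderOf_dvd_of_pow_eq_one hy
    obtain ⟨P2, hP2⟩ := h1.exists_le_sylow
    have := Sylow.unique_of_normal P0 hP0
    rw [Subsingleton.elim P0 P2]
    exact hP2 (mem_zpowers y)
  set P1 : Subgroup (DD K E) := (P0 : Subgroup Q).map Q.subtype with hP1
  have hmem : ∀ x : DD K E, x ∈ P1 ↔ x ∈ Q ∧ ∃ n : ℕ, x ^ l ^ n = 1 := by
    intro x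
    constructor
    · rintro ⟨y, hy, rfl⟩
      refine ⟨y.2, ?_⟩
      obtain ⟨n, hn⟩ := (isPGroup_iff_pow_pow_eq_one.1 P0.2) ⟨y, hy⟩
      refine ⟨n, ?_⟩
      have h2 := congrArg (fun z : (P0 : Subgroup Q) => ((z : Q) : DD K E)) hn
      exact h2
    · rintro ⟨hx, n, hn⟩
      exact ⟨⟨x, hx⟩, hchar _ ⟨n, Subtype.ext hn⟩, rfl⟩
  refine ⟨P1.map (DD K E).subtype, ?_, ?_, ?_, ?_⟩
  · rintro _ ⟨x, hx, rfl⟩
    exact ((hmem x).1 hx).1.2
  · exact (P0.2.map _).map _
  · have e1 : (P1.map (DD K E).subtype).relIndex E = P1.relIndex E' := by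
      have e2 : E = E'.map (DD K E).subtype := by rw [hE', subgroupOf_map_subtype, inf_eq_left.2 hED]
      have e3 := relIndex_map_map_of_injective P1 E' (DD K E).subtype_injective
      rwa [← e2] at e3
    rw [e1, ← relIndex_mul_relIndex P1 Q E' (fun x hx => ((hmem x).1 hx).1) inf_le_right]
    intro hd
    rcases (Nat.Prime.dvd_mul hl.out).1 hd with h1 | h1
    · have e3 : P1.relIndex Q = (P0 : Subgroup Q).index := by
        have e4 : Q = (⊤ : Subgroup Q).map Q.subtype := by rw [← MonoidHom.range_eq_map, range_subtype]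
        have e5 := relIndex_map_map_of_injective (P0 : Subgroup Q) ⊤ Q.subtype_injective
        rwa [← e4, relIndex_top_right] at e5
      rw [e3] at h1
      exact P0.not_dvd_index h1
    · rw [hQ, inf_relIndex_right, relIndex_comap, ← hSE] at h1
      exact hPi h1
  · intro k hk
    have hkD : k ∈ DD K E := inf_le_DD _ _ hk
    have hR : ∀ κ ∈ K ⊓ normalizer (E : Set G), ∀ x ∈ P1.map (DD K E).subtype, κ * x * κ⁻¹ ∈ P1.map (DD K E).subtype := by
      rintro κ hκ _ ⟨x, hx, rfl⟩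
      have hκD : κ ∈ DD K E := inf_le_DD _ _ hκ
      refine ⟨⟨κ, hκD⟩ * x * ⟨κ, hκD⟩⁻¹, ?_, rfl⟩
      obtain ⟨⟨hx1, hx2⟩, n, hn⟩ := (hmem x).1 hx
      refine (hmem _).2 ⟨⟨?_, ?_⟩, n, ?_⟩
      · have h3 : f ⟨κ, hκD⟩ ∈ R := (h.R_iff _).2 ⟨⟨κ, hκD⟩, hκ.1, rfl⟩
        have h4 := (mem_normalizer_iff.1 (hPR h3) (f x)).1 hx1
        show f _ ∈ P'
        rw [map_mul, map_mul, map_inv]
        exact h4
      · exact (mem_normalizer_iff.1 hκ.2 (x : G)).1 hx2
      · rw [conj_pow, hn, mul_one, mul_inv_cancel]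
    rw [mem_normalizer_iff]
    intro x
    constructor
    · exact hR k hk x
    · intro hx
      have := hR k⁻¹ (inv_mem hk) _ hx
      have e : k⁻¹ * (k * x * k⁻¹) * k⁻¹⁻¹ = x := by group
      rwa [e] at this

/-- the socle is `E / Z(E)` -/
theorem PassD.equiv {K E : Subgroup G} {B : Type u} [Group B] {S R : Subgroup B} {f : ↥(DD K E) →* B}
    (h : PassD K E B S R f) : Nonempty (↥E ⧸ center ↥E ≃* ↥S) := by
  let g : ↥E →* ↥S :=
    { toFun := fun x => ⟨f ⟨x, le_DD _ _ x.2⟩, (h.S_iff _).2 ⟨⟨x, le_DD _ _ x.2⟩, x.2, rfl⟩⟩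
      map_one' := Subtype.ext (map_one f)
      map_mul' := fun x y => Subtype.ext (map_mul f ⟨x, le_DD _ _ x.2⟩ ⟨y, le_DD _ _ y.2⟩) }
  have hg : Function.Surjective g := by
    rintro ⟨b, hb⟩
    obtain ⟨x, hx, rfl⟩ := (h.S_iff b).1 hb
    exact ⟨⟨x, hx⟩, rfl⟩
  have hker : g.ker = center ↥E := by
    ext x
    rw [MonoidHom.mem_ker, mem_center_iff]
    constructor
    · intro h1
      have h2 : f ⟨x, le_DD _ _ x.2⟩ = 1 := congrArg Subtype.val h1
      have h3 := (h.ker _).1 h2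
      exact fun y => Subtype.ext (h3 y y.2)
    · intro h1
      apply Subtype.ext
      show f ⟨x, le_DD _ _ x.2⟩ = 1
      rw [h.ker]
      intro y hy
      exact congrArg Subtype.val (h1 ⟨y, hy⟩)
  exact ⟨(QuotientGroup.quotientMulEquivOfEq hker.symm).trans (QuotientGroup.quotientKerEquivOfSurjective g hg)⟩

end Cfsg.Agent.H18.Carter
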