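import Cfsg.Agent.H18.Carter.Rows
import Cfsg.Agent.H18.Carter.Pass2
import Cfsg.Prelude.Def_Classification2

/-!
# S3852: the frame of the final assembly

* `Exc S` : `S` is `PSL₂(3^odd)` or a Ree group `²G₂(3^odd)`;
* `NrAll S` : every Carter subgroup of `G` normalises a Sylow `2`-subgroup of `S`;
* `Wt K S` : `K` normalises a `2`-subgroup `≠ 1` of `S`; `WtAll S` : this for all Carter subgroups `K`;
* `IHr G` : `WtAll T` for all smaller almost simple `B` with socle `T` not exceptional;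
* `frame` : conjugacy of Carter subgroups from the rows `WtAll ∧ CC` (not exceptional) and `CC` (exceptional).
-/

set_option autoImplicit false
set_option linter.unusedSectionVars false
set_option linter.unusedVariables false
set_option linter.style.haveILetI false

namespace Cfsg.Agent.H18.Carter

open Subgroup Pointwise
open Cfsg.Agent.Solvable.Carter

universe u

/-- the exceptional socles: `PSL₂(3^odd)` and `²G₂(3^odd)` -/
def Exc (S : Type u) [Group S] : Prop :=
  (∃ (F : Type) (_ : Field F) (_ : Fintype F) (m : ℕ), Fintype.card F = 3 ^ (2 * m + 1) ∧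
    Nonempty (S ≃* Matrix.ProjectiveSpecialLinearGroup (Fin 2) F)) ∨
  ∃ (F : Type) (_ : Field F) (_ : Fintype F) (m : ℕ), 1 ≤ m ∧ Fintype.card F = 3 ^ (2 * m + 1) ∧
    Nonempty (S ≃* Cfsg.Lie.twistedG2 F (3 ^ m))

section

variable {G : Type u} [Group G]

/-- every Carter subgroup of `G` normalises a Sylow `2`-subgroup of `S` -/
def NrAll (S : Subgroup G) : Prop := ∀ K : Subgroup G, IsCarter K → Nrm 2 K S

/-- `K` normalises a `2`-subgroup `≠ 1` of `S` -/
def Wt (K S : Subgroup G) : Prop := ∃ Y : Subgroup G, Y ≤ S ∧ Y ≠ ⊥ ∧ IsPGroup 2 Y ∧ K ≤ normalizer (Y : Set G)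

/-- every Carter subgroup of `G` normalises a `2`-subgroup `≠ 1` of `S` -/
def WtAll (S : Subgroup G) : Prop := ∀ K : Subgroup G, IsCarter K → Wt K S

end

/-- the induction hypothesis -/
def IHr (G : Type u) [Group G] : Prop :=
  ∀ (B : Type u) [Group B] [Finite B] (T : Subgroup B) [T.Normal], Ctx B T → Nat.card B < Nat.card G → ¬ Exc ↥T →
    WtAll T

section

variable {G : Type u} [Group G] [Finite G] {S : Subgroup G} [S.Normal]

/-- `K ∩ S` is a `2`-group for all `K` -/
theorem nrAll_of_two (hF : H381.Car.Fpf.{u}) (c : Ctx G S) (h : ∀ K : Subgroup G, IsCarter K → IsPGroup 2 ↥(K ⊓ S)) :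
    NrAll S := by
  haveI : Fact (Nat.Prime 2) := ⟨Nat.prime_two⟩
  intro K hK
  exact H381.Car.lemma_x hF c.min S hK (h K hK)

/-- elements of odd prime order are conjugate in `G` to other powers -/
theorem two_of_real (c : Ctx G S)
    (h : ∀ z ∈ S, (orderOf z).Prime → orderOf z ≠ 2 → ∃ g : G, g * z * g⁻¹ ≠ z ∧ g * z * g⁻¹ ∈ zpowers z) {K : Subgroup G}
    (hK : IsCarter K) : IsPGroup 2 ↥(K ⊓ S) := by
  rw [IsPGroup.iff_card]
  refine ⟨_, Nat.eq_prime_pow_of_unique_prime_dvd Nat.card_pos.ne' ?_⟩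
  intro r hr hd
  by_contra hne
  haveI : Fact r.Prime := ⟨hr⟩
  refine H381.Car.not_dvd_of_power c (r := r) ?_ hK hd
  intro z hz ho
  exact h z hz (ho ▸ hr) (ho ▸ hne)

theorem nrAll_of_real (hF : H381.Car.Fpf.{u}) (c : Ctx G S)
    (h : ∀ z ∈ S, (orderOf z).Prime → orderOf z ≠ 2 → ∃ g : G, g * z * g⁻¹ ≠ z ∧ g * z * g⁻¹ ∈ zpowers z) : NrAll S :=
  nrAll_of_two hF c fun _ hK => two_of_real c h hK

theorem nrAll_of_powConj (hF : H381.Car.Fpf.{u}) (c : Ctx G S) (h : PowConj ↥S) : NrAll S := by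
  refine nrAll_of_real hF c fun z hz ho ho2 => ?_
  have e : orderOf (⟨z, hz⟩ : S) = orderOf z := Subgroup.orderOf_mk z hz
  obtain ⟨g, h1, h2⟩ := h ⟨z, hz⟩ (by rw [e]; exact ho) (by rw [e]; exact ho2)
  refine ⟨g, fun h3 => h1 (Subtype.ext h3), ?_⟩
  obtain ⟨k, hk⟩ := mem_zpowers_iff.1 h2
  exact mem_zpowers_iff.2 ⟨k, congrArg Subtype.val hk⟩

/-- **conjugacy from `NrAll`** -/
theorem NrAll.cc (c : Ctx G S) (h2 : 2 ∣ Nat.card S) (h : NrAll S) : CC G := by
  intro K H hK hH
  obtain ⟨P, hPS, hPp, hPl, hPK⟩ := h K hK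
  obtain ⟨R, hRS, hRp, hRl, hRH⟩ := h H hH
  haveI : Fact (Nat.Prime 2) := ⟨Nat.prime_two⟩
  have hp1 : IsPGroup 2 (P.subgroupOf S) := hPp.comap_of_injective S.subtype S.subtype_injective
  have hp2 : IsPGroup 2 (R.subgroupOf S) := hRp.comap_of_injective S.subtype S.subtype_injective
  obtain ⟨s, hs⟩ := MulAction.exists_smul_eq S (hp1.toSylow hPl) (hp2.toSylow hRl)
  have hs' : MulAut.conj s • P.subgroupOf S = R.subgroupOf S :=
    congrArg (fun Q : Sylow 2 S => (Q : Subgroup S)) hs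
  have hPR : MulAut.conj (s : G) • P = R := by
    rw [conj_smul_subgroupOf hPS, subgroupOf_inj] at hs'
    rwa [inf_eq_left.mpr hRS, inf_eq_left.mpr (conj_smul_le_of_le hPS s)] at hs'
  refine c.conj_of_le (M := normalizer (R : Set G)) ?_ (K := MulAut.conj (s : G) • K) (hK.conj _) hH ?_ hRH |>.imp' (fun g => g * s) ?_
  · have hRb : R ≠ ⊥ := by
      rintro rfl
      rw [relIndex_bot_left] at hRl
      exact hRl h2
    have : Group.IsNilpotent R := hRp.isNilpotent
    exact c.norm_ne_top hRb inferInstance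
  · intro x hx
    rw [mem_cj] at hx
    have h3 := hPK hx
    rw [← hPR, mem_normalizer_conj_smul]
    exact h3
  · rintro g ⟨_, hg⟩
    rw [map_mul, mul_smul]
    exact hg

theorem NrAll.wt (h2 : 2 ∣ Nat.card S) (h : NrAll S) : WtAll S := by
  intro K hK
  obtain ⟨P, hPS, hPp, hPl, hPK⟩ := h K hK
  refine ⟨P, hPS, ?_, hPp, hPK⟩
  rintro rfl
  rw [relIndex_bot_left] at hPl
  exact hPl h2

/-- `|K ∩ S|` even for all `K` -/
theorem wtAll_of_even (h : ∀ K : Subgroup G, IsCarter K → 2 ∣ Nat.card ↥(K ⊓ S)) : WtAll S := by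
  intro K hK
  haveI : Fact (Nat.Prime 2) := ⟨Nat.prime_two⟩
  obtain ⟨t, htS, htK, hto, htc⟩ := H381.Car.exists_central (S := S) hK.1 (h K hK)
  refine ⟨zpowers t, (zpowers_le).2 htS, ?_, ?_, ?_⟩
  · intro h0
    rw [zpowers_eq_bot] at h0
    rw [h0, orderOf_one] at hto
    omega
  · rw [IsPGroup.iff_card]
    exact ⟨1, by rw [Nat.card_zpowers, hto, pow_one]⟩
  · intro k hk
    have h1 : Commute k t := mem_centralizer_singleton_iff.1 (htc hk)
    have e : ∀ i : ℤ, k * t ^ i * k⁻¹ = t ^ i := fun i => by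
      rw [(h1.zpow_right i).eq, mul_inv_cancel_right]
    rw [mem_normalizer_iff]
    intro y
    constructor
    · intro hy
      obtain ⟨i, rfl⟩ := mem_zpowers_iff.1 hy
      rw [e]
      exact zpow_mem (mem_zpowers t) i
    · intro hy
      obtain ⟨i, hi⟩ := mem_zpowers_iff.1 hy
      have h2 : y = t ^ i := by
        have h3 := e i
        rw [hi] at h3 ⊢
        have h4 : k * (k * y * k⁻¹) * k⁻¹ = k * y * k⁻¹ := h3
        have h5 : k * (k * y * k⁻¹) * k⁻¹ = k * (y) * k⁻¹ := h4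
        exact (mul_left_cancel (mul_right_cancel h5)).symm
      rw [h2]
      exact zpow_mem (mem_zpowers t) i

/-- what a row has to give -/
def Row (G : Type u) [Group G] (S : Subgroup G) : Prop := WtAll S ∧ CC G

theorem NrAll.row (c : Ctx G S) (h2 : 2 ∣ Nat.card S) (h : NrAll S) : Row G S := ⟨h.wt h2, h.cc c h2⟩

end

/-- **the frame** -/
theorem frame
    (exc : ∀ (G : Type u) [Group G] [Finite G] (S : Subgroup G) [S.Normal], Ctx G S → Exc ↥S → CC G)
    (rows : ∀ (G : Type u) [Group G] [Finite G] (S : Subgroup G) [S.Normal], Ctx G S → IHr G → ¬ Exc ↥S → Row G S) :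
    ∀ (G : Type u) [Group G] [Finite G] (S : Subgroup G) [S.Normal], Ctx G S → CC G := by
  have key : ∀ (n : ℕ) (G : Type u) [Group G] [Finite G] (S : Subgroup G) [S.Normal], Nat.card G = n → Ctx G S →
      ¬ Exc ↥S → Row G S := by
    intro n
    induction n using Nat.strong_induction_on with
    | _ n IH =>
    intro G _ _ S _ hn c hS
    refine rows G S c ?_ hS
    intro B _ _ T _ cT hB hT
    exact (IH _ (hn ▸ hB) B T rfl cT hT).1
  intro G _ _ S _ c
  by_cases hS : Exc ↥S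
  · exact exc G S c hS
  · exact (key _ G S rfl c hS).2

end Cfsg.Agent.H18.Carter
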