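import Cfsg.Agent.H18.Carter.Ctx

/-!
# PASS: the automorphism group induced by a Carter subgroup on a component

`K` Carter in `X = K N`, `N` the central product of the perfect groups `E i`, permuted transitively by `K`:
the image of `N_K(E i)` in the group induced by `N_K(E i) E i` on `E i` is Carter.
-/

set_option autoImplicit false
set_option linter.unusedSectionVars false
set_option linter.unusedVariables false

namespace Cfsg.Agent.H18.Carter

open Subgroup Pointwise
open Cfsg.Agent.Solvable.Carter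
open scoped commutatorElement

universe u

variable {X : Type u} [Group X]

theorem cj_map {Y : Type*} [Group Y] (f : X →* Y) (g : X) (A : Subgroup X) :
    MulAut.conj (f g) • A.map f = (MulAut.conj g • A).map f := by
  rw [conj_smul_eq_map, conj_smul_eq_map, map_map, map_map]
  refine congrArg (fun φ => Subgroup.map φ A) (MonoidHom.ext fun y => ?_)
  show f g * f y * (f g)⁻¹ = f (g * y * g⁻¹)
  rw [map_mul, map_mul, map_inv]

/-- three subgroups: `P` perfect, `[P, C] ≤ C(P)` implies `[P, C] = 1`. -/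
theorem cent_of_perfect {P C : Subgroup X} (hP : ⁅P, P⁆ = P) (h : ⁅P, C⁆ ≤ centralizer (P : Set X)) :
    C ≤ centralizer (P : Set X) := by
  have h1 : ⁅⁅P, C⁆, P⁆ = ⊥ := commutator_eq_bot_iff_le_centralizer.2 h
  have h2 : ⁅⁅C, P⁆, P⁆ = ⊥ := by rw [commutator_comm C P]; exact h1
  have h3 : ⁅⁅P, P⁆, C⁆ = ⊥ := commutator_commutator_eq_bot_of_rotate h1 h2
  rw [hP, commutator_eq_bot_iff_le_centralizer] at h3
  exact Subgroup.le_centralizer_iff.1 h3

/-- the central product of perfect groups permuted transitively by `K` -/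
structure Comps (X : Type u) [Group X] (K : Subgroup X) (m : ℕ) where
  E : Fin m → Subgroup X
  perf : ∀ i, ⁅E i, E i⁆ = E i
  ne : ∀ i, E i ≠ ⊥
  comm : ∀ i j, i ≠ j → ∀ x ∈ E i, ∀ y ∈ E j, x * y = y * x
  perm : ∀ k ∈ K, ∀ i, ∃ j, MulAut.conj k • E i = E j
  trans : ∀ i j, ∃ k ∈ K, MulAut.conj k • E i = E j

namespace Comps

variable {K : Subgroup X} {m : ℕ} (c : Comps X K m)

/-- the product -/
def N : Subgroup X := ⨆ i, c.E i

theorem le_N (i : Fin m) : c.E i ≤ c.N := le_iSup c.E i

theorem E_le_cent {i j : Fin m} (h : i ≠ j) : c.E j ≤ centralizer (c.E i : Set X) := fun y hy x hx =>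
  c.comm i j h x hx y hy

theorem N_norm (i : Fin m) : c.N ≤ normalizer (c.E i : Set X) := by
  refine iSup_le fun j => ?_
  by_cases h : i = j
  · rw [← h]; exact le_normalizer
  · exact (c.E_le_cent h).trans (centralizer_le_normalizer _)

theorem K_norm : K ≤ normalizer (c.N : Set X) := by
  intro k hk
  rw [← cj_eq_self_iff]
  have key : ∀ k ∈ K, MulAut.conj k • c.N ≤ c.N := by
    intro k hk
    rw [conj_smul_eq_map, N, Subgroup.map_iSup]
    refine iSup_le fun i => ?_
    obtain ⟨j, hj⟩ := c.perm k hk i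
    rw [conj_smul_eq_map] at hj
    rw [hj]
    exact le_iSup c.E j
  refine le_antisymm (key k hk) ?_
  have h1 := key k⁻¹ (inv_mem hk)
  have h2 := Subgroup.pointwise_smul_le_pointwise_smul_iff (a := MulAut.conj k).2 h1
  rwa [cj_cj, mul_inv_cancel, cj_one] at h2

theorem N_perf : ⁅c.N, c.N⁆ = c.N := by
  refine le_antisymm (commutator_le_self _) ?_
  refine iSup_le fun i => ?_
  rw [← c.perf i]
  exact commutator_mono (c.le_N i) (c.le_N i)

theorem not_le_cent (i : Fin m) : ¬ c.E i ≤ centralizer (c.E i : Set X) := by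
  intro h
  apply c.ne i
  rw [← c.perf i]
  exact commutator_eq_bot_iff_le_centralizer.2 h

theorem cent_N_le (i : Fin m) : centralizer (c.N : Set X) ≤ centralizer (c.E i : Set X) :=
  centralizer_le (c.le_N i)

theorem mem_cent_N {x : X} : x ∈ centralizer (c.N : Set X) ↔ ∀ i, x ∈ centralizer (c.E i : Set X) := by
  constructor
  · exact fun h i => c.cent_N_le i h
  · intro h
    have h2 : c.N ≤ centralizer ({x} : Set X) := by
      refine iSup_le fun i y hy => ?_
      rw [mem_centralizer_singleton_iff]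
      exact h i y hy
    intro y hy
    have := h2 hy
    rwa [mem_centralizer_singleton_iff] at this

variable (hKN : K ⊔ c.N = ⊤)

include hKN

theorem N_normal : c.N.Normal := by
  rw [← normalizer_eq_top_iff, eq_top_iff, ← hKN]
  exact sup_le c.K_norm le_normalizer

theorem C_normal : (centralizer (c.N : Set X)).Normal := by
  have := c.N_normal hKN
  infer_instance

theorem perm_all (g : X) (i : Fin m) : ∃ j, MulAut.conj g • c.E i = c.E j := by
  have hg : g ∈ K ⊔ c.N := by rw [hKN]; trivial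
  obtain ⟨k, hk, n, hn, rfl⟩ := mul_mem_of_norm' c.K_norm hg
  obtain ⟨j, hj⟩ := c.perm k hk i
  refine ⟨j, ?_⟩
  rw [← cj_cj, cj_eq_self_iff.2 (c.N_norm i hn), hj]

/-- the configuration of the quotient by `C(N)` -/
noncomputable def cfg (hK : Group.IsSolvable K) : letI := c.C_normal hKN; Cfg (X ⧸ centralizer (c.N : Set X)) m :=
  letI := c.C_normal hKN
  letI π := QuotientGroup.mk' (centralizer (c.N : Set X))
  { N := c.N.map π
    T := fun i => (c.E i).map π
    nN := (c.N_normal hKN).map _ (QuotientGroup.mk'_surjective _)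
    TN := fun i => map_mono (c.le_N i)
    ne := fun i h => by
      rw [Subgroup.map_eq_bot_iff, QuotientGroup.ker_mk'] at h
      exact c.not_le_cent i (h.trans (c.cent_N_le i))
    nT := fun i => (map_mono (c.N_norm i)).trans (le_normalizer_map _)
    comm := by
      rintro i j hij _ ⟨x, hx, rfl⟩ _ ⟨y, hy, rfl⟩
      rw [← map_mul, c.comm i j hij x hx y hy, map_mul]
    sup := by
      show ⨆ i, (c.E i).map π = (⨆ i, c.E i).map π
      rw [Subgroup.map_iSup]
    cen := by
      rw [eq_bot_iff]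
      intro g hg
      obtain ⟨x, rfl⟩ := QuotientGroup.mk'_surjective _ g
      rw [mem_bot, QuotientGroup.mk'_apply, QuotientGroup.eq_one_iff]
      have h1 : ⁅c.N, zpowers x⁆ ≤ centralizer (c.N : Set X) := by
        rw [← QuotientGroup.ker_mk' (centralizer (c.N : Set X)), ← Subgroup.map_eq_bot_iff, map_commutator,
          commutator_eq_bot_iff_le_centralizer, Subgroup.le_centralizer_iff, MonoidHom.map_zpowers, zpowers_le]
        exact hg
      exact cent_of_perfect c.N_perf h1 (mem_zpowers x)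
    zT := by
      intro i
      rw [eq_bot_iff]
      rintro _ ⟨⟨x, hx, rfl⟩, hg⟩
      rw [mem_bot, QuotientGroup.mk'_apply, QuotientGroup.eq_one_iff, c.mem_cent_N]
      have h1 : ⁅c.E i, zpowers x⁆ ≤ centralizer (c.E i : Set X) := by
        refine le_trans ?_ (c.cent_N_le i)
        rw [← QuotientGroup.ker_mk' (centralizer (c.N : Set X)), ← Subgroup.map_eq_bot_iff, map_commutator,
          commutator_eq_bot_iff_le_centralizer, Subgroup.le_centralizer_iff, MonoidHom.map_zpowers, zpowers_le]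
        exact hg
      intro j
      by_cases hij : i = j
      · rw [← hij]
        exact cent_of_perfect (c.perf i) h1 (mem_zpowers x)
      · exact c.E_le_cent (Ne.symm hij) hx
    perm := by
      intro g i
      obtain ⟨x, rfl⟩ := QuotientGroup.mk'_surjective _ g
      obtain ⟨j, hj⟩ := c.perm_all hKN x i
      refine ⟨j, ?_⟩
      rw [← hj]
      exact cj_map _ _ _
    trans := by
      intro i j
      obtain ⟨k, hk, hj⟩ := c.trans i j
      refine ⟨π k, ?_⟩
      rw [← hj]
      exact cj_map _ _ _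
    sol := by
      have : (c.N.map π).Normal := (c.N_normal hKN).map _ (QuotientGroup.mk'_surjective _)
      have h4 : Function.Surjective ((QuotientGroup.mk' (c.N.map π)).comp (π.comp K.subtype)) := by
        intro y
        obtain ⟨y, rfl⟩ := QuotientGroup.mk'_surjective _ y
        obtain ⟨x, rfl⟩ := QuotientGroup.mk'_surjective _ y
        have hx : x ∈ K ⊔ c.N := by rw [hKN]; trivial
        obtain ⟨k, hk, n, hn, rfl⟩ := mul_mem_of_norm' c.K_norm hx
        refine ⟨⟨k, hk⟩, ?_⟩
        refine QuotientGroup.eq.2 ?_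
        show (π k)⁻¹ * π (k * n) ∈ c.N.map π
        rw [map_mul, inv_mul_cancel_left]
        exact mem_map_of_mem _ hn
      exact Group.isSolvable_of_surjective h4 }

end Comps

/-- the subgroup `(K ⊓ N(E)) E` -/
def DD (K E : Subgroup X) : Subgroup X := (K ⊓ normalizer (E : Set X)) ⊔ E

theorem DD_le_norm (K E : Subgroup X) : DD K E ≤ normalizer (E : Set X) := sup_le inf_le_right le_normalizer

theorem le_DD (K E : Subgroup X) : E ≤ DD K E := le_sup_right

theorem inf_le_DD (K E : Subgroup X) : K ⊓ normalizer (E : Set X) ≤ DD K E := le_sup_left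

/-- the conclusion of PASS -/
structure PassD (K E : Subgroup X) (B : Type u) [Group B] (S R : Subgroup B) (f : ↥(DD K E) →* B) : Prop where
  surj : Function.Surjective f
  ker : ∀ x : ↥(DD K E), f x = 1 ↔ (x : X) ∈ centralizer (E : Set X)
  S_iff : ∀ b : B, b ∈ S ↔ ∃ x : ↥(DD K E), (x : X) ∈ E ∧ f x = b
  R_iff : ∀ b : B, b ∈ R ↔ ∃ x : ↥(DD K E), (x : X) ∈ K ∧ f x = b
  normal : S.Normal
  cen : centralizer (S : Set B) = ⊥
  carter : IsCarter R
  sup : R ⊔ S = ⊤

namespace Comps

variable {K : Subgroup X} {m : ℕ} (c : Comps X K m)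

/-- **PASS in the group `K N`.** -/
theorem pass_top [Finite X] (hKN : K ⊔ c.N = ⊤) (hK : IsCarter K) (IH : ∀ H : Subgroup X, H ≠ ⊤ → CC H) (i : Fin m) :
    ∃ (B : Type u) (_ : Group B) (_ : Finite B) (S R : Subgroup B) (f : ↥(DD K (c.E i)) →* B),
      PassD K (c.E i) B S R f := by
  have hsol : Group.IsSolvable K := by
    have := hK.1
    infer_instance
  have := c.C_normal hKN
  set C := centralizer (c.N : Set X) with hC
  let π : X →* X ⧸ C := QuotientGroup.mk' C
  have hπ : Function.Surjective π := QuotientGroup.mk'_surjective C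
  let d := c.cfg hKN hsol
  have hdT : ∀ j, d.T j = (c.E j).map π := fun _ => rfl
  have hdN : d.N = c.N.map π := rfl
  have hKb : IsCarter (K.map π) := hK.map hπ fun H hH => IH H hH
  have hKNb : K.map π ⊔ d.N = ⊤ := by
    rw [hdN, ← Subgroup.map_sup, hKN, map_top_of_surjective _ hπ]
  have hcar := d.carter_im hKb hKNb i
  have hnorm : ∀ x ∈ normalizer (c.E i : Set X), π x ∈ normalizer (d.T i : Set (X ⧸ C)) := by
    intro x hx
    rw [← cj_eq_self_iff, hdT, cj_map, cj_eq_self_iff.2 hx]
  have hinj : ∀ j, d.T j = d.T i → j = i := by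
    intro j hj
    by_contra hne
    apply d.ne i
    rw [eq_bot_iff, ← d.zT i]
    refine le_inf le_rfl ?_
    have := d.T_le_cent (Ne.symm hne)
    rwa [hj] at this
  -- elements of `X` normalising `T i` modulo `C`
  have hback : ∀ x : X, π x ∈ normalizer (d.T i : Set (X ⧸ C)) → x ∈ normalizer (c.E i : Set X) := by
    intro x hx
    obtain ⟨j, hj⟩ := c.perm_all hKN x i
    have h1 : d.T j = d.T i := by
      rw [hdT j, ← hj, ← cj_map]
      exact cj_eq_self_iff.2 hx
    rw [← cj_eq_self_iff, hj, hinj j h1]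
  let f : ↥(DD K (c.E i)) →* d.A i :=
    { toFun := fun x => d.pr i ⟨π x, hnorm x (DD_le_norm _ _ x.2)⟩
      map_one' := by
        rw [← map_one (d.pr i)]
        exact congrArg (d.pr i) (Subtype.ext (map_one π))
      map_mul' := fun x y => by
        rw [← map_mul (d.pr i)]
        exact congrArg (d.pr i) (Subtype.ext (map_mul π (x : X) (y : X))) }
  have hf : ∀ x : ↥(DD K (c.E i)), f x = d.pr i ⟨π x, hnorm x (DD_le_norm _ _ x.2)⟩ := fun _ => rfl
  have hker : ∀ x : ↥(DD K (c.E i)), f x = 1 ↔ (x : X) ∈ centralizer (c.E i : Set X) := by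
    intro x
    rw [hf, QuotientGroup.mk'_apply, QuotientGroup.eq_one_iff, mem_subgroupOf]
    show π x ∈ centralizer (d.T i : Set (X ⧸ C)) ↔ _
    constructor
    · intro hx
      have h1 : ⁅c.E i, zpowers (x : X)⁆ ≤ centralizer (c.E i : Set X) := by
        refine le_trans ?_ (c.cent_N_le i)
        rw [← hC, ← QuotientGroup.ker_mk' C, ← Subgroup.map_eq_bot_iff, map_commutator,
          commutator_eq_bot_iff_le_centralizer, Subgroup.le_centralizer_iff, MonoidHom.map_zpowers, zpowers_le]
        exact hx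
      exact cent_of_perfect (c.perf i) h1 (mem_zpowers _)
    · intro hx
      rintro _ ⟨y, hy, rfl⟩
      rw [← map_mul, hx y hy, map_mul]
  have hsurj : Function.Surjective f := by
    intro b
    obtain ⟨g, rfl⟩ := QuotientGroup.mk'_surjective _ b
    obtain ⟨s, hs, y, hy, e⟩ := d.norm_decomp hKNb i g.2
    obtain ⟨s, hs, rfl⟩ := hs
    obtain ⟨k, hk, z, hz, rfl⟩ := mul_mem_of_norm' (inf_le_right.trans (cent_norm _)) hy
    obtain ⟨⟨k, hk, rfl⟩, hk'⟩ := hk
    have hkn : k ∈ normalizer (c.E i : Set X) := hback k hk'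
    refine ⟨⟨s * k, mul_mem (le_DD _ _ hs) (inf_le_DD _ _ ⟨hk, hkn⟩)⟩, ?_⟩
    refine QuotientGroup.eq.2 ?_
    show (π (s * k))⁻¹ * (g : X ⧸ C) ∈ centralizer (d.T i : Set (X ⧸ C))
    rw [e, map_mul]
    have : (π s * π k)⁻¹ * (π s * (π k * z)) = z := by group
    rw [this]
    exact hz
  have hS : ∀ b, b ∈ ((c.E i).subgroupOf (DD K (c.E i))).map f ↔ ∃ x : ↥(DD K (c.E i)), (x : X) ∈ c.E i ∧ f x = b :=
    fun b => Iff.rfl
  refine ⟨d.A i, inferInstance, inferInstance, ((c.E i).subgroupOf (DD K (c.E i))).map f, d.im (K.map π) i, f, ?_⟩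
  refine ⟨hsurj, hker, hS, ?_, ?_, ?_, hcar, ?_⟩
  · intro b
    constructor
    · rintro ⟨g, hg, rfl⟩
      obtain ⟨k, hk, e⟩ := hg
      have hkn : k ∈ normalizer (c.E i : Set X) := hback k (by rw [e]; exact g.2)
      refine ⟨⟨k, inf_le_DD _ _ ⟨hk, hkn⟩⟩, hk, ?_⟩
      rw [hf]
      exact congrArg (d.pr i) (Subtype.ext e)
    · rintro ⟨x, hx, rfl⟩
      exact ⟨⟨π x, hnorm x (DD_le_norm _ _ x.2)⟩, mem_map_of_mem π hx, rfl⟩
  · have : ((c.E i).subgroupOf (DD K (c.E i))).Normal := normal_subgroupOf_of_le_normalizer (DD_le_norm _ _)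
    exact this.map _ hsurj
  · rw [eq_bot_iff]
    intro b hb
    obtain ⟨x, rfl⟩ := hsurj b
    rw [mem_bot, hker]
    have h1 : ⁅c.E i, zpowers (x : X)⁆ ≤ centralizer (c.E i : Set X) := by
      rw [commutator_le]
      intro y hy z hz
      obtain ⟨n, rfl⟩ := mem_zpowers_iff.1 hz
      have hyD : y ∈ DD K (c.E i) := le_DD _ _ hy
      have h2 : f (⁅(⟨y, hyD⟩ : ↥(DD K (c.E i))), x ^ n⁆) = 1 := by
        rw [map_commutatorElement, commutatorElement_eq_one_iff_mul_comm]
        have h3 : f (x ^ n) ∈ centralizer ((((c.E i).subgroupOf (DD K (c.E i))).map f : Subgroup (d.A i)) : Set (d.A i)) := by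
          rw [map_zpow]
          exact zpow_mem hb n
        exact h3 _ (mem_map_of_mem f (mem_subgroupOf.2 hy))
      have h4 := (hker _).1 h2
      exact h4
    exact cent_of_perfect (c.perf i) h1 (mem_zpowers _)
  · rw [eq_top_iff]
    intro b _
    obtain ⟨x, rfl⟩ := hsurj b
    have hx : (x : X) ∈ (K ⊓ normalizer (c.E i : Set X)) ⊔ c.E i := x.2
    obtain ⟨k, hk, e, he, hke⟩ := mul_mem_of_norm' (inf_le_right : K ⊓ normalizer (c.E i : Set X) ≤ _) hx
    have hx' : x = ⟨k, inf_le_DD _ _ hk⟩ * ⟨e, le_DD _ _ he⟩ := Subtype.ext hke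
    rw [hx', map_mul]
    refine mul_mem (mem_sup_left ?_) (mem_sup_right ?_)
    · exact ⟨⟨π k, hnorm k hk.2⟩, mem_map_of_mem π hk.1, rfl⟩
    · exact mem_map_of_mem f (mem_subgroupOf.2 he)

end Comps

end Cfsg.Agent.H18.Carter
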