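import Cfsg.Agent.H18.Carter.Rows
import Cfsg.Agent.H381.Car.Wp
import Cfsg.Agent.H906.SL2Unip
import Cfsg.Agent.H688.TransAut
import Cfsg.Agent.Lib.FieldAutCard

/-!
# S3852: the groups `PSL₂(q)`, `q` odd: elements and automorphisms
-/

set_option autoImplicit false
set_option linter.unusedSectionVars false
set_option linter.unusedVariables false
set_option linter.style.haveILetI false

namespace Cfsg.Agent.H18.Carter.PslTwo

open Subgroup Cfsg.Agent.H906
open scoped MatrixGroups Matrix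
open Cfsg.Agent.Schreier.ClassPSL
open Cfsg.Agent.ClassicalGeometry.AutPSL.Root Cfsg.Agent.ClassicalGeometry.AutPSL.Auto
  Cfsg.Agent.ClassicalGeometry.AutPSL.Main

variable {F : Type*} [Field F] [Finite F]

/-- real or unipotent -/
theorem real_or (r : ℕ) [Fact r.Prime] [CharP F r] (x : Matrix.ProjectiveSpecialLinearGroup (Fin 2) F) :
    (∃ y, y * x * y⁻¹ = x⁻¹) ∨ ∃ y : Matrix.ProjectiveSpecialLinearGroup (Fin 2) F, ∃ b : F, y * x * y⁻¹ = unP F (Multiplicative.ofAdd b) := by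
  obtain ⟨g, rfl⟩ := QuotientGroup.mk_surjective x
  by_cases ht : (g.1 0 0 + g.1 1 1) ^ 2 - 4 = 0
  · exact Or.inr (mk_conj_un g ht r)
  · left
    obtain ⟨h, hh⟩ := SL2_conj_inv g ht
    refine ⟨QuotientGroup.mk h, ?_⟩
    rw [← QuotientGroup.mk_inv, ← QuotientGroup.mk_mul, ← QuotientGroup.mk_mul, hh, QuotientGroup.mk_inv]

theorem unP_pow_char (r : ℕ) [Fact r.Prime] [CharP F r] (b : F) : unP F (Multiplicative.ofAdd b) ^ r = 1 := by
  rw [unP_pow, CharP.cast_eq_zero, zero_mul]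
  exact map_one _

/-- `PSL₂(q)`, `q` odd, `q` not an odd power of `3` -/
theorem powConj [Fintype F] (hodd : Odd (Fintype.card F)) (h3 : ∀ m : ℕ, Fintype.card F ≠ 3 ^ (2 * m + 1)) :
    PowConj (Matrix.ProjectiveSpecialLinearGroup (Fin 2) F) := by
  obtain ⟨r, hr⟩ := CharP.exists F
  haveI hrp : Fact r.Prime := ⟨CharP.char_is_prime F r⟩
  have hr2 : r ≠ 2 := by
    rintro rfl
    rw [← Nat.not_even_iff_odd] at hodd
    apply hodd
    obtain ⟨n, -, h⟩ := FiniteField.card F 2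
    rw [h]
    exact (Nat.even_pow.2 ⟨even_two, n.2.ne'⟩)
  intro z hz hz2
  rcases real_or r z with ⟨y, hy⟩ | hu
  · exact ⟨y, by rw [hy]; exact ne_inv_of_odd hz hz2, by rw [hy]; exact inv_mem (mem_zpowers z)⟩
  · have hzr : orderOf z = r := by
      obtain ⟨y, b, h⟩ := hu
      have h1 : z ^ r = 1 := by
        have h2 : z = y⁻¹ * unP F (Multiplicative.ofAdd b) * y := by rw [← h]; group
        have := conj_pow (i := r) (a := y⁻¹) (b := unP F (Multiplicative.ofAdd b))
        rw [inv_inv, ← h2, unP_pow_char] at this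
        rw [this]; group
      exact (Nat.prime_dvd_prime_iff_eq hz hrp.out).1 (orderOf_dvd_of_pow_eq_one h1)
    by_cases hr3 : r = 3
    · subst hr3
      obtain ⟨n, -, hn⟩ := FiniteField.card F 3
      have hev : Even (n : ℕ) := by
        rw [← Nat.not_odd_iff_even]
        rintro ⟨m, hm⟩
        exact h3 m (by rw [hn, hm])
      have hsq : IsSquare (-1 : F) := by
        rw [FiniteField.isSquare_neg_one_iff, hn]
        obtain ⟨m, hm⟩ := hev
        rw [hm, ← two_mul, pow_mul, Nat.pow_mod]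
        norm_num
      obtain ⟨t, ht⟩ := hsq
      have ht0 : t ≠ 0 := by
        rintro rfl
        simp at ht
      obtain ⟨g, hg⟩ := unip_inv_conj hu (n := 1) (t := Units.mk0 t ht0) (by rw [Units.val_mk0, sq, ← ht]; simp)
      rw [pow_one] at hg
      exact ⟨g, by rw [hg]; exact ne_inv_of_odd hz hz2, by rw [hg]; exact inv_mem (mem_zpowers z)⟩
    · have h20 : (2 : F) ≠ 0 := by
        have := CharP.cast_eq_zero_iff F r 2
        intro h
        have h4 : r ∣ 2 := this.1 (by exact_mod_cast h)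
        exact hr2 ((Nat.prime_dvd_prime_iff_eq hrp.out Nat.prime_two).1 h4)
      obtain ⟨g, hg⟩ := unip_pow_conj hu (n := 4) (t := Units.mk0 2 h20) (by rw [Units.val_mk0]; norm_num)
      refine ⟨g, ?_, by rw [hg]; exact pow_mem (mem_zpowers z) 4⟩
      rw [hg]
      refine pow_ne_self hz (by norm_num) ?_
      rw [hzr]
      intro h
      exact hr3 ((Nat.prime_dvd_prime_iff_eq hrp.out Nat.prime_three).1 h)

/-- an automorphism of `2`-power order centralising a unipotent element `≠ 1` is trivial (odd degree over the prime field) -/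
theorem eq_one_of_fix (h2 : (2 : F) ≠ 0) (hodd : Odd (Nat.card (F ≃+* F))) (r : ℕ) [Fact r.Prime] [CharP F r]
    {α : MulAut (Matrix.ProjectiveSpecialLinearGroup (Fin 2) F)} {k : ℕ} (hα : α ^ 2 ^ k = 1) {b : F} (hb : b ≠ 0)
    (hf : α (unP F (Multiplicative.ofAdd b)) = unP F (Multiplicative.ofAdd b)) : α = 1 := by
  obtain ⟨γ, hγ⟩ := Cfsg.Agent.H688.TransAut.exists_gal (F := F)
  have h1 : γ α = 1 := by
    have h3 : (γ α) ^ 2 ^ k = 1 := by rw [← map_pow, hα, map_one]
    have h4 : orderOf (γ α) ∣ 2 ^ k := orderOf_dvd_of_pow_eq_one h3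
    have h5 : orderOf (γ α) ∣ Nat.card (F ≃+* F) := orderOf_dvd_natCard _
    have h6 : Nat.Coprime (2 ^ k) (Nat.card (F ≃+* F)) := (Nat.coprime_two_left.2 hodd).pow_left k
    exact orderOf_eq_one_iff.1 (Nat.eq_one_of_dvd_coprimes h6 h4 h5)
  obtain ⟨A, rfl⟩ := hγ α h1
  have h7 : (QuotientGroup.mk (cj A (un b)) : Matrix.ProjectiveSpecialLinearGroup (Fin 2) F) = QuotientGroup.mk (un b) := hf
  rw [QuotientGroup.eq, Matrix.SpecialLinearGroup.mem_center_iff] at h7
  obtain ⟨e, he, he2⟩ := h7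
  have h8 : (un b).1 = (cj A (un b)).1 * Matrix.scalar (Fin 2) e := by
    rw [he2, ← Matrix.SpecialLinearGroup.coe_mul, mul_inv_cancel_left]
  have hAi : ((A⁻¹ : GL (Fin 2) F) : Matrix (Fin 2) (Fin 2) F) * (A : Matrix (Fin 2) (Fin 2) F) = 1 := by
    rw [← Units.val_mul, inv_mul_cancel, Units.val_one]
  have h9 : (cj A (un b)).1 = (A : Matrix (Fin 2) (Fin 2) F) * (un b).1 * ((A⁻¹ : GL (Fin 2) F) : Matrix (Fin 2) (Fin 2) F) :=
    coe_cj A (un b)
  have h10 : (un b).1 * (A : Matrix (Fin 2) (Fin 2) F) = e • ((A : Matrix (Fin 2) (Fin 2) F) * (un b).1) := by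
    have hs : Matrix.scalar (Fin 2) e = e • (1 : Matrix (Fin 2) (Fin 2) F) := by
      ext i j
      fin_cases i <;> fin_cases j <;> simp
    conv_lhs => rw [h8, h9, hs]
    rw [Matrix.mul_smul, mul_one, Matrix.smul_mul, mul_assoc, hAi, mul_one]
  have hdet : (A : Matrix (Fin 2) (Fin 2) F).det ≠ 0 := by
    have := congrArg Matrix.det hAi
    rw [Matrix.det_mul, Matrix.det_one] at this
    exact right_ne_zero_of_mul (this ▸ one_ne_zero)
  rw [Matrix.det_fin_two] at hdet
  rw [un_val] at h10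
  have e00 := congrFun (congrFun h10 0) 0
  have e01 := congrFun (congrFun h10 0) 1
  have e10 := congrFun (congrFun h10 1) 0
  simp [Matrix.mul_apply, Fin.sum_univ_two] at e00 e01 e10
  have hc : (A : Matrix (Fin 2) (Fin 2) F) 1 0 = 0 := by
    by_contra hne
    have he1 : e = 1 := by
      have : e * (A : Matrix (Fin 2) (Fin 2) F) 1 0 = 1 * (A : Matrix (Fin 2) (Fin 2) F) 1 0 := by rw [← e10, one_mul]
      exact mul_right_cancel₀ hne this
    rw [he1, one_mul] at e00
    have : b * (A : Matrix (Fin 2) (Fin 2) F) 1 0 = 0 := by linear_combination e00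
    rcases mul_eq_zero.1 this with h | h
    · exact hb h
    · exact hne h
  rw [hc, mul_zero, sub_zero] at hdet
  rw [hc, mul_zero, add_zero] at e00
  have ha : (A : Matrix (Fin 2) (Fin 2) F) 0 0 ≠ 0 := left_ne_zero_of_mul hdet
  have he1 : e = 1 := by
    have : e * (A : Matrix (Fin 2) (Fin 2) F) 0 0 = 1 * (A : Matrix (Fin 2) (Fin 2) F) 0 0 := by rw [← e00, one_mul]
    exact mul_right_cancel₀ ha this
  rw [he1, one_mul] at e01
  have had : (A : Matrix (Fin 2) (Fin 2) F) 1 1 = (A : Matrix (Fin 2) (Fin 2) F) 0 0 := by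
    apply mul_left_cancel₀ hb
    linear_combination e01
  obtain ⟨c, hcd⟩ : ∃ c : F, (A : Matrix (Fin 2) (Fin 2) F) 0 1 = (A : Matrix (Fin 2) (Fin 2) F) 0 0 * c :=
    ⟨(A : Matrix (Fin 2) (Fin 2) F) 0 1 / (A : Matrix (Fin 2) (Fin 2) F) 0 0, by field_simp⟩
  have hAU : (A : Matrix (Fin 2) (Fin 2) F) = (A : Matrix (Fin 2) (Fin 2) F) 0 0 • (un c).1 := by
    rw [un_val]
    ext i j
    fin_cases i <;> fin_cases j <;> simp [hc, had, hcd]
  have hcj : ∀ g : SL(2, F), cj A g = un c * g * (un c)⁻¹ := by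
    intro g
    rw [eq_mul_inv_iff_mul_eq]
    apply Subtype.ext
    rw [Matrix.SpecialLinearGroup.coe_mul, Matrix.SpecialLinearGroup.coe_mul, coe_cj]
    have h12 : (un c).1 = ((A : Matrix (Fin 2) (Fin 2) F) 0 0)⁻¹ • (A : Matrix (Fin 2) (Fin 2) F) := by
      conv_rhs => rw [hAU]
      rw [smul_smul]
      have h13 : (((A : Matrix (Fin 2) (Fin 2) F) 0 0 • (un c).1) 0 0)⁻¹ * (A : Matrix (Fin 2) (Fin 2) F) 0 0 = 1 := by
        rw [un_val]
        simp [ha]
      rw [h13, one_smul]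
    have h11 : ((A⁻¹ : GL (Fin 2) F) : Matrix (Fin 2) (Fin 2) F) * (un c).1 = ((A : Matrix (Fin 2) (Fin 2) F) 0 0)⁻¹ • 1 := by
      rw [h12, Matrix.mul_smul, hAi]
    rw [mul_assoc, h11, Matrix.mul_smul, mul_one, h12, Matrix.smul_mul]
  have hα2 : lift (cj A) = MulAut.conj (unP F (Multiplicative.ofAdd c)) := by
    apply MulEquiv.ext
    intro x
    obtain ⟨g, rfl⟩ := QuotientGroup.mk_surjective x
    have : lift (cj A) (QuotientGroup.mk g) = (QuotientGroup.mk (cj A g) : Matrix.ProjectiveSpecialLinearGroup (Fin 2) F) := rfl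
    rw [this, hcj, MulAut.conj_apply]
    rfl
  have hr : (lift (cj A) : MulAut (Matrix.ProjectiveSpecialLinearGroup (Fin 2) F)) ^ r = 1 := by
    rw [hα2, ← map_pow, unP_pow_char, map_one]
  have hr2 : r ≠ 2 := by
    rintro rfl
    exact h2 (by exact_mod_cast CharP.cast_eq_zero F 2)
  have hcop : Nat.Coprime r (2 ^ k) :=
    Nat.Coprime.pow_right k (((Fact.out : r.Prime).coprime_iff_not_dvd).2 fun h => hr2 ((Nat.prime_dvd_prime_iff_eq Fact.out Nat.prime_two).1 h))
  exact orderOf_eq_one_iff.1 (Nat.eq_one_of_dvd_coprimes hcop (orderOf_dvd_of_pow_eq_one hr) (orderOf_dvd_of_pow_eq_one hα))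

/-- in characteristic `3` elements of order `3` are unipotent -/
theorem unip_of_cube [CharP F 3] {x : Matrix.ProjectiveSpecialLinearGroup (Fin 2) F} (h1 : x ≠ 1) (h3 : x ^ 3 = 1) :
    ∃ y : Matrix.ProjectiveSpecialLinearGroup (Fin 2) F, ∃ b : F, b ≠ 0 ∧ y * x * y⁻¹ = unP F (Multiplicative.ofAdd b) := by
  haveI : Fact (Nat.Prime 3) := ⟨Nat.prime_three⟩
  obtain ⟨g, rfl⟩ := QuotientGroup.mk_surjective x
  have hdet := g.2
  rw [Matrix.det_fin_two] at hdet
  have h30 : (3 : F) = 0 := by exact_mod_cast CharP.cast_eq_zero F 3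
  have ht : (g.1 0 0 + g.1 1 1) ^ 2 - 4 = 0 := by
    by_contra ht
    apply h1
    rw [← QuotientGroup.mk_pow, QuotientGroup.eq_one_iff, Matrix.SpecialLinearGroup.mem_center_iff] at h3
    obtain ⟨e, -, he⟩ := h3
    have hcube : (g ^ 3 : SL(2, F)).1 = g.1 * g.1 * g.1 := by
      rw [Matrix.SpecialLinearGroup.coe_pow]
      change g.1 ^ 3 = _
      rw [pow_succ, sq]
    rw [hcube] at he
    have e00 := congrFun (congrFun he 0) 0
    have e01 := congrFun (congrFun he 0) 1
    have e10 := congrFun (congrFun he 1) 0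
    have e11 := congrFun (congrFun he 1) 1
    simp [Matrix.mul_apply, Fin.sum_univ_two] at e00 e01 e10 e11
    have ht' : (g.1 0 0 + g.1 1 1) ^ 2 - 1 ≠ 0 := by
      intro h
      apply ht
      linear_combination h - h30
    have z01 : g.1 0 1 = 0 := by
      apply (mul_eq_zero.1 (_ : ((g.1 0 0 + g.1 1 1) ^ 2 - 1) * g.1 0 1 = 0)).resolve_left ht'
      linear_combination -e01 + g.1 0 1 * hdet
    have z10 : g.1 1 0 = 0 := by
      apply (mul_eq_zero.1 (_ : ((g.1 0 0 + g.1 1 1) ^ 2 - 1) * g.1 1 0 = 0)).resolve_left ht'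
      linear_combination -e10 + g.1 1 0 * hdet
    have z0 : g.1 0 0 - g.1 1 1 = 0 := by
      apply (mul_eq_zero.1 (_ : ((g.1 0 0 + g.1 1 1) ^ 2 - 1) * (g.1 0 0 - g.1 1 1) = 0)).resolve_left ht'
      linear_combination e11 - e00 + (g.1 0 0 - g.1 1 1) * hdet
    rw [QuotientGroup.eq_one_iff, Matrix.SpecialLinearGroup.mem_center_iff]
    refine ⟨g.1 0 0, ?_, ?_⟩
    · rw [Fintype.card_fin]
      rw [z01, zero_mul, sub_zero] at hdet
      linear_combination hdet + g.1 0 0 * z0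
    · ext i j
      fin_cases i <;> fin_cases j <;> simp
      · exact z01.symm
      · exact z10.symm
      · exact sub_eq_zero.1 z0
  obtain ⟨y, b, h⟩ := mk_conj_un g ht 3
  refine ⟨y, b, ?_, h⟩
  rintro rfl
  apply h1
  have h4 : unP F (Multiplicative.ofAdd (0 : F)) = 1 := map_one _
  rw [h4] at h
  have : (QuotientGroup.mk g : Matrix.ProjectiveSpecialLinearGroup (Fin 2) F) = y⁻¹ * (y * QuotientGroup.mk g * y⁻¹) * y := by group
  rw [this, h]
  group

/-- an automorphism of `2`-power order centralising an element of order `3` is trivial -/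
theorem eq_one_of_fix' [CharP F 3] (hodd : Odd (Nat.card (F ≃+* F)))
    {α : MulAut (Matrix.ProjectiveSpecialLinearGroup (Fin 2) F)} {k : ℕ} (hα : α ^ 2 ^ k = 1)
    {x : Matrix.ProjectiveSpecialLinearGroup (Fin 2) F} (h1 : x ≠ 1) (h3 : x ^ 3 = 1) (hf : α x = x) : α = 1 := by
  haveI : Fact (Nat.Prime 3) := ⟨Nat.prime_three⟩
  obtain ⟨y, b, hb, h⟩ := unip_of_cube h1 h3
  have h2 : (2 : F) ≠ 0 := by
    have h30 : (3 : F) = 0 := by exact_mod_cast CharP.cast_eq_zero F 3
    intro h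
    exact one_ne_zero (by linear_combination h30 - h : (1 : F) = 0)
  have h4 : MulAut.conj y * α * (MulAut.conj y)⁻¹ = 1 := by
    apply eq_one_of_fix h2 hodd 3 (k := k) _ hb
    · rw [MulAut.mul_apply, MulAut.mul_apply, ← h, MulAut.conj_apply, MulAut.conj_inv_apply]
      have : y⁻¹ * (y * x * y⁻¹) * y = x := by group
      rw [this, hf]
    · rw [conj_pow, hα, mul_one, mul_inv_cancel]
  have h5 := mul_eq_one_iff_eq_inv.1 h4
  rw [inv_inv] at h5
  exact mul_left_cancel (h5.trans (mul_one _).symm)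

end Cfsg.Agent.H18.Carter.PslTwo
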