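import Cfsg.Agent.H18.Carter.PslTwo
import Cfsg.Agent.H18.Carter.OfAS

/-!
# S3852: the rows `PSL₂(q)`, `q` odd
-/

set_option autoImplicit false
set_option linter.unusedSectionVars false
set_option linter.unusedVariables false
set_option linter.style.haveILetI false

namespace Cfsg.Agent.H18.Carter.PslTwo

open Subgroup Pointwise
open Cfsg.Agent.Solvable.Carter Cfsg.Agent.H381.Car

universe u

section

variable {G : Type u} [Group G] [Finite G] {S : Subgroup G} [S.Normal] {F : Type} [Field F] [Fintype F]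

theorem char_three {m : ℕ} (hF : Fintype.card F = 3 ^ (2 * m + 1)) : CharP F 3 := by
  obtain ⟨r, hr⟩ := CharP.exists F
  obtain ⟨n, hrp, h⟩ := FiniteField.card F r
  rw [hF] at h
  have : r = 3 := by
    have h1 : r ∣ 3 ^ (2 * m + 1) := by rw [h]; exact dvd_pow_self r n.2.ne'
    exact (Nat.prime_dvd_prime_iff_eq hrp Nat.prime_three).1 (hrp.dvd_of_dvd_pow h1)
  rwa [this] at hr

/-- an element of `2`-power order commuting with an element of `S` of order `3` is trivial -/
theorem two_elt_eq_one (cen : centralizer (S : Set G) = ⊥) {m : ℕ} (hF : Fintype.card F = 3 ^ (2 * m + 1))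
    (e : S ≃* Matrix.ProjectiveSpecialLinearGroup (Fin 2) F) {z t : G} (hzS : z ∈ S) (hz : orderOf z = 3)
    (htz : t * z = z * t) {k : ℕ} (ht : t ^ 2 ^ k = 1) : t = 1 := by
  haveI := char_three hF
  haveI : Fact (Nat.Prime 3) := ⟨Nat.prime_three⟩
  have hodd : Odd (Nat.card (F ≃+* F)) := by
    rw [Cfsg.Agent.Lib.FieldAutCard.card_ringAut (by omega) hF]
    exact ⟨m, rfl⟩
  set Φ : G →* MulAut (Matrix.ProjectiveSpecialLinearGroup (Fin 2) F) :=
    (MulAut.congr e).toMonoidHom.comp (MulAut.conjNormal (H := S)) with hΦ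
  have hΦa : ∀ (g : G) (s : S), Φ g (e s) = e (MulAut.conjNormal g s) := by
    intro g s
    change e (MulAut.conjNormal g (e.symm (e s))) = _
    rw [e.symm_apply_apply]
  have h1 : Φ t = 1 := by
    refine eq_one_of_fix' hodd (k := k) (by rw [← map_pow, ht, map_one]) (x := e ⟨z, hzS⟩) ?_ ?_ ?_
    · intro h
      rw [map_eq_one_iff e e.injective] at h
      have : z = 1 := congrArg Subtype.val h
      rw [this, orderOf_one] at hz
      exact absurd hz (by norm_num)
    · rw [← map_pow, map_eq_one_iff e e.injective]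
      apply Subtype.ext
      change z ^ 3 = 1
      rw [← hz, pow_orderOf_eq_one]
    · rw [hΦa]
      congr 1
      apply Subtype.ext
      rw [MulAut.conjNormal_apply]
      change t * z * t⁻¹ = z
      rw [htz, mul_inv_cancel_right]
  have h2 : t ∈ centralizer (S : Set G) := by
    intro s hs
    have h3 := hΦa t ⟨s, hs⟩
    rw [h1] at h3
    have h4 := congrArg Subtype.val (e.injective h3)
    rw [MulAut.conjNormal_apply] at h4
    have h5 : s = t * s * t⁻¹ := h4
    rw [eq_mul_inv_iff_mul_eq] at h5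
    exact h5
  rw [cen] at h2
  exact mem_bot.1 h2

/-- if `3` divides `|K ∩ S|` then `|K|` is odd -/
theorem not_two_dvd (cen : centralizer (S : Set G) = ⊥) {m : ℕ} (hF : Fintype.card F = 3 ^ (2 * m + 1))
    (e : S ≃* Matrix.ProjectiveSpecialLinearGroup (Fin 2) F) {K : Subgroup G} (hK : Group.IsNilpotent K)
    (h3 : 3 ∣ Nat.card ↥(K ⊓ S)) : ¬ 2 ∣ Nat.card K := by
  haveI : Fact (Nat.Prime 3) := ⟨Nat.prime_three⟩
  haveI : Fact (Nat.Prime 2) := ⟨Nat.prime_two⟩
  intro h2
  obtain ⟨z, hzS, -, hz, hc⟩ := exists_central (S := S) hK h3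
  obtain ⟨t, ht⟩ := exists_prime_orderOf_dvd_card' 2 h2
  have h4 : (t : G) * z = z * t := mem_centralizer_singleton_iff.1 (hc t.2)
  have h5 : (t : G) ^ 2 ^ 1 = 1 := by
    rw [pow_one, ← ht, ← Subgroup.orderOf_coe, pow_orderOf_eq_one]
  have h6 := two_elt_eq_one cen hF e hzS hz h4 h5
  have : t = 1 := Subtype.ext h6
  rw [this, orderOf_one] at ht
  exact absurd ht (by norm_num)

/-- odd primes `≠ 3` do not divide `|K ∩ S|` (`q = 3^odd`) -/
theorem not_dvd (c : Ctx G S) {m : ℕ} (hF : Fintype.card F = 3 ^ (2 * m + 1))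
    (e : S ≃* Matrix.ProjectiveSpecialLinearGroup (Fin 2) F) {K : Subgroup G} (hK : IsCarter K) {r : ℕ}
    (hr : r.Prime) (hr2 : r ≠ 2) (hr3 : r ≠ 3) : ¬ r ∣ Nat.card ↥(K ⊓ S) := by
  haveI : Fact r.Prime := ⟨hr⟩
  haveI : Fact (Nat.Prime 3) := ⟨Nat.prime_three⟩
  haveI := char_three hF
  refine not_dvd_of_power c (r := r) ?_ hK
  intro z hz ho
  have ho' : orderOf (e ⟨z, hz⟩) = r := by
    rw [MulEquiv.orderOf_eq, Subgroup.orderOf_mk, ho]
  rcases real_or 3 (e ⟨z, hz⟩) with ⟨y, hy⟩ | ⟨y, b, h⟩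
  · have h1 : e (e.symm y * ⟨z, hz⟩ * (e.symm y)⁻¹) = e (⟨z, hz⟩⁻¹) := by
      rw [map_mul, map_mul, map_inv, map_inv, e.apply_symm_apply, hy]
    have h2 := congrArg Subtype.val (e.injective h1)
    refine ⟨(e.symm y : G), ?_, ?_⟩
    · have h3 : ((e.symm y : S) : G) * z * ((e.symm y : S) : G)⁻¹ = z⁻¹ := h2
      rw [h3]
      exact ne_inv_of_odd (by rw [ho]; exact hr) (by rw [ho]; exact hr2)
    · have h3 : ((e.symm y : S) : G) * z * ((e.symm y : S) : G)⁻¹ = z⁻¹ := h2
      rw [h3]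
      exact inv_mem (mem_zpowers z)
  · exfalso
    have h1 : (e ⟨z, hz⟩) ^ 3 = 1 := by
      have h2 : e ⟨z, hz⟩ = y⁻¹ * H906.unP F (Multiplicative.ofAdd b) * y := by rw [← h]; group
      have := conj_pow (i := 3) (a := y⁻¹) (b := H906.unP F (Multiplicative.ofAdd b))
      rw [inv_inv, ← h2, unP_pow_char] at this
      rw [this]; group
    have h4 := orderOf_dvd_of_pow_eq_one h1
    rw [ho'] at h4
    exact hr3 ((Nat.prime_dvd_prime_iff_eq hr Nat.prime_three).1 h4)

/-- `K ∩ S` is a `2`-group or a `3`-group (`q = 3^odd`) -/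
theorem two_or_three (c : Ctx G S) {m : ℕ} (hF : Fintype.card F = 3 ^ (2 * m + 1))
    (e : S ≃* Matrix.ProjectiveSpecialLinearGroup (Fin 2) F) {K : Subgroup G} (hK : IsCarter K) :
    (¬ 3 ∣ Nat.card ↥(K ⊓ S) ∧ IsPGroup 2 ↥(K ⊓ S)) ∨ (¬ 2 ∣ Nat.card K ∧ IsPGroup 3 ↥(K ⊓ S)) := by
  by_cases h3 : 3 ∣ Nat.card ↥(K ⊓ S)
  · right
    have h2 := not_two_dvd c.cen hF e hK.1 h3
    refine ⟨h2, ?_⟩
    rw [IsPGroup.iff_card]
    refine ⟨_, Nat.eq_prime_pow_of_unique_prime_dvd Nat.card_pos.ne' ?_⟩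
    intro r hr hdv
    by_contra hne
    by_cases hr2 : r = 2
    · subst hr2
      exact h2 (hdv.trans (card_dvd_of_le inf_le_left))
    · exact not_dvd c hF e hK hr hr2 hne hdv
  · left
    refine ⟨h3, ?_⟩
    rw [IsPGroup.iff_card]
    refine ⟨_, Nat.eq_prime_pow_of_unique_prime_dvd Nat.card_pos.ne' ?_⟩
    intro r hr hdv
    by_contra hne
    by_cases hr3 : r = 3
    · subst hr3
      exact h3 hdv
    · exact not_dvd c hF e hK hr hne hr3 hdv

theorem card_mod {m : ℕ} (hF : Fintype.card F = 3 ^ (2 * m + 1))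
    (e : S ≃* Matrix.ProjectiveSpecialLinearGroup (Fin 2) F) : Nat.card S % 8 = 4 := by
  have hodd : Odd (Fintype.card F) := by rw [hF]; exact Odd.pow (by decide)
  have h1 := Cfsg.Agent.ClassicalGeometry.PSL2Basic.card_PSL2_odd F hodd
  rw [← Nat.card_congr e.toEquiv] at h1
  have h2 : Fintype.card F % 8 = 3 := by
    rw [hF, pow_succ, pow_mul, Nat.mul_mod, Nat.pow_mod]
    norm_num
  obtain ⟨a, ha⟩ : ∃ a, Fintype.card F = 8 * a + 3 := ⟨Fintype.card F / 8, by omega⟩
  have h3 : Fintype.card F ^ 2 - 1 = 8 * (8 * a ^ 2 + 6 * a + 1) := by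
    rw [ha]
    have : (8 * a + 3) ^ 2 = 8 * (8 * a ^ 2 + 6 * a + 1) + 1 := by ring
    omega
  rw [h3, ha] at h1
  have h4 : (8 * a + 3) * (8 * (8 * a ^ 2 + 6 * a + 1)) = 2 * (4 * (2 * (32 * a ^ 3 + 36 * a ^ 2 + 13 * a + 1) + 1)) := by ring
  rw [h4] at h1
  omega

/-- `K ∩ S` is not a `2`-group if `|G : S|` is odd, `q = 3^odd` -/
theorem not_two_group (hFp : Fpf.{u}) (c : Ctx G S) {m : ℕ} (hF : Fintype.card F = 3 ^ (2 * m + 1))
    (e : S ≃* Matrix.ProjectiveSpecialLinearGroup (Fin 2) F) (hi : ¬ 2 ∣ S.index) {K : Subgroup G} (hK : IsCarter K) :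
    ¬ IsPGroup 2 ↥(K ⊓ S) := by
  haveI : Fact (Nat.Prime 2) := ⟨Nat.prime_two⟩
  intro h2
  obtain ⟨P, hPS, hPp, hPl, hPK⟩ := lemma_x hFp c.min S hK h2
  have hmod := card_mod (S := S) hF e
  -- the order of `P`
  have hP4 : Nat.card P = 4 := by
    have h3 : Nat.card P * P.relIndex S = Nat.card S := by
      have := Subgroup.relIndex_mul_relIndex ⊥ P S bot_le hPS
      rwa [relIndex_bot_left, relIndex_bot_left] at this
    obtain ⟨n, hn⟩ := IsPGroup.iff_card.1 hPp
    rw [hn] at h3 ⊢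
    obtain ⟨d, hd⟩ : Odd (P.relIndex S) := by rwa [← Nat.not_even_iff_odd, even_iff_two_dvd]
    rw [hd] at h3
    rcases n with _ | _ | _ | n
    · omega
    · omega
    · norm_num
    · exfalso
      have : 2 ^ (n + 3) * (2 * d + 1) = 8 * (2 ^ n * (2 * d + 1)) := by ring
      rw [this] at h3
      omega
  -- `K ∩ S ≤ P`
  have hKP : K ⊓ S ≤ P := by
    have hX : IsPGroup 2 ↥((K ⊓ S) ⊔ P) := h2.to_sup_of_normal_right' hPp (inf_le_left.trans hPK)
    have hXS : (K ⊓ S) ⊔ P ≤ S := sup_le inf_le_right hPS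
    have h3 := Subgroup.relIndex_mul_relIndex P ((K ⊓ S) ⊔ P) S le_sup_right hXS
    have h4 : P.relIndex ((K ⊓ S) ⊔ P) = 1 := by
      obtain ⟨n, hn⟩ := hX.index (P.subgroupOf ((K ⊓ S) ⊔ P))
      change P.relIndex ((K ⊓ S) ⊔ P) = 2 ^ n at hn
      rcases n with _ | n
      · rw [hn, pow_zero]
      · exfalso
        apply hPl
        rw [← h3, hn]
        exact (dvd_pow_self 2 (Nat.succ_ne_zero n)).mul_right _
    exact le_sup_left.trans (relIndex_eq_one.1 h4)
  have hcomm : ∀ a ∈ P, ∀ b ∈ P, a * b = b * a := by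
    have h5 : Nat.card P = 2 ^ 2 := by rw [hP4]; norm_num
    have h6 := IsPGroup.isMulCommutative_of_card_eq_prime_sq (p := 2) h5
    intro a ha b hb
    exact congrArg Subtype.val (h6.is_comm.comm ⟨a, ha⟩ ⟨b, hb⟩)
  -- a central involution
  have h2d : 2 ∣ Nat.card ↥(K ⊓ S) := by
    obtain ⟨n, hn⟩ := IsPGroup.iff_card.1 h2
    rcases n with _ | n
    · exfalso
      rw [pow_zero] at hn
      exact inf_ne_bot hFp c hK (card_eq_one.1 hn)
    · rw [hn]
      exact dvd_pow_self 2 (Nat.succ_ne_zero n)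
  obtain ⟨x, hxS, hxK, hx, hxc⟩ := exists_central (S := S) hK.1 h2d
  have hxP : x ∈ P := hKP ⟨hxK, hxS⟩
  have hx2 : x ^ 2 = 1 := by rw [← hx, pow_orderOf_eq_one]
  have hXP : zpowers x ≤ P := by rw [zpowers_le]; exact hxP
  have hidx : (zpowers x).relIndex P = 2 := by
    have h6 := Subgroup.relIndex_mul_relIndex ⊥ (zpowers x) P bot_le hXP
    rw [relIndex_bot_left, relIndex_bot_left, Nat.card_zpowers, hx, hP4] at h6
    omega
  -- `K` centralises `P`
  have hKc : ∀ k ∈ K, ∀ w ∈ P, k * w = w * k := by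
    intro k hk w hw
    have hkx : k * x = x * k := mem_centralizer_singleton_iff.1 (hxc hk)
    have hkw : k * w * k⁻¹ ∈ P := (mem_normalizer_iff.1 (hPK hk) w).1 hw
    have h7 : k * w * k⁻¹ * w⁻¹ ∈ zpowers x := by
      by_cases hwx : w ∈ zpowers x
      · obtain ⟨i, rfl⟩ := mem_zpowers_iff.1 hwx
        have : k * x ^ i = x ^ i * k := ((show Commute k x from hkx).zpow_right i)
        rw [this, mul_inv_cancel_right, mul_inv_cancel]
        exact one_mem _
      · have h8 : k * w * k⁻¹ ∉ zpowers x := by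
          intro h9
          obtain ⟨i, hi9⟩ := mem_zpowers_iff.1 h9
          apply hwx
          have : w = k⁻¹ * x ^ i * k := by rw [hi9]; group
          rw [this]
          have h10 : k⁻¹ * x ^ i = x ^ i * k⁻¹ := (((show Commute k x from hkx).zpow_right i).inv_left)
          rw [h10, inv_mul_cancel_right]
          exact zpow_mem (mem_zpowers x) i
        have h11 := mul_mem_iff_of_index_two (H := (zpowers x).subgroupOf P) hidx (a := ⟨k * w * k⁻¹, hkw⟩) (b := ⟨w, hw⟩⁻¹)
        rw [mem_subgroupOf, mem_subgroupOf, inv_mem_iff, mem_subgroupOf] at h11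
        exact h11.2 (iff_of_false h8 hwx)
    obtain ⟨i, hi7⟩ := mem_zpowers_iff.1 h7
    -- `k w k⁻¹ = x^i w`
    have hn : ∀ n : ℕ, k ^ n * w = (x ^ i) ^ n * w * k ^ n := by
      intro n
      induction n with
      | zero => simp
      | succ n ih =>
        have h14 : k * w = x ^ i * w * k := by rw [hi7]; group
        have h15 : Commute (k ^ n) (x ^ i) := ((show Commute k x from hkx).zpow_right i).pow_left n
        rw [pow_succ, mul_assoc, h14, ← mul_assoc, ← mul_assoc, h15.eq, mul_assoc (x ^ i) (k ^ n) w, ih, pow_succ' (x ^ i)]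
        group
    obtain ⟨N, hN⟩ : ∃ N, S.index = 2 * N + 1 := by
      obtain ⟨N, hN⟩ : Odd S.index := by rwa [← Nat.not_even_iff_odd, even_iff_two_dvd]
      exact ⟨N, hN⟩
    have hkS : k ^ S.index ∈ S := by
      rw [← QuotientGroup.eq_one_iff (N := S), QuotientGroup.mk_pow]
      exact pow_card_eq_one'
    have hkN : k ^ S.index ∈ P := hKP ⟨pow_mem hk _, hkS⟩
    have h16 := hn S.index
    rw [hcomm _ hkN w hw] at h16
    have h17 : (x ^ i) ^ S.index = 1 := by
      have h18 : (x ^ i) ^ S.index * (w * k ^ S.index) = w * k ^ S.index := by rw [← mul_assoc]; exact h16.symm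
      exact mul_eq_right.1 h18
    have h19 : (x ^ i) ^ 2 = 1 := by rw [← zpow_natCast, ← zpow_mul, mul_comm, zpow_mul, zpow_natCast, hx2, one_zpow]
    have h20 : x ^ i = 1 := by
      rw [hN, pow_succ, pow_mul, h19, one_pow, one_mul] at h17
      exact h17
    rw [h20] at hi7
    have h21 := mul_inv_eq_one.1 hi7.symm
    exact mul_inv_eq_iff_eq_mul.1 h21
  have hPK' : P ≤ K := by
    intro w hw
    rw [← hK.2]
    refine centralizer_le_normalizer _ ?_
    intro k hk
    exact hKc k hk w hw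
  have h12 : normalizer (P : Set G) ≤ centralizer (P : Set G) := by
    have hPb : P ≠ ⊥ := by
      rintro rfl
      rw [Subgroup.card_bot] at hP4
      omega
    have h13 : P ≤ centralizer (P : Set G) := fun a ha b hb => hcomm b hb a ha
    refine (norm_le c hK hPb hPK' (le_sup_of_le_right fun k hk w hw => (hKc k hk w hw).symm)).trans (sup_le h13 le_rfl)
  haveI := c.simple
  have hp1 : IsPGroup 2 (P.subgroupOf S) := hPp.comap_of_injective S.subtype S.subtype_injective
  set P' : Sylow 2 S := hp1.toSylow hPl with hP'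
  have hP'c : (P' : Subgroup S) = P.subgroupOf S := rfl
  have hN : normalizer (P' : Set S) ≤ centralizer (P' : Set S) := by
    intro s hs
    have h13 : (s : G) ∈ normalizer (P : Set G) := by
      rw [mem_normalizer_iff]
      intro w
      constructor
      · intro hw
        have h14 := (mem_normalizer_iff.1 hs ⟨w, hPS hw⟩).1 hw
        exact h14
      · intro hw
        have hwS : w ∈ S := by
          have := hPS hw
          have h15 := mul_mem (mul_mem (inv_mem s.2) this) s.2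
          have e : w = (s : G)⁻¹ * (s * w * (s : G)⁻¹) * s := by group
          rw [e]
          exact h15
        have h14 := (mem_normalizer_iff.1 hs ⟨w, hwS⟩).2 hw
        exact h14
    intro w hw
    apply Subtype.ext
    exact h12 h13 w hw
  have hnd := MonoidHom.not_dvd_card_ker_transferSylow P' hN
  have hcomp := MonoidHom.ker_transferSylow_isComplement' P' hN
  rcases IsSimpleGroup.eq_bot_or_eq_top_of_normal (MonoidHom.transferSylow P' hN).ker inferInstance with hk | hk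
  · have h16 : (P' : Subgroup S) = ⊤ := by
      have := hcomp.sup_eq_top
      rwa [hk, bot_sup_eq] at this
    apply c.na
    intro a b
    have ha : a ∈ P.subgroupOf S := by rw [← hP'c, h16]; trivial
    have hb : b ∈ P.subgroupOf S := by rw [← hP'c, h16]; trivial
    exact Subtype.ext (hcomm _ ha _ hb)
  · rw [hk, Subgroup.card_top] at hnd
    apply hnd
    omega

/-- **`PSL₂(q)`, `q` odd: what is known about `K ∩ S`.** -/
theorem psl2_field (c : Ctx G S) (ho : Odd (Fintype.card F)) (e : S ≃* Matrix.ProjectiveSpecialLinearGroup (Fin 2) F)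
    {K : Subgroup G} (hK : IsCarter K) :
    ((∀ m : ℕ, Fintype.card F ≠ 3 ^ (2 * m + 1)) → IsPGroup 2 ↥(K ⊓ S)) ∧
    ∀ m : ℕ, Fintype.card F = 3 ^ (2 * m + 1) →
      (¬ 3 ∣ Nat.card ↥(K ⊓ S) ∧ IsPGroup 2 ↥(K ⊓ S)) ∨ (¬ 2 ∣ Nat.card K ∧ IsPGroup 3 ↥(K ⊓ S)) := by
  refine ⟨fun h3 => ?_, fun m hF => two_or_three c hF e hK⟩
  rw [IsPGroup.iff_card]
  refine ⟨_, Nat.eq_prime_pow_of_unique_prime_dvd Nat.card_pos.ne' ?_⟩
  intro r hr hdv
  by_contra hne
  haveI : Fact r.Prime := ⟨hr⟩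
  refine not_dvd_of_power c (r := r) ?_ hK hdv
  intro z hz hzo
  have e1 : orderOf (⟨z, hz⟩ : S) = orderOf z := Subgroup.orderOf_mk z hz
  obtain ⟨g, h1, h2⟩ := (powConj ho h3).of_equiv e.symm ⟨z, hz⟩ (by rw [e1, hzo]; exact hr) (by rw [e1, hzo]; exact hne)
  refine ⟨g, fun h3 => h1 (Subtype.ext h3), ?_⟩
  obtain ⟨k, hk⟩ := mem_zpowers_iff.1 h2
  exact mem_zpowers_iff.2 ⟨k, congrArg Subtype.val hk⟩

/-- **The rows `PSL₂(q)`, `q` odd.** -/
theorem row_psl2_odd (hFp : Fpf.{u}) (c : Ctx G S) (ho : Odd (Fintype.card F))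
    (e : S ≃* Matrix.ProjectiveSpecialLinearGroup (Fin 2) F) : CC G := by
  haveI : Fact (Nat.Prime 2) := ⟨Nat.prime_two⟩
  haveI : Fact (Nat.Prime 3) := ⟨Nat.prime_three⟩
  by_cases h3 : ∀ m : ℕ, Fintype.card F ≠ 3 ^ (2 * m + 1)
  · exact cc_of_powConj hFp c ((powConj ho h3).of_equiv e.symm)
  · push Not at h3
    obtain ⟨m, hF⟩ := h3
    by_cases hi : 2 ∣ S.index
    · refine cc_of_l hFp c 2 fun K hK => ?_
      rcases two_or_three c hF e hK with h | ⟨h, -⟩
      · exact h.2
      · exfalso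
        apply h
        have h4 : S.relIndex K = S.index := by
          have h5 := Subgroup.relIndex_sup_right (H := K) (K := S)
          rw [c.prod K hK, relIndex_top_right] at h5
          exact h5.symm
        rw [← h4] at hi
        exact hi.trans (relIndex_dvd_card _ _)
    · refine cc_of_l hFp c 3 fun K hK => ?_
      rcases two_or_three c hF e hK with h | ⟨-, h⟩
      · exact absurd h.2 (not_two_group hFp c hF e hi hK)
      · exact h

/-- **The rows `PSL₂(q)`, `q` even.** -/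
theorem row_psl2_even (hFp : Fpf.{u}) (c : Ctx G S) (he : Even (Fintype.card F))
    (e : S ≃* Matrix.ProjectiveSpecialLinearGroup (Fin 2) F) : CC G := by
  refine cc_of_powConj hFp c (PowConj.of_equiv e.symm ?_)
  intro z hz hz2
  obtain ⟨r, hr⟩ := CharP.exists F
  obtain ⟨n, hrp, h⟩ := FiniteField.card F r
  have hr2 : r = 2 := by
    rw [h, even_iff_two_dvd] at he
    exact ((Nat.prime_dvd_prime_iff_eq Nat.prime_two hrp).1 (Nat.prime_two.dvd_of_dvd_pow he)).symm
  subst hr2
  haveI : Fact (Nat.Prime 2) := ⟨Nat.prime_two⟩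
  rcases H906.PSL2_real_or_unip 2 z with ⟨y, hy⟩ | h2
  · exact ⟨y, by rw [hy]; exact ne_inv_of_odd hz hz2, by rw [hy]; exact inv_mem (mem_zpowers z)⟩
  · exact absurd ((Nat.prime_dvd_prime_iff_eq hz Nat.prime_two).1 (orderOf_dvd_of_pow_eq_one h2)) hz2

/-- **The rows `PSL₂(q)`.** -/
theorem row_psl2 (hFp : Fpf.{u}) (c : Ctx G S) (e : S ≃* Matrix.ProjectiveSpecialLinearGroup (Fin 2) F) : CC G := by
  rcases Nat.even_or_odd (Fintype.card F) with h | h
  · exact row_psl2_even hFp c h e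
  · exact row_psl2_odd hFp c h e

end

end Cfsg.Agent.H18.Carter.PslTwo
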