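import Cfsg.Agent.H18.Carter.Alt
import Cfsg.Agent.H381.Car.Conj

/-!
# S3852: rows from `PowConj` (alternating groups)
-/

set_option autoImplicit false

namespace Cfsg.Agent.H18.Carter

open Subgroup

universe u

variable {G : Type u} [Group G] [Finite G] {S : Subgroup G} [S.Normal]

/-- A row of S3852 from `PowConj`. -/
theorem cc_of_powConj (hF : H381.Car.Fpf.{u}) (c : Ctx G S) (h : PowConj ↥S) : CC G := by
  refine H381.Car.cc_of_real hF c fun z hz ho ho2 => ?_
  have e : orderOf (⟨z, hz⟩ : S) = orderOf z := Subgroup.orderOf_mk z hz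
  obtain ⟨g, h1, h2⟩ := h ⟨z, hz⟩ (by rw [e]; exact ho) (by rw [e]; exact ho2)
  refine ⟨g, fun h3 => h1 (Subtype.ext h3), ?_⟩
  obtain ⟨k, hk⟩ := mem_zpowers_iff.1 h2
  exact mem_zpowers_iff.2 ⟨k, congrArg Subtype.val hk⟩

/-- **The alternating row.** -/
theorem row_alt (hF : H381.Car.Fpf.{u}) (c : Ctx G S) {n : ℕ} (h5 : 5 ≤ n) (e : ↥S ≃* ↥(alternatingGroup (Fin n))) : CC G :=
  cc_of_powConj hF c ((alt_powConj h5).of_equiv e.symm)

end Cfsg.Agent.H18.Carter
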