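import Cfsg.Agent.H18.Carter.Basic
import Cfsg.Agent.Lib.SolvableNormalP

/-!
# S3852, rows `PSp₂ₙ(q)`, `q` odd: groups of semilinear isometries (interface)

`Md F B Γ` : `Γ` acts faithfully on the symplectic space `(V, B)` by semilinear isometries and contains `Sp(V)`.

* `T.L` : the linear elements, i.e. `Sp(V)`; `T.lin g hg : V ≃ₗ[F] V`;
* `T.eps` : the element `-1`;
* `Sm2 Γ` : the Carter subgroups of all groups `Y` with `2 |Y| < |Γ|` are conjugate;
* `Sm2.cc_sub` : those of proper subgroups of `Γ` containing `-1` are conjugate;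
* `Sm2.norm` : `K ≤ M ≠ ⊤`, `K` Carter: `N(M) = M`;
* `Sm2.eq_of_conj` : elements centralised by `K` which are conjugate in `Γ` are equal.
-/

set_option autoImplicit false
set_option linter.style.haveILetI false

namespace Cfsg.Agent.H18.Carter

open Subgroup Pointwise
open Cfsg.Agent.Solvable.Carter

universe u

/-! ### central quotients -/

section

variable {Y : Type*} [Group Y]

theorem IsCarter.center_le {K : Subgroup Y} (hK : IsCarter K) : center Y ≤ K := by
  intro x hx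
  rw [← hK.2, mem_normalizer_iff]
  intro y
  rw [← mem_center_iff.1 hx y, mul_inv_cancel_right]

theorem IsCarter.map_central {K Z : Subgroup Y} [Z.Normal] (hZ : Z ≤ center Y) (hK : IsCarter K) :
    IsCarter (K.map (QuotientGroup.mk' Z)) := by
  have := hK.1
  have hZK : Z ≤ K := hZ.trans (IsCarter.center_le hK)
  refine ⟨Group.nilpotent_of_surjective ((QuotientGroup.mk' Z).subgroupMap K) ((QuotientGroup.mk' Z).subgroupMap_surjective K), ?_⟩
  refine le_antisymm ?_ le_normalizer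
  intro y hy
  obtain ⟨y, rfl⟩ := QuotientGroup.mk'_surjective Z y
  refine ⟨y, ?_, rfl⟩
  change y ∈ K
  rw [← hK.2]
  have key : ∀ x : Y, x ∈ K ↔ QuotientGroup.mk' Z x ∈ K.map (QuotientGroup.mk' Z) := by
    intro x
    refine ⟨fun h => ⟨x, h, rfl⟩, ?_⟩
    rintro ⟨k, hk, e⟩
    have h1 : k⁻¹ * x ∈ Z := QuotientGroup.eq.1 e
    have := mul_mem hk (hZK h1)
    rwa [mul_inv_cancel_left] at this
  rw [mem_normalizer_iff] at hy ⊢
  intro x
  rw [key, key, map_mul, map_mul, map_inv]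
  exact hy _

/-- conjugacy lifts through central quotients -/
theorem CC.of_central {Z : Subgroup Y} [Z.Normal] (hZ : Z ≤ center Y) (h : CC (Y ⧸ Z)) : CC Y := by
  intro K H hK hH
  obtain ⟨g, hg⟩ := h _ _ (IsCarter.map_central hZ hK) (IsCarter.map_central hZ hH)
  obtain ⟨g, rfl⟩ := QuotientGroup.mk'_surjective Z g
  refine ⟨g, ?_⟩
  have hZK : Z ≤ K := hZ.trans (IsCarter.center_le hK)
  have hZH : Z ≤ H := hZ.trans (IsCarter.center_le hH)
  have e1 : (MulAut.conj g • K).map (QuotientGroup.mk' Z) = H.map (QuotientGroup.mk' Z) := by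
    rw [← hg]
    ext y
    constructor
    · rintro ⟨x, hx, rfl⟩
      rw [mem_cj]
      exact ⟨_, mem_cj.1 hx, by rw [map_mul, map_mul, map_inv]⟩
    · intro hy
      obtain ⟨x, hx, e⟩ := mem_cj.1 hy
      refine ⟨g * x * g⁻¹, cj_mem hx, ?_⟩
      rw [map_mul, map_mul, map_inv, e]
      group
  have e2 : (MulAut.conj g • K) ⊔ Z = H ⊔ Z := by
    have := congrArg (Subgroup.comap (QuotientGroup.mk' Z)) e1
    rwa [comap_map_eq, comap_map_eq, QuotientGroup.ker_mk'] at this
  have hZK' : Z ≤ MulAut.conj g • K := by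
    intro z hz
    rw [mem_cj]
    exact hZK (by
      have := ‹Z.Normal›.conj_mem z hz g⁻¹
      rwa [inv_inv] at this)
  rwa [sup_eq_left.2 hZK', sup_eq_left.2 hZH] at e2

end

/-! ### the hypothesis -/

/-- the Carter subgroups of all groups `Y` with `2 |Y| < |Γ|` are conjugate -/
def Sm2 (Γ : Type u) [Group Γ] : Prop :=
  ∀ (Y : Type u) [Group Y] [Finite Y], 2 * Nat.card Y < Nat.card Γ → CC Y

section

variable {Γ : Type u} [Group Γ] [Finite Γ]

/-- groups with a central element of order two -/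
theorem Sm2.cc_central (sm : Sm2 Γ) {Y : Type u} [Group Y] [Finite Y] (hY : Nat.card Y < Nat.card Γ) {e : Y}
    (he : e ∈ center Y) (he2 : orderOf e = 2) : CC Y := by
  have hZ : zpowers e ≤ center Y := by rw [zpowers_le]; exact he
  haveI : (zpowers e).Normal := ⟨fun n hn g => by
    rw [(mem_center_iff.1 (hZ hn)) g, mul_inv_cancel_right]
    exact hn⟩
  refine CC.of_central hZ (sm _ ?_)
  have h1 := Subgroup.card_eq_card_quotient_mul_card_subgroup (zpowers e)
  rw [Nat.card_zpowers, he2] at h1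
  omega

/-- proper subgroups containing the central element `e` of order two -/
theorem Sm2.cc_sub (sm : Sm2 Γ) {e : Γ} (he : ∀ g, g * e = e * g) (he2 : orderOf e = 2) {M : Subgroup Γ} (hM : M ≠ ⊤)
    (heM : e ∈ M) : CC M := by
  refine sm.cc_central (Cfsg.Agent.Lib.SolvableNormalP.card_lt_of_ne_top hM) (e := ⟨e, heM⟩) ?_ ?_
  · rw [mem_center_iff]
    exact fun g => Subtype.ext (he g)
  · rw [Subgroup.orderOf_mk, he2]

/-- proper subgroups of proper subgroups -/
theorem Sm2.cc_sub_sub (sm : Sm2 Γ) {M : Subgroup Γ} (hM : M ≠ ⊤) {H : Subgroup M} (hH : H ≠ ⊤) : CC H := by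
  refine sm _ ?_
  have h1 := Cfsg.Agent.Lib.SolvableNormalP.card_lt_of_ne_top hH
  have h2 := Subgroup.card_mul_index M
  have h3 : M.index ≠ 1 := fun h => hM (index_eq_one.1 h)
  have h4 : M.index ≠ 0 := index_ne_zero_of_finite
  have h5 : 2 ≤ M.index := by omega
  have h6 : Nat.card M * 2 ≤ Nat.card Γ := by rw [← h2]; exact Nat.mul_le_mul_left _ h5
  omega

/-- overgroups of Carter subgroups are self-normalising -/
theorem Sm2.norm (sm : Sm2 Γ) {e : Γ} (he : ∀ g, g * e = e * g) (he2 : orderOf e = 2) {K M : Subgroup Γ}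
    (hK : IsCarter K) (hKM : K ≤ M) (hM : M ≠ ⊤) : normalizer (M : Set Γ) ≤ M := by
  have heM : e ∈ M := hKM (IsCarter.center_le hK (mem_center_iff.2 he))
  intro g hg
  have h1 : MulAut.conj g • K ≤ M := by
    rw [← cj_eq_self_iff.2 hg]
    exact Subgroup.pointwise_smul_le_pointwise_smul_iff.2 hKM
  obtain ⟨y, hy, hh⟩ := exists_conj_of_le (sm.cc_sub he he2 hM heM) (hK.conj g) hK h1 hKM
  rw [cj_cj, cj_eq_self_iff, hK.2] at hh
  have h2 := mul_mem (inv_mem hy) (hKM hh)
  rwa [inv_mul_cancel_left] at h2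

/-- elements centralised by `K` and conjugate in `Γ` are equal -/
theorem Sm2.eq_of_conj (sm : Sm2 Γ) {e : Γ} (he : ∀ g, g * e = e * g) (he2 : orderOf e = 2) {K : Subgroup Γ}
    (hK : IsCarter K) {z : Γ} (hz : ∀ k ∈ K, k * z = z * k) {g : Γ}
    (hg : ∀ k ∈ K, k * (g * z * g⁻¹) = (g * z * g⁻¹) * k) : g * z * g⁻¹ = z := by
  by_cases hc : centralizer ({z} : Set Γ) = ⊤
  · have : g ∈ centralizer ({z} : Set Γ) := by rw [hc]; trivial
    rw [mem_centralizer_singleton_iff.1 this, mul_inv_cancel_right]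
  have h1 : K ≤ centralizer ({z} : Set Γ) := fun k hk => mem_centralizer_singleton_iff.2 (hz k hk)
  have h2 : MulAut.conj g⁻¹ • K ≤ centralizer ({z} : Set Γ) := by
    intro x hx
    rw [mem_cj, inv_inv] at hx
    have h3 := hg _ hx
    rw [mem_centralizer_singleton_iff]
    have e1 : g * x * g⁻¹ * (g * z * g⁻¹) = g * (x * z) * g⁻¹ := by group
    have e2 : g * z * g⁻¹ * (g * x * g⁻¹) = g * (z * x) * g⁻¹ := by group
    rw [e1, e2] at h3
    exact mul_left_cancel (mul_right_cancel h3)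
  have heM : e ∈ centralizer ({z} : Set Γ) := mem_centralizer_singleton_iff.2 (he z).symm
  obtain ⟨y, hy, hh⟩ := exists_conj_of_le (sm.cc_sub he he2 hc heM) (hK.conj g⁻¹) hK h2 h1
  rw [cj_cj, cj_eq_self_iff, hK.2] at hh
  have h4 : y * g⁻¹ ∈ centralizer ({z} : Set Γ) := h1 hh
  have h5 : g⁻¹ ∈ centralizer ({z} : Set Γ) := by
    have := mul_mem (inv_mem hy) h4
    rwa [inv_mul_cancel_left] at this
  have h6 : g ∈ centralizer ({z} : Set Γ) := by
    have := inv_mem h5
    rwa [inv_inv] at this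
  rw [mem_centralizer_singleton_iff.1 h6, mul_inv_cancel_right]

end

/-! ### groups of semilinear isometries -/

section

variable (F : Type) [Field F] {V : Type} [AddCommGroup V] [Module F V]

/-- alternating nondegenerate form -/
structure Alt (B : V →ₗ[F] V →ₗ[F] F) : Prop where
  alt : ∀ v, B v v = 0
  nd : ∀ v, (∀ w, B v w = 0) → v = 0

/-- `Γ` acts faithfully on `(V, B)` by semilinear isometries and contains `Sp(V)` -/
structure Md (B : V →ₗ[F] V →ₗ[F] F) (Γ : Type u) [Group Γ] where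
  /-- the action -/
  ρ : Γ →* Equiv.Perm V
  /-- the field automorphisms -/
  σ : Γ →* (F ≃+* F)
  inj : Function.Injective ρ
  add : ∀ g v w, ρ g (v + w) = ρ g v + ρ g w
  smul : ∀ g (a : F) v, ρ g (a • v) = σ g a • ρ g v
  form : ∀ g v w, B (ρ g v) (ρ g w) = σ g (B v w)
  sp : ∀ x : V ≃ₗ[F] V, (∀ v w, B (x v) (x w) = B v w) → ∃ g, σ g = 1 ∧ ∀ v, ρ g v = x v

variable {F}

theorem Alt.skew {B : V →ₗ[F] V →ₗ[F] F} (h : Alt F B) (v w : V) : B v w = - B w v := by
  have := h.alt (v + w)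
  simp only [map_add, LinearMap.add_apply, h.alt, zero_add, add_zero] at this
  rw [add_comm] at this
  exact eq_neg_of_add_eq_zero_left this

namespace Md

variable {B : V →ₗ[F] V →ₗ[F] F} {Γ : Type u} [Group Γ] (T : Md F B Γ)

/-- the linear elements -/
def L : Subgroup Γ := T.σ.ker

instance : T.L.Normal := by unfold L; infer_instance

theorem mem_L {g : Γ} : g ∈ T.L ↔ T.σ g = 1 := MonoidHom.mem_ker

theorem smul_L {g : Γ} (hg : g ∈ T.L) (a : F) (v : V) : T.ρ g (a • v) = a • T.ρ g v := by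
  rw [T.smul, T.mem_L.1 hg]; rfl

theorem form_L {g : Γ} (hg : g ∈ T.L) (v w : V) : B (T.ρ g v) (T.ρ g w) = B v w := by
  rw [T.form, T.mem_L.1 hg]; rfl

/-- the linear automorphism defined by an element of `L` -/
def lin {g : Γ} (hg : g ∈ T.L) : V ≃ₗ[F] V :=
  { T.ρ g with
    map_add' := T.add g
    map_smul' := T.smul_L hg }

@[simp] theorem lin_apply {g : Γ} (hg : g ∈ T.L) (v : V) : T.lin hg v = T.ρ g v := rfl

theorem ρ_one (v : V) : T.ρ 1 v = v := by rw [map_one]; rfl

theorem ρ_mul (g h : Γ) (v : V) : T.ρ (g * h) v = T.ρ g (T.ρ h v) := by rw [map_mul]; rfl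

theorem ρ_inv_self (g : Γ) (v : V) : T.ρ g⁻¹ (T.ρ g v) = v := by
  rw [← T.ρ_mul, inv_mul_cancel, T.ρ_one]

theorem ρ_self_inv (g : Γ) (v : V) : T.ρ g (T.ρ g⁻¹ v) = v := by
  rw [← T.ρ_mul, mul_inv_cancel, T.ρ_one]

theorem ρ_zero (g : Γ) : T.ρ g 0 = 0 := by
  have := T.add g 0 0
  rw [add_zero] at this
  exact left_eq_add.1 this

theorem ρ_neg (g : Γ) (v : V) : T.ρ g (-v) = - T.ρ g v := by
  have := T.add g v (-v)
  rw [add_neg_cancel, T.ρ_zero] at this
  exact (neg_eq_of_add_eq_zero_right this.symm).symm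

theorem ext {g h : Γ} (hgh : ∀ v, T.ρ g v = T.ρ h v) : g = h := T.inj (Equiv.ext hgh)

/-- every isometry comes from `L` -/
theorem exists_L (x : V ≃ₗ[F] V) (hx : ∀ v w, B (x v) (x w) = B v w) : ∃ g ∈ T.L, ∀ v, T.ρ g v = x v := by
  obtain ⟨g, h1, h2⟩ := T.sp x hx
  exact ⟨g, T.mem_L.2 h1, h2⟩

theorem exists_eps : ∃ e ∈ T.L, ∀ v, T.ρ e v = -v := by
  obtain ⟨g, h1, h2⟩ := T.exists_L (LinearEquiv.neg F) (fun v w => by simp)
  exact ⟨g, h1, fun v => by rw [h2]; rfl⟩

/-- the element `-1` -/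
noncomputable def eps : Γ := T.exists_eps.choose

theorem eps_mem : T.eps ∈ T.L := T.exists_eps.choose_spec.1

@[simp] theorem eps_apply (v : V) : T.ρ T.eps v = -v := T.exists_eps.choose_spec.2 v

theorem eps_comm (g : Γ) : g * T.eps = T.eps * g := by
  apply T.ext
  intro v
  rw [T.ρ_mul, T.ρ_mul, T.eps_apply, T.eps_apply, T.ρ_neg]

theorem eps_sq : T.eps * T.eps = 1 := by
  apply T.ext
  intro v
  rw [T.ρ_mul, T.eps_apply, T.eps_apply, neg_neg, T.ρ_one]

theorem orderOf_eps (h2 : (2 : F) ≠ 0) [Nontrivial V] : orderOf T.eps = 2 := by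
  apply orderOf_eq_prime (by rw [sq, T.eps_sq])
  intro h
  obtain ⟨v, hv⟩ := exists_ne (0 : V)
  have h1 := T.eps_apply v
  rw [h, T.ρ_one] at h1
  have h3 : (2 : F) • v = 0 := by
    rw [two_smul]
    nth_rw 1 [h1]
    exact neg_add_cancel v
  rcases smul_eq_zero.1 h3 with h | h
  · exact h2 h
  · exact hv h

end Md

end

end Cfsg.Agent.H18.Carter
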