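import Cfsg.Agent.H18.Carter.UniCay
import Cfsg.Agent.H160.QDisc
import Cfsg.Agent.H484.GenSpRow

/-!
# Conjugacy of unipotent isometries: the theorems (S3852)

`B` nondegenerate, `ε`-symmetric, `F` finite of odd characteristic, `c` a unipotent isometry:

* `conj_four` : `c` and `c ^ 4` are conjugate in `Isom B`;
* `real_of_even` : characteristic three, `B` alternating, `c ^ 3 = 1`, `rank (c - 1)` even or `-1` a square: `c` is
  conjugate to `c⁻¹` in `Isom B`;
* `exists_anti_inv` : characteristic three, `B` alternating, `c ^ 3 = 1`: `c` is inverted by an anti-isometry.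
-/

set_option autoImplicit false
set_option linter.unusedSectionVars false
set_option linter.unusedVariables false

universe u

namespace Cfsg.Agent.H18.Carter.Uni

open Cfsg.Agent.H904.FR Cfsg.Agent.H721.FR Cfsg.Agent.H721.SR Cfsg.Agent.H955.FS Module

variable {F V : Type u} [Field F] [AddCommGroup V] [Module F V]

variable {B : V →ₗ[F] V →ₗ[F] F} {k : ℕ} {ε : F} {c : V ≃ₗ[F] V}

/-- the general statement -/
theorem exists_sim [Finite F] [FiniteDimensional F V] (h2 : (2 : F) ≠ 0) (hε : ε * ε = 1)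
    (hB : ∀ x y, B x y = ε * B y x) (hnd : ∀ x, (∀ y, B x y = 0) → x = 0) (hc : c ∈ Isom B)
    (hu : ∃ a : ℕ, c ^ (ringChar F) ^ a = 1) {n : ℕ} (hn : (n : F) ≠ 0) {μ : F} (km : ℕ)
    (hkm : ∀ N : V →ₗ[F] V, Cay c N → N ^ (km + 1) = 0) (Q : ℕ → Prop)
    (hblk : ∀ (M : Type u) [AddCommGroup M] [Module F M] [FiniteDimensional F M] (β : M →ₗ[F] M →ₗ[F] F) (k r : ℕ),
      k ≤ km → (k ≤ 1 → r = 0) → (∀ x y, β x y = ε * (-1) ^ k * β y x) → (∀ x, (∀ y, β x y = 0) → x = 0) →
      Q (r + k * finrank F M) →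
      (∃ A : M ≃ₗ[F] M, ∀ x y, β (A x) (A y) = μ * ((n : F)⁻¹) ^ k * β x y) ∧ Q r)
    (hQ : Q (finrank F (LinearMap.range ((c : V →ₗ[F] V) - LinearMap.id)))) :
    ∃ h : V ≃ₗ[F] V, (∀ x y, B (h x) (h y) = μ * B x y) ∧ h * c * h⁻¹ = c ^ n := by
  obtain ⟨N, hN⟩ := exists_cay h2 hu
  obtain ⟨N', hN'⟩ := exists_cay (c := c ^ n) h2 (by
    obtain ⟨a, ha⟩ := hu
    exact ⟨a, by rw [← pow_mul, mul_comm, pow_mul, ha, one_pow]⟩)
  have hcn : c ^ n ∈ Isom B := pow_mem hc n
  obtain ⟨h, h3, h4⟩ := conj_gen h2 hε hn km Q hblk _ V B N N' rfl hB hnd (hN.skew h2 hc) (hN'.skew h2 hcn) (hkm N hN)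
    (rel_cay h2 hN hN') (by rw [range_cay h2 hN]; exact hQ)
  exact ⟨h, h3, conj_of_cay hN hN' h4⟩

/-- **`c ~ c ^ 4`** -/
theorem conj_four [Finite F] [FiniteDimensional F V] (h2 : (2 : F) ≠ 0) (hε : ε * ε = 1)
    (hB : ∀ x y, B x y = ε * B y x) (hnd : ∀ x, (∀ y, B x y = 0) → x = 0) (hc : c ∈ Isom B)
    (hu : ∃ a : ℕ, c ^ (ringChar F) ^ a = 1) : ∃ h ∈ Isom B, h * c * h⁻¹ = c ^ 4 := by
  obtain ⟨N, hN⟩ := exists_cay h2 hu
  obtain ⟨k, hk⟩ := hN.nil
  have huniq : ∀ N' : V →ₗ[F] V, Cay c N' → N' = N := by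
    intro N' hN'
    ext x
    obtain ⟨u, rfl⟩ := hN.exists_eq h2 x
    rw [hN.eq, hN'.eq]
  have h4 : ((4 : ℕ) : F) = 2 * 2 := by norm_num
  obtain ⟨h, h5, h6⟩ := exists_sim (μ := 1) (n := 4) h2 hε hB hnd hc hu (by rw [h4]; exact mul_ne_zero h2 h2) k
    (by
      intro N' hN'
      rw [huniq N' hN', pow_succ, hk, zero_mul]) (fun _ => True) (by
      intro M _ _ _ β k r hk hr hs hn _
      refine ⟨⟨LinearEquiv.smulOfUnit (((Units.mk0 (2 : F) h2)⁻¹) ^ k), fun x y => ?_⟩, trivial⟩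
      have e : ∀ x : M, LinearEquiv.smulOfUnit (((Units.mk0 (2 : F) h2)⁻¹) ^ k) x = ((2 : F)⁻¹) ^ k • x := by
        intro x
        show (((Units.mk0 (2 : F) h2)⁻¹) ^ k) • x = _
        rw [Units.smul_def, Units.val_pow_eq_pow_val, Units.val_inv_eq_inv_val, Units.val_mk0]
      rw [e, e, map_smul, map_smul, LinearMap.smul_apply, smul_eq_mul, smul_eq_mul, one_mul, h4, mul_inv, mul_pow,
        mul_assoc]) trivial
  exact ⟨h, mem_isom.2 fun x y => by rw [h5, one_mul], h6⟩

theorem cube_cay (h2 : (2 : F) ≠ 0) (h3 : (3 : F) = 0) (hc : c ^ 3 = 1) {N : V →ₗ[F] V} (hN : Cay c N) :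
    N ^ (2 + 1) = 0 := by
  ext x
  obtain ⟨y, rfl⟩ := hN.exists_eq h2 x
  obtain ⟨z, rfl⟩ := hN.exists_eq h2 y
  obtain ⟨w, rfl⟩ := hN.exists_eq h2 z
  have h5 : c (c (c w)) = w := LinearEquiv.congr_fun hc w
  have e1 : ∀ v, (N ^ (2 + 1)) v = N (N (N v)) := fun v => rfl
  have hc1 : ∀ v, c (c v + v) - (c v + v) = c (c v - v) + (c v - v) := by
    intro v
    simp only [map_add, map_sub]
    abel
  rw [LinearMap.zero_apply, e1, hN.eq, hc1, hN.eq, hc1, hc1, hN.eq]
  simp only [map_sub, h5]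
  have h6 : c (c w) + c (c w) + c (c w) = 0 := by
    have : (3 : F) • c (c w) = c (c w) + c (c w) + c (c w) := by
      rw [show (3 : F) = 1 + 1 + 1 by norm_num, add_smul, add_smul, one_smul]
    rw [← this, h3, zero_smul]
  have h7 : c w + c w + c w = 0 := by
    have : (3 : F) • c w = c w + c w + c w := by
      rw [show (3 : F) = 1 + 1 + 1 by norm_num, add_smul, add_smul, one_smul]
    rw [← this, h3, zero_smul]
  calc w - c (c w) - (c (c w) - c w) - (c (c w) - c w - (c w - w)) =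
      (c w + c w + c w) - (c (c w) + c (c w) + c (c w)) := by abel
    _ = 0 := by rw [h6, h7, sub_zero]

theorem unip_three [Finite F] (h3 : (3 : F) = 0) (hc : c ^ 3 = 1) : ∃ a : ℕ, c ^ (ringChar F) ^ a = 1 := by
  have h1 : ringChar F ∣ 3 := (ringChar.spec F 3).1 (by exact_mod_cast h3)
  have hne : ringChar F ≠ 1 := by
    intro h
    have := (ringChar.spec F 1).2 (by rw [h])
    exact one_ne_zero (by exact_mod_cast this)
  rcases (Nat.dvd_prime Nat.prime_three).1 h1 with h | h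
  · exact absurd h hne
  · exact ⟨1, by rw [h, pow_one]; exact hc⟩

theorem two_ne (h3 : (3 : F) = 0) : (2 : F) ≠ 0 := by
  intro h2
  have : (1 : F) = 3 - 2 := by norm_num
  rw [h3, h2, sub_zero] at this
  exact one_ne_zero this

theorem two_eq (h3 : (3 : F) = 0) : (2 : F) = -1 := by
  have : (2 : F) = 3 - 1 := by norm_num
  rw [this, h3, zero_sub]

theorem inv_of_cube (hc : c ^ 3 = 1) : c ^ 2 = c⁻¹ := by
  apply eq_inv_of_mul_eq_one_left
  rw [← pow_succ]
  exact hc

/-- a symmetric nondegenerate form of even dimension is isometric to its negative -/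
theorem exists_neg_iso [Finite F] {M : Type u} [AddCommGroup M] [Module F M] [FiniteDimensional F M] (h2 : (2 : F) ≠ 0)
    (β : M →ₗ[F] M →ₗ[F] F) (hs : ∀ x y, β x y = β y x) (hn : ∀ x, (∀ y, β x y = 0) → x = 0)
    (he : Even (finrank F M)) : ∃ A : M ≃ₗ[F] M, ∀ x y, β (A x) (A y) = - β x y := by
  classical
  have := Fintype.ofFinite F
  let Q : QuadraticForm F M := LinearMap.BilinMap.toQuadraticMap β
  have hQ : ∀ x, Q x = β x x := fun x => rfl
  have hpol : ∀ x y, QuadraticMap.polar Q x y = 2 * β x y := by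
    intro x y
    rw [QuadraticMap.polar, hQ, hQ, hQ]
    simp only [map_add, LinearMap.add_apply]
    rw [hs y x]
    ring
  have hnd : Cfsg.Agent.LieClassical.OrthCore.Nondeg Q := by
    intro x hx
    refine hn x fun y => ?_
    have := hx y
    rw [hpol] at this
    exact (mul_eq_zero.1 this).resolve_left h2
  have hpol' : ∀ x y, QuadraticMap.polar ((-1 : F) • Q) x y = - (2 * β x y) := by
    intro x y
    rw [← hpol]
    simp only [QuadraticMap.polar, QuadraticMap.smul_apply, smul_eq_mul]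
    ring
  have hnd' : Cfsg.Agent.LieClassical.OrthCore.Nondeg ((-1 : F) • Q) := by
    intro x hx
    refine hn x fun y => ?_
    have := hx y
    rw [hpol', neg_eq_zero] at this
    exact (mul_eq_zero.1 this).resolve_left h2
  obtain ⟨e, he⟩ := Cfsg.Agent.H160.QDisc.exists_iso (Q := Q) (Q' := (-1 : F) • Q) h2 hnd hnd' rfl (by
    rw [Cfsg.Agent.H160.QDisc.dc_smul]
    obtain ⟨r, hr⟩ := he
    rw [hr, ← two_mul, pow_mul, quadraticChar_sq_one (neg_ne_zero.2 one_ne_zero), one_pow, one_mul])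
  refine ⟨e, fun x y => ?_⟩
  have e1 : ∀ x, - β (e x) (e x) = β x x := by
    intro x
    have := he x
    rw [QuadraticMap.smul_apply, hQ, hQ, smul_eq_mul, neg_mul, one_mul] at this
    exact this
  have e2 := e1 (x + y)
  simp only [map_add, LinearMap.add_apply] at e2
  rw [hs (e y) (e x), hs y x] at e2
  have e3 := e1 x
  have e4 := e1 y
  apply mul_left_cancel₀ h2
  linear_combination -e2 + e3 + e4

/-- a nondegenerate alternating form is isometric to its negative -/
theorem exists_neg_alt [Finite F] {M : Type u} [AddCommGroup M] [Module F M] [FiniteDimensional F M]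
    (β : M →ₗ[F] M →ₗ[F] F) (hs : ∀ x, β x x = 0) (hn : ∀ x, (∀ y, β x y = 0) → x = 0) :
    ∃ A : M ≃ₗ[F] M, ∀ x y, β (A x) (A y) = - β x y := by
  have hskew : ∀ x y, β x y = - β y x := by
    intro x y
    have := hs (x + y)
    simp only [map_add, LinearMap.add_apply, hs, zero_add, add_zero] at this
    rw [add_comm] at this
    exact eq_neg_of_add_eq_zero_left this
  have hnd : LinearMap.BilinForm.Nondegenerate β := ⟨fun x hx => hn x hx, fun x hx => hn x fun y => by
    rw [hskew, hx y, neg_zero]⟩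
  obtain ⟨m, -, e, he⟩ := Cfsg.Agent.H484.GenSp.exists_coord β hs hnd
  let A : (Fin m ⊕ Fin m → F) ≃ₗ[F] (Fin m ⊕ Fin m → F) :=
    LinearEquiv.piCongrRight fun i => i.elim (fun _ => LinearEquiv.refl F F) (fun _ => LinearEquiv.neg F)
  refine ⟨e ≪≫ₗ A ≪≫ₗ e.symm, fun x y => ?_⟩
  rw [← he, ← he]
  have e1 : ∀ x, e ((e ≪≫ₗ A ≪≫ₗ e.symm) x) = A (e x) := fun x => e.apply_symm_apply _
  rw [e1, e1]
  have e2 : ∀ (v : Fin m ⊕ Fin m → F) i, A v (Sum.inl i) = v (Sum.inl i) := fun _ _ => rfl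
  have e3 : ∀ (v : Fin m ⊕ Fin m → F) i, A v (Sum.inr i) = - v (Sum.inr i) := fun _ _ => rfl
  rw [Cfsg.Agent.ClassicalGeometry.SympBasic.sympForm_eq_sum, Cfsg.Agent.ClassicalGeometry.SympBasic.sympForm_eq_sum,
    ← Finset.sum_neg_distrib]
  refine Finset.sum_congr rfl fun i _ => ?_
  rw [e2, e2, e3, e3]
  ring

/-- **elements of order three of `Sp(V)`: real if the rank is even** -/
theorem real_of_even [Finite F] [FiniteDimensional F V] (h3 : (3 : F) = 0) (hB : ∀ x, B x x = 0)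
    (hnd : ∀ x, (∀ y, B x y = 0) → x = 0) (hc : c ∈ Isom B) (hc3 : c ^ 3 = 1)
    (hQ : Even (finrank F (LinearMap.range ((c : V →ₗ[F] V) - LinearMap.id))) ∨ IsSquare (-1 : F)) :
    ∃ h ∈ Isom B, h * c * h⁻¹ = c⁻¹ := by
  have hskew : ∀ x y, B x y = (-1) * B y x := by
    intro x y
    have := hB (x + y)
    simp only [map_add, LinearMap.add_apply, hB, zero_add, add_zero] at this
    rw [add_comm] at this
    rw [neg_one_mul]
    exact eq_neg_of_add_eq_zero_left this
  have h2 := two_ne h3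
  have hi2 : (((2 : ℕ) : F))⁻¹ = -1 := by
    rw [Nat.cast_ofNat, two_eq h3, inv_neg, inv_one]
  obtain ⟨h, h5, h6⟩ := exists_sim (μ := 1) (n := 2) h2 (by ring) hskew hnd hc (unip_three h3 hc3) (by exact_mod_cast h2) 2
    (fun N hN => cube_cay h2 h3 hc3 hN) (fun r => Even r ∨ IsSquare (-1 : F)) (by
      intro M _ _ _ β k r hk hr hs hn hQ
      rw [hi2]
      obtain rfl | rfl | rfl : k = 0 ∨ k = 1 ∨ k = 2 := by omega
      · exact ⟨⟨LinearEquiv.refl F M, fun x y => by simp⟩, by simpa using hQ⟩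
      · refine ⟨?_, by rw [hr le_rfl]; exact Or.inl ⟨0, rfl⟩⟩
        rw [hr le_rfl, zero_add, one_mul] at hQ
        rcases hQ with hQ | ⟨d, hd⟩
        · obtain ⟨A, hA⟩ := exists_neg_iso h2 β (fun x y => by rw [hs x y]; ring) hn hQ
          exact ⟨A, fun x y => by rw [hA]; ring⟩
        · have hd0 : d ≠ 0 := by
            rintro rfl
            rw [mul_zero] at hd
            exact (neg_ne_zero.2 one_ne_zero) hd
          refine ⟨LinearEquiv.smulOfUnit (Units.mk0 d hd0), fun x y => ?_⟩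
          have e : ∀ x : M, LinearEquiv.smulOfUnit (Units.mk0 d hd0) x = d • x := fun x => rfl
          rw [e, e, map_smul, map_smul, LinearMap.smul_apply, smul_eq_mul, smul_eq_mul]
          linear_combination (-β x y) * hd
      · refine ⟨⟨LinearEquiv.refl F M, fun x y => by simp⟩, ?_⟩
        rcases hQ with hQ | hQ
        · left
          rw [Nat.even_add] at hQ
          exact hQ.2 ⟨finrank F M, by ring⟩
        · exact Or.inr hQ) hQ
  refine ⟨h, mem_isom.2 fun x y => by rw [h5, one_mul], ?_⟩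
  rw [h6, inv_of_cube hc3]

/-- **elements of order three of `Sp(V)` are inverted by anti-isometries** -/
theorem exists_anti_inv [Finite F] [FiniteDimensional F V] (h3 : (3 : F) = 0) (hB : ∀ x, B x x = 0)
    (hnd : ∀ x, (∀ y, B x y = 0) → x = 0) (hc : c ∈ Isom B) (hc3 : c ^ 3 = 1) :
    ∃ h : V ≃ₗ[F] V, (∀ x y, B (h x) (h y) = - B x y) ∧ h * c * h⁻¹ = c⁻¹ := by
  have hskew : ∀ x y, B x y = (-1) * B y x := by
    intro x y
    have := hB (x + y)
    simp only [map_add, LinearMap.add_apply, hB, zero_add, add_zero] at this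
    rw [add_comm] at this
    rw [neg_one_mul]
    exact eq_neg_of_add_eq_zero_left this
  have h2 := two_ne h3
  have hi2 : (((2 : ℕ) : F))⁻¹ = -1 := by
    rw [Nat.cast_ofNat, two_eq h3, inv_neg, inv_one]
  have halt : ∀ (M : Type u) [AddCommGroup M] [Module F M] [FiniteDimensional F M] (β : M →ₗ[F] M →ₗ[F] F),
      (∀ x y, β x y = - β y x) → ∀ x, β x x = 0 := by
    intro M _ _ _ β hs x
    have := hs x x
    have h4 : (2 : F) * β x x = 0 := by linear_combination this
    exact (mul_eq_zero.1 h4).resolve_left h2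
  obtain ⟨h, h5, h6⟩ := exists_sim (μ := -1) (n := 2) h2 (by ring) hskew hnd hc (unip_three h3 hc3) (by exact_mod_cast h2) 2
    (fun N hN => cube_cay h2 h3 hc3 hN) (fun r => True) (by
      intro M _ _ _ β k r hk hr hs hn hQ
      rw [hi2]
      refine ⟨?_, trivial⟩
      obtain rfl | rfl | rfl : k = 0 ∨ k = 1 ∨ k = 2 := by omega
      · obtain ⟨A, hA⟩ := exists_neg_alt β (halt M β fun x y => by rw [hs x y]; ring) hn
        exact ⟨A, fun x y => by rw [hA]; ring⟩
      · exact ⟨LinearEquiv.refl F M, fun x y => by simp⟩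
      · obtain ⟨A, hA⟩ := exists_neg_alt β (halt M β fun x y => by rw [hs x y]; ring) hn
        exact ⟨A, fun x y => by rw [hA]; ring⟩) trivial
  refine ⟨h, fun x y => by rw [h5, neg_one_mul], ?_⟩
  rw [h6, inv_of_cube hc3]

end Cfsg.Agent.H18.Carter.Uni
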