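import Cfsg.Agent.H18.Carter.SpRes
import Cfsg.Agent.H18.Carter.UniT
import Cfsg.Agent.H567.Ct.StepA
import Cfsg.Agent.H274.Carter.SpB
import Cfsg.Agent.H507.GmnSp
import Cfsg.Agent.H381.Car.Conj

/-!
# S3852, rows `PSp₂ₙ(q)`, `q` odd: elements of order three in the centre of `K`, and the element `t`
-/

set_option autoImplicit false
set_option linter.unusedSectionVars false
set_option linter.unusedVariables false
set_option linter.style.haveILetI false

namespace Cfsg.Agent.H18.Carter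

open Subgroup Pointwise Module
open Cfsg.Agent.Solvable.Carter
open Cfsg.Agent.H721.FR Cfsg.Agent.H721.SR Cfsg.Agent.H18.Carter.Uni Cfsg.Agent.H955.FS

universe u

variable {F : Type} [Field F] {V : Type} [AddCommGroup V] [Module F V] {B : V →ₗ[F] V →ₗ[F] F}
variable {Γ : Type u} [Group Γ] (T : Md F B Γ)

/-- elements of odd prime order different from the characteristic are real -/
theorem Md.real [Fintype F] [FiniteDimensional F V] (hB : Alt F B) (T : Md F B Γ) {r : ℕ} (hr : r.Prime)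
    (hr2 : r ≠ 2) (hrF : (r : F) ≠ 0) {z : Γ} (hz : z ∈ T.L) (hzr : z ^ r = 1) : ∃ g ∈ T.L, g * z * g⁻¹ = z⁻¹ := by
  obtain ⟨m, e, he⟩ := Cfsg.Agent.H567.Ct.exists_coords hB
  obtain ⟨Λ, hΛ, hrg, -⟩ := Cfsg.Agent.H567.Ct.exists_Lam T e he
  rw [← hrg] at hz
  obtain ⟨A, rfl⟩ := hz
  have hA : A ^ r = 1 := hΛ (by rw [map_pow, hzr, map_one])
  rcases Nat.eq_zero_or_pos m with rfl | hm
  · have : Subsingleton (Matrix.symplecticGroup (Fin 0) F) := ⟨fun a b => by
      apply Subtype.ext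
      ext i
      exact (i.elim (fun j => j.elim0) (fun j => j.elim0))⟩
    rw [Subsingleton.elim A 1]
    exact ⟨1, one_mem _, by simp⟩
  let π : Matrix.symplecticGroup (Fin m) F →* Cfsg.PSp m F := QuotientGroup.mk' _
  obtain ⟨g, hg⟩ := Cfsg.Agent.H507.GmnSp.conj_inv (F := F) (m := m) hr hr2 hrF (z := π A) (by rw [← map_pow, hA, map_one])
  obtain ⟨g, rfl⟩ := QuotientGroup.mk'_surjective _ g
  have h1 : g * A * g⁻¹ * A ∈ center (Matrix.symplecticGroup (Fin m) F) := by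
    refine (QuotientGroup.eq_one_iff _).1 ?_
    have h2 : π (g * A * g⁻¹ * A) = π g * π A * (π g)⁻¹ * π A := by simp only [map_mul, map_inv]
    have h3 : π g * π A * (π g)⁻¹ = (π A)⁻¹ := hg
    have h4 : π (g * A * g⁻¹ * A) = 1 := by rw [h2, h3, inv_mul_cancel]
    exact h4
  set x := g * A * g⁻¹ * A with hx
  obtain ⟨a, ha⟩ := (Cfsg.Agent.LieClassical.SympCenter.mem_center_iff m x).1 h1
  have ha2 : a * a = 1 := Cfsg.Agent.LieClassical.SympCenter.sq_eq_one_of_smul_mem hm (ha ▸ x.2)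
  have hx2 : x ^ 2 = 1 := by
    apply Subtype.ext
    change ((x ^ 2 : Matrix.symplecticGroup (Fin m) F) : Matrix (Fin m ⊕ Fin m) (Fin m ⊕ Fin m) F) = 1
    have ha' : (x : Matrix (Fin m ⊕ Fin m) (Fin m ⊕ Fin m) F) = a • 1 := ha
    rw [SubmonoidClass.coe_pow, ha', _root_.smul_pow, one_pow, pow_two, ha2, one_smul]
  have hcomm : Commute x A⁻¹ := (mem_center_iff.1 h1 A⁻¹).symm
  have h5 : g * A * g⁻¹ = x * A⁻¹ := by rw [hx]; group
  have h6 : (g * A * g⁻¹) ^ r = 1 := by rw [conj_pow, hA, mul_one, mul_inv_cancel]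
  rw [h5, hcomm.mul_pow, inv_pow, hA, inv_one, mul_one] at h6
  have h7 : x = 1 := by
    have hd := Nat.dvd_gcd (orderOf_dvd_of_pow_eq_one h6) (orderOf_dvd_of_pow_eq_one hx2)
    rw [(Nat.coprime_primes hr Nat.prime_two).2 hr2] at hd
    exact orderOf_eq_one_iff.1 (Nat.dvd_one.1 hd)
  refine ⟨Λ g, by rw [← hrg]; exact ⟨g, rfl⟩, ?_⟩
  rw [← map_inv, ← map_mul, ← map_mul, h5, h7, one_mul, map_inv]

/-- elements of the centre of `K` are not inverted in `Γ` -/
theorem Md.not_real [Finite Γ] [Nontrivial V] (T : Md F B Γ) (h2 : (2 : F) ≠ 0) (sm : Sm2 Γ) {K : Subgroup Γ} (hK : IsCarter K) {z : Γ}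
    (hz : K ≤ centralizer ({z} : Set Γ)) (hz2 : z ^ 2 ≠ 1) {g : Γ} (hg : g * z * g⁻¹ = z⁻¹) : False := by
  have hc : ∀ k ∈ K, k * z = z * k := fun k hk => mem_centralizer_singleton_iff.1 (hz hk)
  have h1 := sm.eq_of_conj (T.eps_comm) (T.orderOf_eps h2) hK hc (g := g) (by
    intro k hk
    rw [hg]
    exact (Commute.inv_right (hc k hk) : Commute k z⁻¹))
  apply hz2
  rw [pow_two]
  nth_rw 1 [← h1]
  rw [hg, inv_mul_cancel]

section

variable [Fintype F] [FiniteDimensional F V] [Finite Γ] [Nontrivial V]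

/-- the prime divisors of `|K ∩ L|` -/
theorem Md.primes (hB : Alt F B) (T : Md F B Γ) (h3 : (3 : F) = 0) (sm : Sm2 Γ) {K : Subgroup Γ} (hK : IsCarter K)
    {r : ℕ} (hr : r.Prime) (hd : r ∣ Nat.card ↥(K ⊓ T.L)) : r = 2 ∨ r = 3 := by
  by_contra hcon
  push Not at hcon
  haveI : Fact r.Prime := ⟨hr⟩
  obtain ⟨z, hzL, hzK, ho, hc⟩ := Cfsg.Agent.H381.Car.exists_central (S := T.L) hK.1 hd
  have hrF : (r : F) ≠ 0 := by
    intro h
    have hch : CharP F 3 := by
      have h1 : ringChar F ∣ 3 := (ringChar.spec F 3).1 (by exact_mod_cast h3)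
      have hne : ringChar F ≠ 1 := by
        intro h
        have := (ringChar.spec F 1).2 (by rw [h])
        exact one_ne_zero (by exact_mod_cast this)
      rcases (Nat.dvd_prime Nat.prime_three).1 h1 with h | h
      · exact absurd h hne
      · exact ringChar.of_eq h
    have := (CharP.cast_eq_zero_iff F 3 r).1 h
    exact hcon.2 ((Nat.prime_dvd_prime_iff_eq Nat.prime_three hr).1 this).symm
  obtain ⟨g, -, hg⟩ := T.real hB hr hcon.1 hrF hzL (by rw [← ho]; exact pow_orderOf_eq_one z)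
  refine T.not_real (two_ne h3) sm hK hc ?_ hg
  intro h
  have h4 := orderOf_dvd_of_pow_eq_one h
  rw [ho] at h4
  exact hcon.1 ((Nat.prime_dvd_prime_iff_eq hr Nat.prime_two).1 h4)

/-- **an element of order three in `Z(K) ∩ L`** -/
theorem Md.exists_three (hB : Alt F B) (T : Md F B Γ) (hFp : Cfsg.Agent.H381.Car.Fpf.{u}) (sm : Sm2 Γ) {f : ℕ}
    (hF : Fintype.card F = 3 ^ (2 * f + 1)) (h3 : (3 : F) = 0) {K : Subgroup Γ} (hK : IsCarter K) (hKL : K ⊔ T.L = ⊤) :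
    ∃ z ∈ T.L, z ∈ K ∧ orderOf z = 3 ∧ K ≤ centralizer ({z} : Set Γ) := by
  haveI : Fact (Nat.Prime 3) := ⟨Nat.prime_three⟩
  haveI : Fact (Nat.Prime 2) := ⟨Nat.prime_two⟩
  by_cases hd : 3 ∣ Nat.card ↥(K ⊓ T.L)
  · exact Cfsg.Agent.H381.Car.exists_central (S := T.L) hK.1 hd
  · exfalso
    refine Cfsg.Agent.H567.Ct.stepA hB T hFp sm hF hK hKL ?_
    rw [IsPGroup.iff_card]
    refine ⟨_, Nat.eq_prime_pow_of_unique_prime_dvd Nat.card_pos.ne' ?_⟩
    intro r hr hrd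
    rcases T.primes hB h3 sm hK hr hrd with h | h
    · exact h
    · exact absurd (h ▸ hrd) hd

/-- **the element `t`** -/
theorem Md.exists_t (hB : Alt F B) (T : Md F B Γ) (hFp : Cfsg.Agent.H381.Car.Fpf.{u}) (sm : Sm2 Γ) {f : ℕ}
    (hF : Fintype.card F = 3 ^ (2 * f + 1)) (h3 : (3 : F) = 0) (hd : 4 ≤ Module.finrank F V) {K : Subgroup Γ}
    (hK : IsCarter K) :
    ∃ t ∈ T.L, t ∈ K ∧ t ≠ 1 ∧ t ≠ T.eps ∧ (t * t = 1 ∨ t * t = T.eps) ∧
      ∀ k ∈ K, k * t = t * k ∨ k * t = T.eps * (t * k) := by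
  haveI : Fact (Nat.Prime 3) := ⟨Nat.prime_three⟩
  haveI : Fact (Nat.Prime 2) := ⟨Nat.prime_two⟩
  obtain ⟨x, hx, hxn⟩ : ∃ x ∈ K ⊓ T.L, ∀ k : ℕ, x ^ 3 ^ k ≠ 1 ∧ x ^ 3 ^ k ≠ T.eps := by
    by_contra hcon
    refine Cfsg.Agent.H274.Carter.stepB hB T hFp sm hF hd hK fun x hx => ?_
    by_contra h
    push Not at h
    exact hcon ⟨x, hx, h⟩
  -- `|K ∩ L| = 2 ^ a * 3 ^ b`
  obtain ⟨a, b, hab⟩ : ∃ a b : ℕ, Nat.card ↥(K ⊓ T.L) = 2 ^ a * 3 ^ b := by
    obtain ⟨a, m, hm, e⟩ := Nat.exists_eq_two_pow_mul_odd (n := Nat.card ↥(K ⊓ T.L)) Nat.card_pos.ne'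
    have hm3 : m = 3 ^ m.primeFactorsList.length := by
      refine Nat.eq_prime_pow_of_unique_prime_dvd (p := 3) (by rintro rfl; exact absurd hm (by decide)) ?_
      intro r hr hrd
      rcases T.primes hB h3 sm hK hr (e ▸ (hrd.mul_left _)) with h | h
      · exfalso
        rw [h] at hrd
        exact (Nat.not_even_iff_odd.2 hm) (even_iff_two_dvd.2 hrd)
      · exact h
    exact ⟨a, _, by rw [e]; congr 1⟩
  have hy : (x ^ 3 ^ b) ^ 2 ^ a = 1 := by
    have h1 : (⟨x, hx⟩ : ↥(K ⊓ T.L)) ^ Nat.card ↥(K ⊓ T.L) = 1 := pow_card_eq_one'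
    rw [hab] at h1
    have h2 := congrArg Subtype.val h1
    rw [← pow_mul, mul_comm]
    exact h2
  obtain ⟨hy1, hy2⟩ := hxn b
  set y := x ^ 3 ^ b with hyd
  have hyKL : y ∈ K ⊓ T.L := pow_mem hx _
  -- the quotient by `⟨-1⟩`
  have hZ : zpowers T.eps ≤ center Γ := by
    rw [zpowers_le, mem_center_iff]
    exact T.eps_comm
  haveI : (zpowers T.eps).Normal := ⟨fun n hn g => by
    rw [(mem_center_iff.1 (hZ hn)) g, mul_inv_cancel_right]
    exact hn⟩
  have hmem : ∀ g : Γ, g ∈ zpowers T.eps ↔ g = 1 ∨ g = T.eps := by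
    intro g
    constructor
    · rintro ⟨n, rfl⟩
      rcases Int.even_or_odd n with ⟨k, rfl⟩ | ⟨k, rfl⟩
      · left
        show T.eps ^ (k + k) = 1
        rw [zpow_add, ← (Commute.refl T.eps).mul_zpow, T.eps_sq, one_zpow]
      · right
        show T.eps ^ (2 * k + 1) = T.eps
        rw [zpow_add, zpow_one, two_mul, zpow_add, ← (Commute.refl T.eps).mul_zpow, T.eps_sq, one_zpow, one_mul]
    · rintro (rfl | rfl)
      · exact one_mem _
      · exact mem_zpowers _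
  set q := QuotientGroup.mk' (zpowers T.eps) with hq
  have hKe : zpowers T.eps ≤ K := hZ.trans (IsCarter.center_le hK)
  have hLe : zpowers T.eps ≤ T.L := by rw [zpowers_le]; exact T.eps_mem
  haveI : (T.L.map q).Normal := Normal.map inferInstance q (QuotientGroup.mk'_surjective _)
  have hnil : Group.IsNilpotent ↥(K.map q) := by
    have := hK.1
    exact Group.nilpotent_of_surjective (q.subgroupMap K) (q.subgroupMap_surjective K)
  have hdiv : 2 ∣ Nat.card ↥(K.map q ⊓ T.L.map q) := by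
    have h1 : q y ∈ K.map q ⊓ T.L.map q := ⟨⟨y, hyKL.1, rfl⟩, ⟨y, hyKL.2, rfl⟩⟩
    have h2 : orderOf (⟨q y, h1⟩ : ↥(K.map q ⊓ T.L.map q)) ∣ 2 ^ a := by
      apply orderOf_dvd_of_pow_eq_one
      apply Subtype.ext
      show (q y) ^ 2 ^ a = 1
      rw [← map_pow, hy, map_one]
    obtain ⟨j, -, hj⟩ := (Nat.dvd_prime_pow Nat.prime_two).1 h2
    have h4 : j ≠ 0 := by
      rintro rfl
      rw [pow_zero, orderOf_eq_one_iff] at hj
      have h5 : q y = 1 := congrArg Subtype.val hj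
      rcases (hmem y).1 ((QuotientGroup.eq_one_iff y).1 h5) with h | h
      · exact hy1 h
      · exact hy2 h
    have h5 : 2 ∣ orderOf (⟨q y, h1⟩ : ↥(K.map q ⊓ T.L.map q)) := by
      rw [hj]
      exact dvd_pow_self 2 h4
    exact h5.trans (orderOf_dvd_natCard _)
  obtain ⟨t', htL, htK, ho, hc⟩ := Cfsg.Agent.H381.Car.exists_central (S := T.L.map q) hnil hdiv
  obtain ⟨t, htK, rfl⟩ := htK
  have htL' : t ∈ T.L := by
    obtain ⟨l, hl, e⟩ := htL
    have h1 : l⁻¹ * t ∈ zpowers T.eps := QuotientGroup.eq.1 e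
    have := mul_mem hl (hLe h1)
    rwa [mul_inv_cancel_left] at this
  have hqt : q t ≠ 1 := by
    intro h
    rw [h, orderOf_one] at ho
    omega
  refine ⟨t, htL', htK, ?_, ?_, ?_, ?_⟩
  · rintro rfl
    exact hqt (map_one q)
  · rintro rfl
    exact hqt ((QuotientGroup.eq_one_iff _).2 (mem_zpowers _))
  · have h1 : q (t * t) = 1 := by
      rw [map_mul, ← pow_two, ← ho, pow_orderOf_eq_one]
    exact (hmem _).1 ((QuotientGroup.eq_one_iff _).1 h1)
  · intro k hk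
    have h1 : q k ∈ centralizer ({q t} : Set (Γ ⧸ zpowers T.eps)) := hc ⟨k, hk, rfl⟩
    rw [mem_centralizer_singleton_iff, ← map_mul, ← map_mul] at h1
    have h2 : (t * k)⁻¹ * (k * t) ∈ zpowers T.eps := QuotientGroup.eq.1 h1.symm
    rcases (hmem _).1 h2 with h | h
    · left
      exact (inv_mul_eq_one.1 h).symm
    · right
      rw [inv_mul_eq_iff_eq_mul] at h
      rw [h, T.eps_comm]

end

end Cfsg.Agent.H18.Carter
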