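import Cfsg.Agent.H18.Carter.SpLem

/-!
# S3852, rows `PSp₂ₙ(q)`, `q = 3^odd`, `|G : S|` odd: there are no Carter subgroups
-/

set_option autoImplicit false
set_option linter.unusedSectionVars false
set_option linter.unusedVariables false
set_option linter.style.haveILetI false

namespace Cfsg.Agent.H18.Carter

open Subgroup Pointwise Module
open Cfsg.Agent.Solvable.Carter
open Cfsg.Agent.H721.FR Cfsg.Agent.H721.SR Cfsg.Agent.H18.Carter.Uni Cfsg.Agent.H955.FS

universe u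

theorem even_of_sq_neg {F : Type} [Field F] {W : Type} [AddCommGroup W] [Module F W] [FiniteDimensional F W]
    (hns : ¬ IsSquare (-1 : F)) (J : W →ₗ[F] W) (hJ : ∀ w, J (J w) = -w) : Even (finrank F W) := by
  by_contra hodd
  rw [Nat.not_even_iff_odd] at hodd
  apply hns
  refine ⟨LinearMap.det J, ?_⟩
  have h1 : J ∘ₗ J = (-1 : F) • LinearMap.id := by
    ext w
    simp [hJ]
  rw [← LinearMap.det_comp, h1, LinearMap.det_smul, LinearMap.det_id, mul_one, hodd.neg_one_pow]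

theorem rank_one {F : Type} [Field F] {W : Type} [AddCommGroup W] [Module F W] [FiniteDimensional F W]
    (hd : finrank F W = 2) (N : W →ₗ[F] W) (hN : ∀ w, N (N (N w)) = 0) (h0 : N ≠ 0) :
    finrank F (LinearMap.range N) = 1 := by
  have h1 : finrank F (LinearMap.range N) ≤ 2 := hd ▸ Submodule.finrank_le _
  have h2 : finrank F (LinearMap.range N) ≠ 0 := by
    intro h
    exact h0 (LinearMap.range_eq_bot.1 (Submodule.finrank_eq_zero.1 h))
  have h3 : finrank F (LinearMap.range N) ≠ 2 := by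
    intro h
    have h4 : LinearMap.range N = ⊤ := Submodule.eq_top_of_finrank_eq (by rw [h, hd])
    have hs : Function.Surjective N := LinearMap.range_eq_top.1 h4
    apply h0
    ext w
    obtain ⟨x, hx⟩ := hs (N w)
    obtain ⟨y, hy⟩ := hs w
    obtain ⟨a, ha⟩ := hs y
    rw [← hy, ← ha]
    exact hN a
  omega

variable {F : Type} [Field F] {V : Type} [AddCommGroup V] [Module F V] {B : V →ₗ[F] V →ₗ[F] F}
variable {Γ : Type u} [Group Γ] (T : Md F B Γ)

theorem Md.cube_apply {z : Γ} (hz : z ^ 3 = 1) (v : V) : T.ρ z (T.ρ z (T.ρ z v)) = v := by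
  rw [← T.ρ_mul, ← T.ρ_mul, ← pow_three', hz, T.ρ_one]

theorem Md.cube_of {z : Γ} (h : ∀ v, T.ρ z (T.ρ z (T.ρ z v)) = v) : z ^ 3 = 1 := by
  apply T.ext
  intro v
  rw [pow_three, T.ρ_mul, T.ρ_mul, h, T.ρ_one]

section

variable [Fintype F] [FiniteDimensional F V] [Finite Γ] [Nontrivial V]

theorem Md.false_of_even (hB : Alt F B) (T : Md F B Γ) (h3 : (3 : F) = 0) (sm : Sm2 Γ) {K : Subgroup Γ}
    (hK : IsCarter K) {z : Γ} (hzL : z ∈ T.L) (hz3 : z ^ 3 = 1) (hz1 : z ≠ 1) (hc : K ≤ centralizer ({z} : Set Γ))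
    (he : Even (finrank F (LinearMap.range ((T.lin hzL : V →ₗ[F] V) - LinearMap.id)))) : False := by
  have hc' : T.lin hzL ∈ Isom B := mem_isom.2 (T.form_L hzL)
  have hc3 : (T.lin hzL) ^ 3 = 1 := by
    refine LinearEquiv.ext fun v => ?_
    exact T.cube_apply hz3 v
  obtain ⟨h, hh, hhe⟩ := real_of_even h3 hB.alt hB.nd hc' hc3 (Or.inl he)
  obtain ⟨g, hg, hgh⟩ := T.exists_L h (mem_isom.1 hh)
  refine T.not_real (two_ne h3) sm hK hc ?_ (g := g) ?_
  · intro h2
    apply hz1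
    have : z ^ 3 = z ^ 2 * z := pow_succ z 2
    rw [hz3, h2, one_mul] at this
    exact this.symm
  · have e1 : z * (g * z) = g := by
      apply T.ext
      intro v
      rw [T.ρ_mul, T.ρ_mul, hgh, hgh]
      have e2 : T.lin hzL * (h * T.lin hzL) = h := by
        have e3 : h * T.lin hzL = (T.lin hzL)⁻¹ * h := mul_inv_eq_iff_eq_mul.1 hhe
        rw [e3, mul_inv_cancel_left]
      exact LinearEquiv.congr_fun e2 v
    rw [mul_inv_eq_iff_eq_mul, eq_inv_mul_iff_mul_eq, e1]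

theorem Md.false_of_sq (hB : Alt F B) (T : Md F B Γ) (h3 : (3 : F) = 0) (hns : ¬ IsSquare (-1 : F)) (sm : Sm2 Γ)
    {K : Subgroup Γ} (hK : IsCarter K) {z : Γ} (hzL : z ∈ T.L) (hz3 : z ^ 3 = 1) (hz1 : z ≠ 1)
    (hc : K ≤ centralizer ({z} : Set Γ)) {t : Γ} (htL : t ∈ T.L) (htK : t ∈ K) (ht : t * t = T.eps) : False := by
  refine T.false_of_even hB h3 sm hK hzL hz3 hz1 hc ?_
  have htz : t * z = z * t := mem_centralizer_singleton_iff.1 (hc htK)
  have hR : ∀ v ∈ LinearMap.range ((T.lin hzL : V →ₗ[F] V) - LinearMap.id),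
      (T.lin htL : V →ₗ[F] V) v ∈ LinearMap.range ((T.lin hzL : V →ₗ[F] V) - LinearMap.id) := by
    rintro _ ⟨u, rfl⟩
    refine ⟨T.ρ t u, ?_⟩
    show T.ρ z (T.ρ t u) - T.ρ t u = T.lin htL (T.ρ z u - u)
    rw [map_sub, Md.lin_apply, Md.lin_apply, ← T.ρ_mul, ← T.ρ_mul, htz]
  refine even_of_sq_neg hns ((T.lin htL : V →ₗ[F] V).restrict hR) fun w => ?_
  apply Subtype.ext
  show T.ρ t (T.ρ t w) = -(w : V)
  rw [← T.ρ_mul, ht, T.eps_apply]

/-- `z` preserves the eigenspaces -/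
theorem Md.false_of_swap (hB : Alt F B) (T : Md F B Γ) (h3 : (3 : F) = 0) (sm : Sm2 Γ)
    {K : Subgroup Γ} (hK : IsCarter K) {z : Γ} (hzL : z ∈ T.L) (hz3 : z ^ 3 = 1) (hz1 : z ≠ 1)
    (hc : K ≤ centralizer ({z} : Set Γ)) {t : Γ} (htL : t ∈ T.L) (htK : t ∈ K) (ht : t * t = 1) {k : Γ} (hk : k ∈ K)
    (hkt : k * t = T.eps * (t * k)) : False := by
  refine T.false_of_even hB h3 sm hK hzL hz3 hz1 hc ?_
  haveI : Finite V := Module.finite_of_finite F
  have h2 := two_ne h3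
  have htz : t * z = z * t := mem_centralizer_singleton_iff.1 (hc htK)
  have hkz : k * z = z * k := mem_centralizer_singleton_iff.1 (hc hk)
  have htk : t * k = T.eps * (k * t) := by
    rw [hkt, ← mul_assoc, T.eps_sq, one_mul]
  set R := LinearMap.range ((T.lin hzL : V →ₗ[F] V) - LinearMap.id) with hRdef
  have hRm : ∀ g : Γ, g * z = z * g → ∀ v ∈ R, T.ρ g v ∈ R := by
    rintro g hg _ ⟨u, rfl⟩
    refine ⟨T.ρ g u, ?_⟩
    show T.ρ z (T.ρ g u) - T.ρ g u = T.ρ g (T.ρ z u - u)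
    rw [sub_eq_add_neg (T.ρ z u) u, T.add, T.ρ_neg, ← T.ρ_mul, ← T.ρ_mul, hg, sub_eq_add_neg]
  let P : Submodule F V := LinearMap.ker ((T.lin htL : V →ₗ[F] V) - LinearMap.id)
  let M : Submodule F V := LinearMap.ker ((T.lin htL : V →ₗ[F] V) + LinearMap.id)
  have hP : ∀ v, v ∈ P ↔ T.ρ t v = v := fun v => by
    rw [LinearMap.mem_ker]
    exact sub_eq_zero
  have hM : ∀ v, v ∈ M ↔ T.ρ t v = -v := fun v => by
    rw [LinearMap.mem_ker]
    exact eq_neg_iff_add_eq_zero.symm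
  have htt : ∀ v, T.ρ t (T.ρ t v) = v := fun v => by rw [← T.ρ_mul, ht, T.ρ_one]
  have hsup : (R ⊓ P) ⊔ (R ⊓ M) = R := by
    apply le_antisymm (sup_le inf_le_left inf_le_left)
    intro r hr
    have hr' := hRm t htz r hr
    have e : r = (2 : F)⁻¹ • (r + T.ρ t r) + (2 : F)⁻¹ • (r - T.ρ t r) := by
      rw [← smul_add]
      have : r + T.ρ t r + (r - T.ρ t r) = (2 : F) • r := by rw [two_smul]; abel
      rw [this, smul_smul, inv_mul_cancel₀ h2, one_smul]
    rw [e]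
    refine Submodule.add_mem_sup ⟨R.smul_mem _ (R.add_mem hr hr'), ?_⟩ ⟨R.smul_mem _ (R.sub_mem hr hr'), ?_⟩
    · refine P.smul_mem _ ((hP _).2 ?_)
      rw [T.add, htt, add_comm]
    · refine M.smul_mem _ ((hM _).2 ?_)
      rw [sub_eq_add_neg, T.add, T.ρ_neg, htt]
      abel
  have hinf : (R ⊓ P) ⊓ (R ⊓ M) = ⊥ := by
    rw [eq_bot_iff]
    rintro v ⟨⟨_, h1⟩, _, h2'⟩
    have h5 := (hP v).1 h1
    have h6 := (hM v).1 h2'
    rw [h5] at h6
    have h7 : (2 : F) • v = 0 := by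
      rw [two_smul]
      nth_rw 1 [h6]
      exact neg_add_cancel v
    exact (smul_eq_zero.1 h7).resolve_left h2
  have hdim := Submodule.finrank_sup_add_finrank_inf_eq (R ⊓ P) (R ⊓ M)
  rw [hsup, hinf, finrank_bot, add_zero] at hdim
  have hkP : ∀ v ∈ P, T.ρ k v ∈ M := by
    intro v hv
    rw [hM, ← T.ρ_mul, htk, T.ρ_mul, T.ρ_mul, (hP v).1 hv, T.eps_apply]
  have hkM : ∀ v ∈ M, T.ρ k v ∈ P := by
    intro v hv
    rw [hP, ← T.ρ_mul, htk, T.ρ_mul, T.ρ_mul, (hM v).1 hv, T.eps_apply, T.ρ_neg, neg_neg]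
  have hcard : Nat.card ↥(R ⊓ P) = Nat.card ↥(R ⊓ M) := by
    apply le_antisymm
    · refine Nat.card_le_card_of_injective (fun v => (⟨T.ρ k v, hRm k hkz v v.2.1, hkP v v.2.2⟩ : ↥(R ⊓ M))) ?_
      intro a b hab
      exact Subtype.ext ((T.ρ k).injective (congrArg Subtype.val hab))
    · refine Nat.card_le_card_of_injective (fun v => (⟨T.ρ k v, hRm k hkz v v.2.1, hkM v v.2.2⟩ : ↥(R ⊓ P))) ?_
      intro a b hab
      exact Subtype.ext ((T.ρ k).injective (congrArg Subtype.val hab))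
  rw [Module.natCard_eq_pow_finrank (K := F) (V := ↥(R ⊓ P)), Module.natCard_eq_pow_finrank (K := F) (V := ↥(R ⊓ M))] at hcard
  have h4 : finrank F ↥(R ⊓ P) = finrank F ↥(R ⊓ M) :=
    Nat.pow_right_injective (a := Nat.card F) Finite.one_lt_card hcard
  exact ⟨_, by rw [hdim, h4]⟩

end

/-- the elements `u` of order three in `Z(K)` acting trivially on `W^⊥` -/
theorem exists_u [Fintype F] [FiniteDimensional F V] [Finite Γ] (hB : Alt F B) (T : Md F B Γ)
    (hFp : Cfsg.Agent.H381.Car.Fpf.{u}) (sm : Sm2 Γ) {f : ℕ}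
    (hF : Fintype.card F = 3 ^ (2 * f + 1)) (h3 : (3 : F) = 0) {K : Subgroup Γ} (hK : IsCarter K) (hKL : K ⊔ T.L = ⊤)
    {W : Submodule F V} (hW : W ≠ ⊥) (hnd : NdOn B W) (hW1 : W ≠ ⊤) (hKW : K ≤ T.stab W) :
    ∃ u ∈ T.L, K ≤ centralizer ({u} : Set Γ) ∧ u ^ 3 = 1 ∧ (∀ v ∈ perp B W, T.ρ u v = v) ∧
      (∀ w ∈ W, T.ρ u w ∈ W) ∧ ∃ w ∈ W, T.ρ u w ≠ w := by
  haveI : Nontrivial W := Submodule.nontrivial_iff_ne_bot.2 hW
  have hK' := carter_res T sm hB hW hnd hW1 hK hKW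
  obtain ⟨z, hzL, hzK, ho, hc⟩ := (T.resMd hB W hW hnd).exists_three (hB.res hnd) hFp (sm_res T sm W) hF h3 hK'
    (sup_res T hB hW hnd hKL hKW)
  set T' := T.resMd hB W hW hnd with hT'
  obtain ⟨r, h1, h2, h4⟩ := exists_ext hB hnd (T'.lin hzL) (T'.form_L hzL)
  obtain ⟨u, huL, hu⟩ := T.exists_L r h1
  have hdec : ∀ v : V, ∃ (x : W) (y : perp B W), v = x + y := by
    intro v
    have : v ∈ W ⊔ perp B W := by rw [(hB.compl hnd).sup_eq_top]; exact Submodule.mem_top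
    obtain ⟨x, hx, y, hy, rfl⟩ := Submodule.mem_sup.1 this
    exact ⟨⟨x, hx⟩, ⟨y, hy⟩, rfl⟩
  have huW : ∀ w : W, T.ρ u w = ((T'.ρ z w : W) : V) := fun w => by rw [hu, h2]; rfl
  have huP : ∀ v ∈ perp B W, T.ρ u v = v := fun v hv => by rw [hu, h4 v hv]
  refine ⟨u, huL, ?_, ?_, huP, fun w hw => ?_, ?_⟩
  · intro k hk
    rw [mem_centralizer_singleton_iff]
    apply T.ext
    intro v
    obtain ⟨a, b, rfl⟩ := hdec v
    have hb : T.ρ k b ∈ perp B W := (T.stab_perp hB (hKW hk) b).2 b.2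
    have ha : T.ρ k a ∈ W := (hKW hk a).2 a.2
    have hkz : T.pr W ⟨k, hKW hk⟩ ∈ centralizer ({z} : Set (T.Q W)) := hc ⟨⟨k, hKW hk⟩, hk, rfl⟩
    rw [mem_centralizer_singleton_iff] at hkz
    have e1 := congrArg (fun g => ((T'.ρ g a : W) : V)) hkz
    simp only [T'.ρ_mul] at e1
    have hL : T.ρ (k * u) (a + b) = T.ρ k (T.ρ u a) + T.ρ k b := by
      rw [T.ρ_mul, T.add, T.add, huP b b.2]
    have hR : T.ρ (u * k) (a + b) = T.ρ u (T.ρ k a) + T.ρ k b := by
      rw [T.ρ_mul, T.add, T.add, huP _ hb]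
    rw [hL, hR]
    congr 1
    have e2 : T.ρ k (T.ρ u a) = ((T'.ρ (T.pr W ⟨k, hKW hk⟩) (T'.ρ z a) : W) : V) := by
      rw [huW]; rfl
    have e3 : T.ρ u (T.ρ k a) = ((T'.ρ z (T'.ρ (T.pr W ⟨k, hKW hk⟩) a) : W) : V) :=
      huW ⟨T.ρ k a, ha⟩
    rw [e2, e3]
    exact e1
  · apply T.cube_of
    intro v
    obtain ⟨a, b, rfl⟩ := hdec v
    have hz3 : z ^ 3 = 1 := by rw [← ho, pow_orderOf_eq_one]
    rw [T.add, T.add, T.add, huP b b.2, huP b b.2, huP b b.2, huW, huW, huW, T'.cube_apply hz3]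
  · rw [huW ⟨w, hw⟩]
    exact Subtype.mem _
  · by_contra hcon
    push Not at hcon
    have : z = 1 := by
      apply T'.ext
      intro w
      apply Subtype.ext
      rw [T'.ρ_one, ← huW, hcon w w.2]
    rw [this, orderOf_one] at ho
    omega

theorem even_dim [FiniteDimensional F V] (hB : Alt F B) : ∃ m, finrank F V = 2 * m := by
  obtain ⟨m, e, -⟩ := Cfsg.Agent.H567.Ct.exists_coords hB
  exact ⟨m, by rw [← e.finrank_eq, Module.finrank_fintype_fun_eq_card, Fintype.card_sum, Fintype.card_fin, two_mul]⟩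

/-- **no Carter subgroups** -/
theorem sp_main {F : Type} [Field F] [Fintype F] {f : ℕ} (hF : Fintype.card F = 3 ^ (2 * f + 1))
    (hFp : Cfsg.Agent.H381.Car.Fpf.{u}) :
    ∀ (d : ℕ) (V : Type) [AddCommGroup V] [Module F V] [FiniteDimensional F V] (B : V →ₗ[F] V →ₗ[F] F) (_ : Alt F B)
      (Γ : Type u) [Group Γ] [Finite Γ] (T : Md F B Γ) (_ : Sm2 Γ) (K : Subgroup Γ) (_ : IsCarter K)
      (_ : K ⊔ T.L = ⊤), finrank F V = d → 4 ≤ d → False := by
  haveI : Fact (Nat.Prime 3) := ⟨Nat.prime_three⟩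
  have h3 : (3 : F) = 0 := by
    have h1 : (Fintype.card F : F) = 0 := FiniteField.cast_card_eq_zero F
    rw [hF, Nat.cast_pow] at h1
    have h2 := (pow_eq_zero_iff (n := 2 * f + 1) (by omega)).1 h1
    exact_mod_cast h2
  have h2 := two_ne h3
  have hns : ¬ IsSquare (-1 : F) := by
    rw [FiniteField.isSquare_neg_one_iff, hF, not_not, pow_succ, pow_mul]
    have : (3 ^ 2) ^ f % 4 = 1 := by
      rw [Nat.pow_mod]
      norm_num
    omega
  intro d
  induction d using Nat.strong_induction_on with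
  | _ d IH =>
  intro V _ _ _ B hB Γ _ _ T sm K hK hKL hd hd4
  haveI : Nontrivial V := Module.nontrivial_of_finrank_pos (R := F) (by omega)
  obtain ⟨z, hzL, hzK, ho, hc⟩ := T.exists_three hB hFp sm hF h3 hK hKL
  have hz3 : z ^ 3 = 1 := by rw [← ho, pow_orderOf_eq_one]
  have hz1 : z ≠ 1 := by
    rintro rfl
    rw [orderOf_one] at ho
    omega
  obtain ⟨t, htL, htK, ht1, hte, htt, hkt⟩ := T.exists_t hB hFp sm hF h3 (by omega) hK
  rcases htt with htt | htt
  swap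
  · exact T.false_of_sq hB h3 hns sm hK hzL hz3 hz1 hc htL htK htt
  by_cases hsw : ∃ k ∈ K, k * t = T.eps * (t * k)
  · obtain ⟨k, hk, e⟩ := hsw
    exact T.false_of_swap hB h3 sm hK hzL hz3 hz1 hc htL htK htt hk e
  have hcomm : ∀ k ∈ K, k * t = t * k := fun k hk => (hkt k hk).resolve_right fun h => hsw ⟨k, hk, h⟩
  -- the eigenspaces
  let P : Submodule F V := LinearMap.ker ((T.lin htL : V →ₗ[F] V) - LinearMap.id)
  let M : Submodule F V := LinearMap.ker ((T.lin htL : V →ₗ[F] V) + LinearMap.id)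
  have hP : ∀ v, v ∈ P ↔ T.ρ t v = v := fun v => by
    rw [LinearMap.mem_ker]
    exact sub_eq_zero
  have hM : ∀ v, v ∈ M ↔ T.ρ t v = -v := fun v => by
    rw [LinearMap.mem_ker]
    exact eq_neg_iff_add_eq_zero.symm
  have httv : ∀ v, T.ρ t (T.ρ t v) = v := fun v => by rw [← T.ρ_mul, htt, T.ρ_one]
  have hinf : P ⊓ M = ⊥ := by
    rw [eq_bot_iff]
    rintro v ⟨h1, h2'⟩
    have h5 := (hP v).1 h1
    have h6 := (hM v).1 h2'
    rw [h5] at h6
    have h7 : (2 : F) • v = 0 := by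
      rw [two_smul]
      nth_rw 1 [h6]
      exact neg_add_cancel v
    exact (smul_eq_zero.1 h7).resolve_left h2
  have hplus : ∀ v, v + T.ρ t v ∈ P := fun v => by rw [hP, T.add, httv, add_comm]
  have hminus : ∀ v, v - T.ρ t v ∈ M := fun v => by
    rw [hM, sub_eq_add_neg, T.add, T.ρ_neg, httv]
    abel
  have hsup : P ⊔ M = ⊤ := by
    rw [eq_top_iff]
    intro r _
    have e : r = (2 : F)⁻¹ • (r + T.ρ t r) + (2 : F)⁻¹ • (r - T.ρ t r) := by
      rw [← smul_add]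
      have : r + T.ρ t r + (r - T.ρ t r) = (2 : F) • r := by rw [two_smul]; abel
      rw [this, smul_smul, inv_mul_cancel₀ h2, one_smul]
    rw [e]
    exact Submodule.add_mem_sup (P.smul_mem _ (hplus r)) (M.smul_mem _ (hminus r))
  have hPM : ∀ a ∈ P, ∀ b ∈ M, B a b = 0 := by
    intro a ha b hb
    have h1 := T.form_L htL a b
    rw [(hP a).1 ha, (hM b).1 hb, map_neg] at h1
    have h4 : (2 : F) * B a b = 0 := by linear_combination -h1
    exact (mul_eq_zero.1 h4).resolve_left h2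
  have hMP : ∀ a ∈ M, ∀ b ∈ P, B a b = 0 := fun a ha b hb => by rw [hB.skew, hPM b hb a ha, neg_zero]
  have hndP : NdOn B P := by
    intro x hx h
    apply hB.nd
    intro v
    have : v ∈ P ⊔ M := by rw [hsup]; exact Submodule.mem_top
    obtain ⟨a, ha, b, hb, rfl⟩ := Submodule.mem_sup.1 this
    rw [map_add, h a ha, hPM x hx b hb, add_zero]
  have hndM : NdOn B M := by
    intro x hx h
    apply hB.nd
    intro v
    have : v ∈ P ⊔ M := by rw [hsup]; exact Submodule.mem_top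
    obtain ⟨a, ha, b, hb, rfl⟩ := Submodule.mem_sup.1 this
    rw [map_add, h b hb, hMP x hx a ha, add_zero]
  have hP0 : P ≠ ⊥ := by
    intro h
    apply hte
    apply T.ext
    intro v
    have h1 := hplus v
    rw [h, Submodule.mem_bot] at h1
    rw [T.eps_apply]
    exact eq_neg_of_add_eq_zero_right h1
  have hM0 : M ≠ ⊥ := by
    intro h
    apply ht1
    apply T.ext
    intro v
    have h1 := hminus v
    rw [h, Submodule.mem_bot] at h1
    rw [T.ρ_one]
    exact (sub_eq_zero.1 h1).symm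
  have hP1 : P ≠ ⊤ := by
    intro h
    rw [h, top_inf_eq] at hinf
    exact hM0 hinf
  have hM1 : M ≠ ⊤ := by
    intro h
    rw [h, inf_top_eq] at hinf
    exact hP0 hinf
  haveI : Finite V := Module.finite_of_finite F
  have hKP : K ≤ T.stab P := by
    intro k hk
    apply T.mem_stab_of_le
    intro v hv
    rw [hP, ← T.ρ_mul, ← hcomm k hk, T.ρ_mul, (hP v).1 hv]
  have hKM : K ≤ T.stab M := by
    intro k hk
    apply T.mem_stab_of_le
    intro v hv
    rw [hM, ← T.ρ_mul, ← hcomm k hk, T.ρ_mul, (hM v).1 hv, T.ρ_neg]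
  have hdim := Submodule.finrank_sup_add_finrank_inf_eq P M
  rw [hsup, hinf, finrank_bot, add_zero, finrank_top, hd] at hdim
  obtain ⟨m1, hm1⟩ := even_dim (hB.res hndP)
  obtain ⟨m2, hm2⟩ := even_dim (hB.res hndM)
  have hp0 : 0 < finrank F P := Nat.pos_of_ne_zero fun h => hP0 (Submodule.finrank_eq_zero.1 h)
  have hm0 : 0 < finrank F M := Nat.pos_of_ne_zero fun h => hM0 (Submodule.finrank_eq_zero.1 h)
  by_cases hp4 : 4 ≤ finrank F P
  · exact IH (finrank F P) (by omega) P (Uni.res B P) (hB.res hndP) (T.Q P) (T.resMd hB P hP0 hndP) (sm_res T sm P) _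
      (carter_res T sm hB hP0 hndP hP1 hK hKP) (sup_res T hB hP0 hndP hKL hKP) rfl hp4
  by_cases hm4 : 4 ≤ finrank F M
  · exact IH (finrank F M) (by omega) M (Uni.res B M) (hB.res hndM) (T.Q M) (T.resMd hB M hM0 hndM) (sm_res T sm M) _
      (carter_res T sm hB hM0 hndM hM1 hK hKM) (sup_res T hB hM0 hndM hKL hKM) rfl hm4
  have hp2 : finrank F P = 2 := by omega
  have hm2' : finrank F M = 2 := by omega
  -- dimension four
  obtain ⟨u, huL, huK, hu3, huM, huP, a, haP, hau⟩ := exists_u hB T hFp sm hF h3 hK hKL hP0 hndP hP1 hKP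
  obtain ⟨w, hwL, hwK, hw3, hwP, hwM, b, hbM, hbw⟩ := exists_u hB T hFp sm hF h3 hK hKL hM0 hndM hM1 hKM
  have huM' : ∀ v ∈ M, T.ρ u v = v := fun v hv => huM v fun y hy => hPM y hy v hv
  have hwP' : ∀ v ∈ P, T.ρ w v = v := fun v hv => hwP v fun y hy => hMP y hy v hv
  have huwL : u * w ∈ T.L := mul_mem huL hwL
  have h1P : ∀ v ∈ P, T.ρ (u * w) v = T.ρ u v := fun v hv => by rw [T.ρ_mul, hwP' v hv]
  have h1M : ∀ v ∈ M, T.ρ (u * w) v = T.ρ w v := fun v hv => by rw [T.ρ_mul, huM' _ (hwM v hv)]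
  have hcube : (u * w) ^ 3 = 1 := by
    apply T.cube_of
    intro v
    have : v ∈ P ⊔ M := by rw [hsup]; exact Submodule.mem_top
    obtain ⟨x, hx, y, hy, rfl⟩ := Submodule.mem_sup.1 this
    rw [T.add, T.add, T.add, h1P x hx, h1P _ (huP x hx), h1P _ (huP _ (huP x hx)), h1M y hy, h1M _ (hwM y hy),
      h1M _ (hwM _ (hwM y hy)), T.cube_apply hu3, T.cube_apply hw3]
  have hne : u * w ≠ 1 := by
    intro h
    apply hau
    rw [← h1P a haP, h, T.ρ_one]
  have hcen : K ≤ centralizer ({u * w} : Set Γ) := by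
    intro k hk
    have h1 : k * u = u * k := mem_centralizer_singleton_iff.1 (huK hk)
    have h4 : k * w = w * k := mem_centralizer_singleton_iff.1 (hwK hk)
    rw [mem_centralizer_singleton_iff]
    exact (Commute.mul_right h1 h4 : Commute k (u * w))
  refine T.false_of_even hB h3 sm hK huwL hcube hne hcen ?_
  set N : V →ₗ[F] V := (T.lin huwL : V →ₗ[F] V) - LinearMap.id with hN
  have hNv : ∀ v, N v = T.ρ (u * w) v - v := fun v => rfl
  have hNP : ∀ v ∈ P, N v ∈ P := fun v hv => by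
    rw [hNv, h1P v hv]
    exact P.sub_mem (huP v hv) hv
  have hNM : ∀ v ∈ M, N v ∈ M := fun v hv => by
    rw [hNv, h1M v hv]
    exact M.sub_mem (hwM v hv) hv
  have hN3 : ∀ v, N (N (N v)) = 0 := by
    intro v
    have e1 := T.cube_apply hcube v
    have hs : ∀ x y, T.ρ (u * w) (x - y) = T.ρ (u * w) x - T.ρ (u * w) y := fun x y => by
      rw [sub_eq_add_neg, T.add, T.ρ_neg, ← sub_eq_add_neg]
    simp only [hNv, hs, e1]
    have h3v : ∀ x : V, x + x + x = 0 := by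
      intro x
      have : (3 : F) • x = x + x + x := by
        rw [show (3 : F) = 1 + 1 + 1 by norm_num, add_smul, add_smul, one_smul]
      rw [← this, h3, zero_smul]
    have h5 := h3v (T.ρ (u * w) (T.ρ (u * w) v))
    have h6 := h3v (T.ρ (u * w) v)
    calc _ = (T.ρ (u * w) v + T.ρ (u * w) v + T.ρ (u * w) v) -
        (T.ρ (u * w) (T.ρ (u * w) v) + T.ρ (u * w) (T.ρ (u * w) v) + T.ρ (u * w) (T.ρ (u * w) v)) := by abel
      _ = 0 := by rw [h5, h6, sub_zero]
  have hcompl : IsCompl P M := ⟨disjoint_iff.2 hinf, codisjoint_iff.2 hsup⟩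
  rw [rank_add hcompl hNP hNM]
  have r1 : finrank F (LinearMap.range (N.restrict hNP)) = 1 := by
    refine rank_one hp2 _ (fun x => Subtype.ext (hN3 x)) ?_
    intro h
    have h5 : (N.restrict hNP) ⟨a, haP⟩ = 0 := by rw [h]; rfl
    have h6 : N a = 0 := congrArg Subtype.val h5
    rw [hNv, h1P a haP, sub_eq_zero] at h6
    exact hau h6
  have r2 : finrank F (LinearMap.range (N.restrict hNM)) = 1 := by
    refine rank_one hm2' _ (fun x => Subtype.ext (hN3 x)) ?_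
    intro h
    have h5 : (N.restrict hNM) ⟨b, hbM⟩ = 0 := by rw [h]; rfl
    have h6 : N b = 0 := congrArg Subtype.val h5
    rw [hNv, h1M b hbM, sub_eq_zero] at h6
    exact hbw h6
  rw [r1, r2]
  exact ⟨1, rfl⟩

end Cfsg.Agent.H18.Carter
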