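import Cfsg.Agent.H18.Carter.UniBlk

/-!
# Conjugacy of unipotent isometries: orthogonal sums (S3852)
-/

set_option autoImplicit false
set_option linter.unusedSectionVars false
set_option linter.unusedVariables false

universe u

namespace Cfsg.Agent.H18.Carter.Uni

open Cfsg.Agent.H904.FR Cfsg.Agent.H721.FR Cfsg.Agent.H721.SR Module

variable {F V : Type u} [Field F] [AddCommGroup V] [Module F V]

variable {B : V →ₗ[F] V →ₗ[F] F} {N N' : V →ₗ[F] V} {k : ℕ} {ε : F}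

theorem isCompl_perp [FiniteDimensional F V] (hε : ε * ε = 1) (hB : ∀ x y, B x y = ε * B y x) {U : Submodule F V}
    (hU : NdOn B U) : IsCompl U (perp B U) := by
  have hB0 : ∀ x y, B x y = 0 → B y x = 0 := fun x y h => by rw [hB, h, mul_zero]
  constructor
  · rw [Submodule.disjoint_def]
    intro x hx hx'
    exact hU x hx fun y hy => hB0 _ _ (hx' y hy)
  · rw [codisjoint_iff, eq_top_iff]
    intro v _
    let L : U →ₗ[F] (U →ₗ[F] F) := (B.compl₁₂ U.subtype U.subtype)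
    have hL : ∀ x y : U, L x y = B x y := fun x y => rfl
    have hinj : Function.Injective L := by
      rw [injective_iff_map_eq_zero]
      intro x hx
      apply Subtype.ext
      refine hU x x.2 fun y hy => ?_
      exact LinearMap.congr_fun hx ⟨y, hy⟩
    have hsur := (LinearMap.injective_iff_surjective_of_finrank_eq_finrank
      (Subspace.dual_finrank_eq (K := F) (V := U)).symm).1 hinj
    obtain ⟨u, hu⟩ := hsur ((B v) ∘ₗ U.subtype)
    have h1 : ∀ y ∈ U, B u y = B v y := fun y hy => LinearMap.congr_fun hu ⟨y, hy⟩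
    refine Submodule.mem_sup.2 ⟨u, u.2, v - u, ?_, by abel⟩
    intro y hy
    apply hB0
    rw [map_sub, LinearMap.sub_apply, h1 y hy, sub_self]

theorem perp_inv (hs : ∀ x y, B (N x) y = - B x (N y)) {U : Submodule F V} (hU : ∀ x ∈ U, N x ∈ U) :
    ∀ x ∈ perp B U, N x ∈ perp B U := by
  intro x hx y hy
  have h1 := hs y x
  rw [hx _ (hU y hy)] at h1
  exact (neg_eq_zero.1 h1.symm)

/-- the restricted form -/
def res (B : V →ₗ[F] V →ₗ[F] F) (U : Submodule F V) : U →ₗ[F] U →ₗ[F] F := B.compl₁₂ U.subtype U.subtype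

@[simp] theorem res_apply (U : Submodule F V) (x y : U) : res B U x y = B x y := rfl

/-- glueing -/
theorem exists_glue {U W : Submodule F V} (h : IsCompl U W) (f : U ≃ₗ[F] U) (g : W ≃ₗ[F] W) :
    ∃ r : V ≃ₗ[F] V, (∀ x : U, r x = f x) ∧ ∀ x : W, r x = g x := by
  let e := Submodule.prodEquivOfIsCompl U W h
  refine ⟨e.symm ≪≫ₗ (f.prodCongr g) ≪≫ₗ e, fun x => ?_, fun x => ?_⟩
  · have h1 : (x : V) = e (x, 0) := by
      rw [Submodule.coe_prodEquivOfIsCompl']
      simp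
    show e ((f.prodCongr g) (e.symm x)) = f x
    rw [h1, e.symm_apply_apply]
    show e (f x, g 0) = f x
    rw [Submodule.coe_prodEquivOfIsCompl']
    simp
  · have h1 : (x : V) = e (0, x) := by
      rw [Submodule.coe_prodEquivOfIsCompl']
      simp
    show e ((f.prodCongr g) (e.symm x)) = g x
    rw [h1, e.symm_apply_apply]
    show e (f 0, g x) = g x
    rw [Submodule.coe_prodEquivOfIsCompl']
    simp

/-- glueing of similitudes intertwining `N` and `N'` -/
theorem glue (hε : ε * ε = 1) (hB : ∀ x y, B x y = ε * B y x) {U : Submodule F V} (hc : IsCompl U (perp B U))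
    {μ : F} (f : U ≃ₗ[F] U) (g : perp B U ≃ₗ[F] perp B U)
    (hf : ∀ x y, B (f x : V) (f y) = μ * B x y) (hg : ∀ x y, B (g x : V) (g y) = μ * B x y)
    (hfN : ∀ x y : U, (y : V) = N x → (f y : V) = N' (f x))
    (hgN : ∀ x y : perp B U, (y : V) = N x → (g y : V) = N' (g x))
    (hU : ∀ x ∈ U, N x ∈ U) (hW : ∀ x ∈ perp B U, N x ∈ perp B U) :
    ∃ h : V ≃ₗ[F] V, (∀ x y, B (h x) (h y) = μ * B x y) ∧ ∀ x, h (N x) = N' (h x) := by
  have hB0 : ∀ x y, B x y = 0 → B y x = 0 := fun x y h => by rw [hB, h, mul_zero]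
  obtain ⟨r, h1, h2⟩ := exists_glue hc f g
  have hdec : ∀ v : V, ∃ (x : U) (y : perp B U), v = x + y := by
    intro v
    have : v ∈ U ⊔ perp B U := by rw [hc.sup_eq_top]; exact Submodule.mem_top
    obtain ⟨x, hx, y, hy, rfl⟩ := Submodule.mem_sup.1 this
    exact ⟨⟨x, hx⟩, ⟨y, hy⟩, rfl⟩
  refine ⟨r, ?_, ?_⟩
  · intro v w
    obtain ⟨x, y, rfl⟩ := hdec v
    obtain ⟨x', y', rfl⟩ := hdec w
    have o1 : B (x : V) (y' : V) = 0 := y'.2 x x.2
    have o2 : B (y : V) (x' : V) = 0 := hB0 _ _ (y.2 x' x'.2)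
    have o3 : B (f x : V) (g y' : V) = 0 := (g y').2 _ (f x).2
    have o4 : B (g y : V) (f x' : V) = 0 := hB0 _ _ ((g y).2 _ (f x').2)
    simp only [map_add, LinearMap.add_apply, h1, h2]
    rw [o1, o2, o3, o4, hf, hg]
    ring
  · intro v
    obtain ⟨x, y, rfl⟩ := hdec v
    rw [map_add, map_add, map_add, map_add, h1, h2]
    have e1 := h1 ⟨N x, hU x x.2⟩
    have e2 := h2 ⟨N y, hW y y.2⟩
    change r (N x) = _ at e1
    change r (N y) = _ at e2
    rw [e1, e2, hfN x ⟨N x, hU x x.2⟩ rfl, hgN y ⟨N y, hW y y.2⟩ rfl]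

/-- `N'` is a polynomial in `N` with leading term `n N` -/
structure Rel (n : F) (N N' : V →ₗ[F] V) : Prop where
  comm : ∀ x, N (N' x) = N' (N x)
  lead : ∀ U : Submodule F V, (∀ x ∈ U, N x ∈ U) → ∀ x ∈ U, ∃ y ∈ U, N' x = n • N x + N (N y)

theorem Rel.inv {n : F} (h : Rel n N N') {U : Submodule F V} (hU : ∀ x ∈ U, N x ∈ U) : ∀ x ∈ U, N' x ∈ U := by
  intro x hx
  obtain ⟨y, hy, e⟩ := h.lead U hU x hx
  rw [e]
  exact U.add_mem (U.smul_mem _ (hU x hx)) (hU _ (hU y hy))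

theorem Rel.pow {n : F} (h : Rel n N N') (j : ℕ) : ∀ x, ∃ y, (N' ^ j) x = n ^ j • (N ^ j) x + (N ^ (j + 1)) y := by
  induction j with
  | zero => exact fun x => ⟨0, by simp⟩
  | succ j ih =>
    intro x
    obtain ⟨y, hy⟩ := ih (N' x)
    obtain ⟨z, -, hz⟩ := h.lead ⊤ (fun _ _ => Submodule.mem_top) x Submodule.mem_top
    obtain ⟨w, -, hw⟩ := h.lead ⊤ (fun _ _ => Submodule.mem_top) y Submodule.mem_top
    have hcom : ∀ (i : ℕ) (v : V), (N ^ i) (N' v) = N' ((N ^ i) v) := by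
      intro i v
      induction i generalizing v with
      | zero => rfl
      | succ i ih => rw [pow_succ, Module.End.mul_apply, h.comm, ih, Module.End.mul_apply]
    obtain ⟨y, hy⟩ := ih x
    obtain ⟨w, -, hw⟩ := h.lead ⊤ (fun _ _ => Submodule.mem_top) y Submodule.mem_top
    obtain ⟨z, -, hz⟩ := h.lead ⊤ (fun _ _ => Submodule.mem_top) x Submodule.mem_top
    have e1 : (N' ^ (j + 1)) x = N' ((N' ^ j) x) := by rw [pow_succ']; rfl
    have e2 : ∀ v, (N ^ (j + 1)) (N v) = (N ^ (j + 1 + 1)) v := fun v => by rw [pow_succ N (j + 1)]; rfl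
    have e3 : ∀ v, (N ^ j) (N v) = (N ^ (j + 1)) v := fun v => by rw [pow_succ N j]; rfl
    refine ⟨n ^ j • z + n • y + N w, ?_⟩
    rw [e1, hy, map_add, map_smul, ← hcom, ← hcom, hz, hw]
    simp only [map_add, map_smul, e3, e2, smul_add, smul_smul]
    rw [pow_succ n j]
    abel

theorem Rel.pow_eq {n : F} (h : Rel n N N') (hN : N ^ (k + 1) = 0) (x : V) : (N' ^ k) x = n ^ k • (N ^ k) x := by
  obtain ⟨y, hy⟩ := h.pow k x
  rw [hy, hN]
  simp

theorem Rel.pow_succ_eq {n : F} (h : Rel n N N') (hN : N ^ (k + 1) = 0) : N' ^ (k + 1) = 0 := by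
  ext x
  obtain ⟨y, hy⟩ := h.pow (k + 1) x
  rw [hy, hN, pow_zero_of_lt hN (by omega)]
  simp

theorem Rel.restrict {n : F} (h : Rel n N N') {U : Submodule F V} (hU : ∀ x ∈ U, N x ∈ U) :
    Rel n (N.restrict hU) (N'.restrict (h.inv hU)) := by
  refine ⟨fun x => Subtype.ext (h.comm x), fun W hW x hx => ?_⟩
  obtain ⟨y, hy, e⟩ := h.lead (W.map U.subtype) (by
    rintro _ ⟨w, hw, rfl⟩
    exact ⟨_, hW w hw, rfl⟩) x ⟨x, hx, rfl⟩
  obtain ⟨y, hy, rfl⟩ := hy
  exact ⟨y, hy, Subtype.ext e⟩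

end Cfsg.Agent.H18.Carter.Uni
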