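import Cfsg.Agent.H18.Carter.SpDef
import Cfsg.Agent.H18.Carter.UniGlue

/-!
# S3852, rows `PSp₂ₙ(q)`: restriction to a nondegenerate subspace

`T.stab W` : the stabiliser of the nondegenerate subspace `W`; `T.Q W` : the group it induces on `W`;
`T.resMd` : it is again a group of semilinear isometries; `carter_res` : the image of a Carter subgroup `K` of `Γ`
stabilising `W` is a Carter subgroup.
-/

set_option autoImplicit false
set_option linter.unusedSectionVars false
set_option linter.unusedVariables false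

namespace Cfsg.Agent.H18.Carter

open Subgroup Pointwise Module
open Cfsg.Agent.Solvable.Carter
open Cfsg.Agent.H721.FR Cfsg.Agent.H721.SR Cfsg.Agent.H18.Carter.Uni

universe u

variable {F : Type} [Field F] {V : Type} [AddCommGroup V] [Module F V] {B : V →ₗ[F] V →ₗ[F] F}

theorem Alt.eps (hB : Alt F B) : ∀ x y, B x y = (-1) * B y x := fun x y => by rw [neg_one_mul]; exact hB.skew x y

theorem Alt.compl [FiniteDimensional F V] (hB : Alt F B) {W : Submodule F V} (hW : NdOn B W) : IsCompl W (perp B W) :=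
  isCompl_perp (by ring) hB.eps hW

theorem Alt.res {W : Submodule F V} (hB : Alt F B) (hW : NdOn B W) : Alt F (res B W) :=
  ⟨fun v => hB.alt v, fun v hv => Subtype.ext (hW v v.2 fun y hy => hv ⟨y, hy⟩)⟩

theorem Alt.perp_ndOn [FiniteDimensional F V] (hB : Alt F B) {W : Submodule F V} (hW : NdOn B W) :
    NdOn B (perp B W) := by
  intro x hx h
  apply hB.nd
  intro v
  have : v ∈ W ⊔ perp B W := by rw [(hB.compl hW).sup_eq_top]; exact Submodule.mem_top
  obtain ⟨y, hy, w, hw, rfl⟩ := Submodule.mem_sup.1 this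
  rw [map_add, h w hw, add_zero, hB.skew, hx y hy, neg_zero]

/-- extension of isometries by the identity -/
theorem exists_ext [FiniteDimensional F V] (hB : Alt F B) {W : Submodule F V} (hW : NdOn B W) (x : W ≃ₗ[F] W)
    (hx : ∀ v w : W, B (x v : V) (x w) = B v w) :
    ∃ r : V ≃ₗ[F] V, (∀ v w, B (r v) (r w) = B v w) ∧ (∀ w : W, r w = x w) ∧ ∀ v ∈ perp B W, r v = v := by
  obtain ⟨r, h1, h2⟩ := exists_glue (hB.compl hW) x (LinearEquiv.refl F (perp B W))
  have hdec : ∀ v : V, ∃ (x : W) (y : perp B W), v = x + y := by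
    intro v
    have : v ∈ W ⊔ perp B W := by rw [(hB.compl hW).sup_eq_top]; exact Submodule.mem_top
    obtain ⟨x, hx, y, hy, rfl⟩ := Submodule.mem_sup.1 this
    exact ⟨⟨x, hx⟩, ⟨y, hy⟩, rfl⟩
  refine ⟨r, ?_, h1, fun v hv => h2 ⟨v, hv⟩⟩
  intro v w
  obtain ⟨a, b, rfl⟩ := hdec v
  obtain ⟨a', b', rfl⟩ := hdec w
  have o1 : B (a : V) (b' : V) = 0 := b'.2 a a.2
  have o2 : B (b : V) (a' : V) = 0 := by rw [hB.skew, b.2 a' a'.2, neg_zero]
  have o3 : B (x a : V) (b' : V) = 0 := b'.2 _ (x a).2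
  have o4 : B (b : V) (x a' : V) = 0 := by rw [hB.skew, b.2 _ (x a').2, neg_zero]
  have e1 : ∀ y : perp B W, r y = y := h2
  simp only [map_add, LinearMap.add_apply, h1, e1, o1, o2, o3, o4, hx]

variable {Γ : Type u} [Group Γ] (T : Md F B Γ)

namespace Md

/-- the stabiliser of `W` -/
def stab (W : Submodule F V) : Subgroup Γ where
  carrier := {g | ∀ v, T.ρ g v ∈ W ↔ v ∈ W}
  mul_mem' := fun {g h} hg hh v => by rw [T.ρ_mul, hg, hh]
  one_mem' := fun v => by rw [T.ρ_one]
  inv_mem' := fun {g} hg v => by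
    have := hg (T.ρ g⁻¹ v)
    rw [T.ρ_self_inv] at this
    exact this.symm

theorem mem_stab {W : Submodule F V} {g : Γ} : g ∈ T.stab W ↔ ∀ v, T.ρ g v ∈ W ↔ v ∈ W := Iff.rfl

theorem mem_stab_of_le [Finite V] {W : Submodule F V} {g : Γ} (h : ∀ v ∈ W, T.ρ g v ∈ W) : g ∈ T.stab W := by
  intro v
  refine ⟨fun hv => ?_, h v⟩
  have hinj : Function.Injective (fun w : W => (⟨T.ρ g w, h w w.2⟩ : W)) := by
    intro a b hab
    exact Subtype.ext ((T.ρ g).injective (congrArg Subtype.val hab))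
  obtain ⟨w, hw⟩ := (Finite.injective_iff_surjective.1 hinj) ⟨T.ρ g v, hv⟩
  have h1 : T.ρ g w = T.ρ g v := congrArg Subtype.val hw
  rw [← (T.ρ g).injective h1]
  exact w.2

theorem stab_perp (hB : Alt F B) {W : Submodule F V} {g : Γ} (hg : g ∈ T.stab W) : g ∈ T.stab (perp B W) := by
  have key : ∀ g ∈ T.stab W, ∀ v ∈ perp B W, T.ρ g v ∈ perp B W := by
    intro g hg v hv y hy
    have h1 : T.ρ g⁻¹ y ∈ W := ((inv_mem hg : g⁻¹ ∈ T.stab W) y).2 hy
    have h2 := T.form g (T.ρ g⁻¹ y) v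
    rw [T.ρ_self_inv, hv _ h1, map_zero] at h2
    exact h2
  intro v
  refine ⟨fun h => ?_, key g hg v⟩
  have := key g⁻¹ (inv_mem hg) _ h
  rwa [T.ρ_inv_self] at this

/-- the action on `W` -/
def resHom (W : Submodule F V) : ↥(T.stab W) →* Equiv.Perm W where
  toFun h :=
    { toFun := fun w => ⟨T.ρ h w, (h.2 w).2 w.2⟩
      invFun := fun w => ⟨T.ρ (h : Γ)⁻¹ w, ((inv_mem h.2 : (h : Γ)⁻¹ ∈ T.stab W) w).2 w.2⟩
      left_inv := fun w => Subtype.ext (T.ρ_inv_self _ _)
      right_inv := fun w => Subtype.ext (T.ρ_self_inv _ _) }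
  map_one' := by
    ext w
    exact T.ρ_one _
  map_mul' g h := by
    ext w
    exact T.ρ_mul _ _ _

@[simp] theorem resHom_apply (W : Submodule F V) (h : T.stab W) (w : W) : (T.resHom W h w : V) = T.ρ h w := rfl

/-- the group induced on `W` -/
abbrev Q (W : Submodule F V) : Type u := ↥(T.stab W) ⧸ (T.resHom W).ker

/-- the projection -/
abbrev pr (W : Submodule F V) : ↥(T.stab W) →* T.Q W := QuotientGroup.mk' (T.resHom W).ker

theorem σ_of_ker {W : Submodule F V} (hW : W ≠ ⊥) {h : T.stab W} (hh : h ∈ (T.resHom W).ker) : T.σ h = 1 := by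
  obtain ⟨w, hw, hw0⟩ := W.ne_bot_iff.1 hW
  have h0 : ∀ w : W, T.ρ h w = w := by
    intro w
    have := congrArg (fun f : Equiv.Perm W => ((f w : W) : V)) (MonoidHom.mem_ker.1 hh)
    exact this
  ext a
  have h1 := T.smul h a w
  have h2 := h0 ⟨a • w, W.smul_mem a hw⟩
  have h3 := h0 ⟨w, hw⟩
  simp only at h2 h3
  rw [h2, h3] at h1
  exact (smul_left_injective F hw0 h1).symm

/-- the group induced on `W` is a group of semilinear isometries -/
noncomputable def resMd [FiniteDimensional F V] (hB : Alt F B) (W : Submodule F V) (hW : W ≠ ⊥) (hnd : NdOn B W) :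
    Md F (Uni.res B W) (T.Q W) where
  ρ := QuotientGroup.kerLift (T.resHom W)
  σ := QuotientGroup.lift _ (T.σ.comp (T.stab W).subtype) fun h hh => T.σ_of_ker hW hh
  inj := QuotientGroup.kerLift_injective _
  add := by
    intro g v w
    obtain ⟨g, rfl⟩ := QuotientGroup.mk'_surjective _ g
    exact Subtype.ext (T.add _ _ _)
  smul := by
    intro g a v
    obtain ⟨g, rfl⟩ := QuotientGroup.mk'_surjective _ g
    exact Subtype.ext (T.smul _ _ _)
  form := by
    intro g v w
    obtain ⟨g, rfl⟩ := QuotientGroup.mk'_surjective _ g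
    exact T.form _ _ _
  sp := by
    intro x hx
    obtain ⟨r, h1, h2, h3⟩ := exists_ext hB hnd x hx
    obtain ⟨g, hg, hgr⟩ := T.exists_L r h1
    have hgs : g ∈ T.stab W := by
      intro v
      have hdec : v ∈ W ⊔ perp B W := by rw [(hB.compl hnd).sup_eq_top]; exact Submodule.mem_top
      obtain ⟨a, ha, b, hb, rfl⟩ := Submodule.mem_sup.1 hdec
      rw [hgr, map_add, h3 b hb, h2 ⟨a, ha⟩]
      constructor
      · intro h
        have hb' : b ∈ W := by
          have := W.sub_mem h (x ⟨a, ha⟩).2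
          rwa [add_sub_cancel_left] at this
        exact W.add_mem ha hb'
      · intro h
        have hb' : b ∈ W := by
          have := W.sub_mem h ha
          rwa [add_sub_cancel_left] at this
        exact W.add_mem (x ⟨a, ha⟩).2 hb'
    refine ⟨QuotientGroup.mk' _ ⟨g, hgs⟩, ?_, ?_⟩
    · exact T.mem_L.1 hg
    · intro w
      apply Subtype.ext
      show T.ρ g w = x w
      rw [hgr, h2]

variable [FiniteDimensional F V] (hB : Alt F B) {W : Submodule F V} (hW : W ≠ ⊥) (hnd : NdOn B W)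

@[simp] theorem resMd_ρ (h : T.stab W) (w : W) : (((T.resMd hB W hW hnd).ρ (T.pr W h) w : W) : V) = T.ρ h w := rfl

theorem resMd_σ (h : T.stab W) : (T.resMd hB W hW hnd).σ (T.pr W h) = T.σ h := rfl

theorem pr_mem_L (h : T.stab W) : T.pr W h ∈ (T.resMd hB W hW hnd).L ↔ (h : Γ) ∈ T.L := by
  rw [Md.mem_L, Md.mem_L, resMd_σ]

end Md

/-! ### Carter subgroups -/

section

variable [FiniteDimensional F V] [Finite Γ] (hB : Alt F B) {W : Submodule F V} (hW : W ≠ ⊥) (hnd : NdOn B W)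
  {K : Subgroup Γ}

theorem exists_trv (hB : Alt F B) (w : V) : ∃ g ∈ T.L, ∀ v, T.ρ g v = v + B v w • w := by
  let x : V ≃ₗ[F] V := LinearEquiv.ofLinearMap (LinearMap.id + (B.flip w).smulRight w)
    (LinearMap.id - (B.flip w).smulRight w) (by
      ext v
      simp [hB.alt, sub_eq_add_neg]) (by
      ext v
      simp [hB.alt, sub_eq_add_neg])
  have hx : ∀ v, x v = v + B v w • w := fun v => rfl
  obtain ⟨g, hg, hgx⟩ := T.exists_L x (by
    intro v v'
    rw [hx, hx]
    simp only [map_add, map_smul, LinearMap.add_apply, LinearMap.smul_apply, smul_eq_mul]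
    linear_combination (B v w) * (hB.skew w v') + (B v w) * (B v' w) * (hB.alt w))
  exact ⟨g, hg, fun v => by rw [hgx, hx]⟩

theorem stab_ne_top (hB : Alt F B) {W : Submodule F V} (hW : W ≠ ⊥) (hnd : NdOn B W) (hW1 : W ≠ ⊤) :
    T.stab W ≠ ⊤ := by
  intro htop
  obtain ⟨a, ha, ha0⟩ := W.ne_bot_iff.1 hW
  have hperp : perp B W ≠ ⊥ := by
    intro h
    have := (hB.compl hnd).sup_eq_top
    rw [h, sup_bot_eq] at this
    exact hW1 this
  obtain ⟨b, hb, hb0⟩ := (Submodule.ne_bot_iff _).1 hperp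
  -- the transvection with centre `a + b`
  obtain ⟨c, hcW, hc⟩ : ∃ c ∈ W, B c a ≠ 0 := by
    by_contra hcon
    push Not at hcon
    exact ha0 (hnd a ha fun y hy => by rw [hB.skew, hcon y hy, neg_zero])
  obtain ⟨g, -, hgx⟩ := exists_trv T hB (a + b)
  have hg : g ∈ T.stab W := by rw [htop]; trivial
  have h1 := (hg c).2 hcW
  rw [hgx, map_add, hb c hcW, add_zero] at h1
  have h2 : B c a • (a + b) ∈ W := by
    have := W.sub_mem h1 hcW
    rwa [add_sub_cancel_left] at this
  have h3 : a + b ∈ W := by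
    have := W.smul_mem (B c a)⁻¹ h2
    rwa [smul_smul, inv_mul_cancel₀ hc, one_smul] at this
  have h4 : b ∈ W := by
    have := W.sub_mem h3 ha
    rwa [add_sub_cancel_left] at this
  exact hb0 (Submodule.disjoint_def.1 (hB.compl hnd).disjoint b h4 hb)

theorem sm_res (sm : Sm2 Γ) (W : Submodule F V) : Sm2 (T.Q W) := by
  intro Y _ _ hY
  refine sm Y (lt_of_lt_of_le hY ?_)
  have h1 : Nat.card (T.Q W) ≤ Nat.card (T.stab W) := Nat.card_le_card_of_surjective _ (QuotientGroup.mk'_surjective _)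
  exact h1.trans (Subgroup.card_le_card_group _)

/-- the image of `K` is a Carter subgroup -/
theorem carter_res (sm : Sm2 Γ) (hB : Alt F B) {W : Submodule F V} (hW : W ≠ ⊥) (hnd : NdOn B W) (hW1 : W ≠ ⊤)
    (hK : IsCarter K) (hKW : K ≤ T.stab W) : IsCarter ((K.subgroupOf (T.stab W)).map (T.pr W)) :=
  IsCarter.map (QuotientGroup.mk'_surjective _) (fun H hH => sm.cc_sub_sub (stab_ne_top T hB hW hnd hW1) hH)
    (hK.subgroupOf hKW)

theorem sup_res (hKL : K ⊔ T.L = ⊤) (hKW : K ≤ T.stab W) :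
    (K.subgroupOf (T.stab W)).map (T.pr W) ⊔ (T.resMd hB W hW hnd).L = ⊤ := by
  rw [eq_top_iff]
  intro y _
  obtain ⟨h, rfl⟩ := QuotientGroup.mk'_surjective _ y
  have h1 : (h : Γ) ∈ T.L ⊔ K := by rw [sup_comm, hKL]; trivial
  have hn : K ≤ normalizer (T.L : Set Γ) := fun k _ => by rw [normalizer_eq_top]; trivial
  obtain ⟨l, hl, k, hk, e⟩ := mul_mem_of_norm hn h1
  have hls : l ∈ T.stab W := by
    have := mul_mem h.2 (inv_mem (hKW hk))
    rwa [e, mul_inv_cancel_right] at this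
  have e1 : h = ⟨l, hls⟩ * ⟨k, hKW hk⟩ := Subtype.ext e
  rw [e1, map_mul]
  refine mul_mem (mem_sup_right ((T.pr_mem_L hB hW hnd _).2 hl)) (mem_sup_left ⟨⟨k, hKW hk⟩, hk, rfl⟩)

end

end Cfsg.Agent.H18.Carter
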