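import Cfsg.Agent.H381.Car.RowTwD4
import Cfsg.Agent.Cit.HexInv
import Cfsg.Agent.Cit.HexD4
import Cfsg.Agent.H18.Carter.Frame

/-!
# S3852: the row `³D₄(q)`, `q` odd, in the form `NrAll`

`real_of_comm` : in a group of type `G₂`, `³D₄` of odd characteristic `r` the elements of order `r` commuting with an
involution are real.
-/

set_option autoImplicit false
set_option linter.unusedSectionVars false
set_option linter.unusedVariables false
set_option linter.unusedSimpArgs false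
set_option linter.style.haveILetI false

namespace Cfsg.Agent.H18.Carter.TwD4

open Cfsg.Agent.Cit.HexBase Cfsg.Agent.Lib.SL2Mat

universe u

/-- elements of order `r` of `SL₂` in characteristic `r` -/
theorem exists_conj_up {K : Type*} [Field K] {r : ℕ} [hr : Fact r.Prime] [CharP K r] {x : SL2 K} (hx : x ^ r = 1) :
    ∃ (g : SL2 K) (a : K), x = g * up a * g⁻¹ := by
  have hdet : (x.1 - 1).det = 0 := by
    have h1 : (x.1 - 1) ^ r = 0 := by
      rw [sub_pow_char_of_commute _ (Commute.one_right x.1), one_pow]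
      have h2 := congrArg Subtype.val hx
      have h3 : x.1 ^ r = 1 := h2
      rw [h3, sub_self]
    have h2 := congrArg Matrix.det h1
    rw [Matrix.det_pow, Matrix.det_zero] at h2
    exact (pow_eq_zero_iff hr.out.ne_zero).1 h2
  have hd := det_eq x
  have htr : ent x 0 0 + ent x 1 1 = 2 := by
    rw [Matrix.det_fin_two] at hdet
    simp only [Matrix.sub_apply, Matrix.one_apply_eq, ne_eq, zero_ne_one, not_false_eq_true, Matrix.one_apply_ne,
      one_ne_zero, sub_zero] at hdet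
    have e1 : (ent x 0 0 - 1) * (ent x 1 1 - 1) - ent x 0 1 * ent x 1 0 = 0 := hdet
    linear_combination hd - e1
  by_cases hc : ent x 1 0 = 0
  · have ha : ent x 0 0 = 1 := by
      have e1 : (ent x 0 0 - 1) * (ent x 0 0 - 1) = 0 := by
        rw [hc] at hd
        linear_combination ent x 0 0 * htr - hd
      have := mul_self_eq_zero.1 e1
      linear_combination this
    have hd1 : ent x 1 1 = 1 := by linear_combination htr - ha
    refine ⟨1, ent x 0 1, ?_⟩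
    rw [one_mul, inv_one, mul_one]
    exact ext_ent ha rfl hc hd1
  · refine ⟨mk (ent x 0 0 - 1) (-(ent x 1 0)⁻¹) (ent x 1 0) 0 (by field_simp; ring), -(ent x 1 0)⁻¹, ?_⟩
    rw [eq_mul_inv_iff_mul_eq]
    have hd' : ent x 1 1 = 2 - ent x 0 0 := by linear_combination htr
    refine ext_ent ?_ ?_ ?_ ?_
    · simp only [ent_mul, mk_00, mk_01, mk_10, mk_11, up_00, up_01, up_10, up_11]
      rw [hd'] at hd
      linear_combination -hd
    · simp only [ent_mul, mk_00, mk_01, mk_10, mk_11, up_00, up_01, up_10, up_11]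
      field_simp
      ring
    · simp only [ent_mul, mk_00, mk_01, mk_10, mk_11, up_00, up_01, up_10, up_11]
      rw [hd']
      ring
    · simp only [ent_mul, mk_00, mk_01, mk_10, mk_11, up_00, up_01, up_10, up_11]
      field_simp
      ring

end Cfsg.Agent.H18.Carter.TwD4

namespace Cfsg.Agent.Cit.HexBase.HexGrp

open Cfsg.Agent.Cit.HexBase Cfsg.Agent.Lib.SL2Mat Cfsg.Agent.H18.Carter.TwD4

universe u

variable {E : Type*} [Field E] {σ : E ≃+* E} {L : Type u} [Group L] (c : HexGrp σ L)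

/-- `K₁ K₄` -/
def K14 : Subgroup L where
  carrier := {g | ∃ x y, g = c.pb x * c.p4 y}
  mul_mem' := by
    rintro _ _ ⟨x, y, rfl⟩ ⟨x', y', rfl⟩
    refine ⟨x * x', y * y', ?_⟩
    have h := c.comm_pb_p4 x' y
    rw [map_mul, map_mul]
    calc c.pb x * c.p4 y * (c.pb x' * c.p4 y') = c.pb x * (c.p4 y * c.pb x') * c.p4 y' := by group
      _ = _ := by rw [← h]; group
  one_mem' := ⟨1, 1, by rw [map_one, map_one, one_mul]⟩
  inv_mem' := by
    rintro _ ⟨x, y, rfl⟩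
    refine ⟨x⁻¹, y⁻¹, ?_⟩
    have h := c.comm_pb_p4 x⁻¹ y⁻¹
    rw [h, map_inv, map_inv]
    group

theorem mem_K14 {g : L} : g ∈ c.K14 ↔ ∃ x y, g = c.pb x * c.p4 y := Iff.rfl

theorem sq_mem_K14 [Finite E] (h2 : (2 : E) ≠ 0) {g : L} (hg : g * c.z = c.z * g) : g * g ∈ c.K14 := by
  obtain ⟨x, y, t, ht, rfl⟩ := c.mem_CZ_form h2 hg
  have hA := c.act_a t ht
  have ht' : (t : E) ≠ 0 := fun h => ht (Subtype.ext h)
  obtain ⟨τ, hτ⟩ : ∃ τ, τ = c.pa (dg t ht) := ⟨_, rfl⟩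
  have e1 : τ * c.pb x * τ⁻¹ ∈ c.K14 := by rw [hτ, hA.pb]; exact ⟨_, 1, by rw [map_one c.p4, mul_one]⟩
  have e4 : τ * c.p4 y * τ⁻¹ ∈ c.K14 := by rw [hτ, c.pa_dg_p4 h2]; exact ⟨1, _, by rw [map_one c.pb, one_mul]⟩
  have e0 : τ * τ ∈ c.K14 := by
    have h1 : τ * τ = (c.pb (dg (t : E) ht'))⁻¹ * c.p4 (dg t ht) := by
      rw [hτ, ← map_mul, ← c.pa_dg_sq t ht]
      congr 1
      refine ext_ent ?_ ?_ ?_ ?_ <;> simp [ent_mul] <;> ring
    rw [h1, ← map_inv]
    exact ⟨_, _, rfl⟩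
  rw [← hτ]
  have e : c.pb x * c.p4 y * τ * (c.pb x * c.p4 y * τ) =
      (c.pb x * c.p4 y) * ((τ * c.pb x * τ⁻¹) * (τ * c.p4 y * τ⁻¹)) * (τ * τ) := by group
  rw [e]
  exact mul_mem (mul_mem ⟨x, y, rfl⟩ (mul_mem e1 e4)) e0

/-- **elements of order `r` commuting with `z` are real** -/
theorem real_of_comm_z (c : HexGrp σ L) [Finite E] (h2 : (2 : E) ≠ 0) {r : ℕ} [hr : Fact r.Prime] [CharP E r] (hr2 : r ≠ 2) {g : L}
    (hg : g * c.z = c.z * g) (hgr : g ^ r = 1) : ∃ k : L, k * g * k⁻¹ = g⁻¹ := by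
  have hchF : CharP ↥(fx σ) r := RingHom.charP (fx σ).subtype (fx σ).subtype_injective r
  obtain ⟨m, hm⟩ := (hr.out.odd_of_ne_two hr2)
  have hgK : g ∈ c.K14 := by
    have e : g = (g * g) ^ (m + 1) := by
      rw [← pow_two, ← pow_mul]
      have e1 : 2 * (m + 1) = r + 1 := by omega
      rw [e1, pow_succ, hgr, one_mul]
    rw [e]
    exact pow_mem (c.sq_mem_K14 h2 hg) _
  obtain ⟨x, y, rfl⟩ := hgK
  -- adjust the signs
  obtain ⟨x, y, hxy, hx, hy⟩ : ∃ (x' : SL2 E) (y' : SL2 ↥(fx σ)), c.pb x * c.p4 y = c.pb x' * c.p4 y' ∧ x' ^ r = 1 ∧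
      y' ^ r = 1 := by
    have hcom : Commute (c.pb x) (c.p4 y) := c.comm_pb_p4 x y
    rw [hcom.mul_pow, ← map_pow, ← map_pow] at hgr
    have h1 : c.pb (x ^ r) = c.p4 (y ^ r)⁻¹ := by
      rw [map_inv]
      exact eq_inv_of_mul_eq_one_left hgr
    have h3 := c.eq_of_pb_eq_p4 h1
    have h4 : c.p4 (y ^ r) = 1 ∨ c.p4 (y ^ r) = c.z := by
      rcases h3 with h | h
      · left
        rw [h, one_mul] at hgr
        exact hgr
      · right
        rw [h] at hgr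
        rw [← c.z_inv]
        exact eq_inv_of_mul_eq_one_right hgr
    have hme : ∀ {K : Type _} [Field K] (w : SL2 K), w ^ r = dg (-1) (neg_ne_zero.2 one_ne_zero) →
        (w * dg (-1) (neg_ne_zero.2 one_ne_zero)) ^ r = 1 := by
      intro K _ w hw
      have hc : Commute w (dg (-1 : K) (neg_ne_zero.2 one_ne_zero)) := by
        refine ext_ent ?_ ?_ ?_ ?_ <;> simp [ent_mul]
      have hsq : (dg (-1 : K) (neg_ne_zero.2 one_ne_zero)) * dg (-1 : K) (neg_ne_zero.2 one_ne_zero) = 1 := by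
        refine ext_ent ?_ ?_ ?_ ?_ <;> simp [ent_mul]
      rw [hc.mul_pow, hw, ← pow_succ', hm]
      have e1 : 2 * m + 1 + 1 = 2 * (m + 1) := by ring
      rw [e1, pow_mul, pow_two, hsq, one_pow]
    rcases h3 with h | h
    · have hx := c.pb_inj h2 (h.trans (map_one c.pb).symm)
      rw [h, one_mul] at hgr
      exact ⟨x, y, rfl, hx, c.p4_inj (hgr.trans (map_one c.p4).symm)⟩
    · have hx : x ^ r = dg (-1) (neg_ne_zero.2 one_ne_zero) := c.pb_inj h2 h
      have h5 : c.p4 (y ^ r) = c.z := by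
        rw [h] at hgr
        rw [← c.z_inv]
        exact eq_inv_of_mul_eq_one_right hgr
      have hy : y ^ r = dg (-1) (neg_ne_zero.2 one_ne_zero) := c.p4_inj (h5.trans c.z_eq_p4)
      refine ⟨x * dg (-1) (neg_ne_zero.2 one_ne_zero), y * dg (-1) (neg_ne_zero.2 one_ne_zero), ?_, hme x hx, hme y hy⟩
      rw [map_mul, map_mul, ← c.z_eq_p4]
      have h6 := c.z_p4 y
      have h7 : c.pb (dg (-1) (neg_ne_zero.2 one_ne_zero)) = c.z := rfl
      rw [h7]
      calc c.pb x * c.p4 y = c.pb x * (c.p4 y * (c.z * c.z)) := by rw [c.z_sq, mul_one]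
        _ = c.pb x * (c.p4 y * c.z) * c.z := by group
        _ = c.pb x * (c.z * c.p4 y) * c.z := by rw [h6]
        _ = _ := by group
  rw [hxy]
  obtain ⟨g1, a, rfl⟩ := exists_conj_up hx
  obtain ⟨g2, b, rfl⟩ := exists_conj_up hy
  -- conjugate into the root groups
  obtain ⟨P, hP⟩ : ∃ P, P = c.pb g1 * c.p4 g2 := ⟨_, rfl⟩
  have e1 : c.pb (g1 * up a * g1⁻¹) * c.p4 (g2 * up b * g2⁻¹) = P * (c.pb (up a) * c.p4 (up b)) * P⁻¹ := by
    have k1 := c.comm_pb_p4 (up a * g1⁻¹) g2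
    have k2 := c.comm_pb_p4 g1⁻¹ (up b)
    have k3 := c.comm_pb_p4 g1⁻¹ g2⁻¹
    have k4 := c.comm_pb_p4 (up a) g2
    simp only [map_mul, map_inv] at k1 k2 k3 k4 ⊢
    rw [hP]
    calc c.pb g1 * c.pb (up a) * (c.pb g1)⁻¹ * (c.p4 g2 * c.p4 (up b) * (c.p4 g2)⁻¹)
        = c.pb g1 * (c.pb (up a) * (c.pb g1)⁻¹ * c.p4 g2) * c.p4 (up b) * (c.p4 g2)⁻¹ := by group
      _ = c.pb g1 * c.p4 g2 * c.pb (up a) * ((c.pb g1)⁻¹ * c.p4 (up b)) * (c.p4 g2)⁻¹ := by rw [k1]; group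
      _ = c.pb g1 * c.p4 g2 * c.pb (up a) * c.p4 (up b) * ((c.pb g1)⁻¹ * (c.p4 g2)⁻¹) := by rw [k2]; group
      _ = c.pb g1 * c.p4 g2 * (c.pb (up a) * c.p4 (up b)) * (c.pb g1 * c.p4 g2)⁻¹ := by rw [k3]; group
  rw [e1]
  have hne : (-1 : ↥(fx σ)) ≠ 0 := neg_ne_zero.2 one_ne_zero
  obtain ⟨h0, hh0⟩ : ∃ h0, h0 = c.pa (dg (-1) hne) := ⟨_, rfl⟩
  have hA := c.act_a (-1) hne
  have f1 : h0 * c.pb (up a) * h0⁻¹ = c.pb (up (-a)) := by
    rw [hh0, hA.pb, conjGL_dgl_up]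
    congr 2
    simp
  have f4 : h0 * c.p4 (up b) * h0⁻¹ = c.p4 (up (-b)) := by
    rw [hh0, c.pa_dg_p4 h2, conjGL_dgl_up]
    congr 2
    simp
  refine ⟨P * h0 * P⁻¹, ?_⟩
  have k5 := c.comm_pb_p4 (up a) (up b)
  calc P * h0 * P⁻¹ * (P * (c.pb (up a) * c.p4 (up b)) * P⁻¹) * (P * h0 * P⁻¹)⁻¹
      = P * ((h0 * c.pb (up a) * h0⁻¹) * (h0 * c.p4 (up b) * h0⁻¹)) * P⁻¹ := by group
    _ = P * (c.pb (up a) * c.p4 (up b))⁻¹ * P⁻¹ := by
      rw [f1, f4, ← up_inv, ← up_inv, map_inv, map_inv, k5, mul_inv_rev]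
    _ = _ := by group

/-- **elements of order `r` commuting with an involution are real** -/
theorem real_of_comm (c : HexGrp σ L) [Finite E] [Finite L] (h2 : (2 : E) ≠ 0) {r : ℕ} [hr : Fact r.Prime] [CharP E r] (hr2 : r ≠ 2)
    {g t : L} (ht : t * t = 1) (ht1 : t ≠ 1) (hg : g * t = t * g) (hgr : g ^ r = 1) : ∃ k : L, k * g * k⁻¹ = g⁻¹ := by
  obtain ⟨w, hw⟩ := isConj_iff.1 (c.isConj_z h2 ht ht1)
  obtain ⟨k, hk⟩ := c.real_of_comm_z h2 hr2 (g := w * g * w⁻¹) (by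
    rw [← hw]
    calc w * g * w⁻¹ * (w * t * w⁻¹) = w * (g * t) * w⁻¹ := by group
      _ = w * (t * g) * w⁻¹ := by rw [hg]
      _ = _ := by group) (by rw [conj_pow, hgr, mul_one, mul_inv_cancel])
  refine ⟨w⁻¹ * k * w, ?_⟩
  calc w⁻¹ * k * w * g * (w⁻¹ * k * w)⁻¹ = w⁻¹ * (k * (w * g * w⁻¹) * k⁻¹) * w := by group
    _ = w⁻¹ * (w * g * w⁻¹)⁻¹ * w := by rw [hk]
    _ = _ := by group

end Cfsg.Agent.Cit.HexBase.HexGrp

namespace Cfsg.Agent.H18.Carter

open Subgroup Cfsg Cfsg.Lie Cfsg.Agent.Solvable.Carter Cfsg.Agent.H381.Car Cfsg.Agent.BpExc Cfsg.Agent.H696.GmnUntw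

universe u

variable {G : Type u} [Group G] [Finite G] {S : Subgroup G} [S.Normal]

/-- **`³D₄(q)`, `q` odd.** -/
theorem nr_3d4_odd (hF : Fpf.{u}) (c : Ctx G S) {K : Type} [Field K] [Fintype K] {q : ℕ} (hq : IsPrimePow q)
    (hodd : Odd q) (hK : Fintype.card K = q ^ 3) (e : S ≃* ↥(twistedD4 K q)) : NrAll S := by
  obtain ⟨r, n, hr, hn0, hn⟩ := (isPrimePow_nat_iff _).1 hq
  have hrr : Fact r.Prime := ⟨hr⟩
  have hch : CharP K r := by
    obtain ⟨p, hp⟩ := CharP.exists K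
    obtain ⟨m, h1, h2⟩ := FiniteField.card K p
    have h3 : p ∣ r ^ (n * 3) := by
      rw [pow_mul, hn, ← hK, h2]
      exact dvd_pow_self p m.ne_zero
    have h4 := (Nat.prime_dvd_prime_iff_eq h1 hr).1 (h1.dvd_of_dvd_pow h3)
    rwa [h4] at hp
  have hr2 : r ≠ 2 := by
    rintro rfl
    rw [← hn] at hodd
    exact (Nat.not_even_iff_odd.2 hodd) (Nat.even_pow.2 ⟨even_two, hn0.ne'⟩)
  have hZ : center ↥(twistedD4 K q) = ⊥ := center_eq_bot_of_simple (S1071.result hq hK)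
  haveI h2f : Fact (Nat.Prime 2) := ⟨Nat.prime_two⟩
  have h2 : (2 : K) ≠ 0 := by
    intro h
    have h1 := (CharP.cast_eq_zero_iff K r 2).1 (by exact_mod_cast h)
    exact hr2 ((Nat.prime_dvd_prime_iff_eq hr Nat.prime_two).1 h1)
  refine nrAll_of_two hF c fun C hC => ?_
  have hd : ∀ l : ℕ, l.Prime → l ∣ Nat.card ↥(C ⊓ S) → l = 2 ∨ l = r := by
    intro l hl hld
    by_contra hne
    push Not at hne
    have : Fact l.Prime := ⟨hl⟩
    exact not_dvd_of_isConj_inv c e hne.1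
      (fun z hz => Cfsg.Agent.H696.GmnTwD4.isConj_inv_d4 hne.2 hn0 hn.symm hK hz) hC hld
  have heven := even_of_sylInv hF c e hr2 (sylInv_twD4 hq hK hr2 hZ) hC hd
  rw [IsPGroup.iff_card]
  refine ⟨_, Nat.eq_prime_pow_of_unique_prime_dvd Nat.card_pos.ne' ?_⟩
  intro l hl hld
  rcases hd l hl hld with h | h
  · exact h
  exfalso
  subst h
  obtain ⟨z, hzS, hzC, hzo, hzc⟩ := exists_central (S := S) hC.1 hld
  obtain ⟨t, htS, htC, hto, htc⟩ := exists_central (S := S) hC.1 heven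
  have hzt : t * z = z * t := mem_centralizer_singleton_iff.1 (hzc htC)
  obtain ⟨σ, -, ⟨x⟩⟩ := Cfsg.Agent.Cit.HexD4.exists_d4 hK
  have hfin : Finite ↥(twistedD4 K q) := Finite.of_equiv S e.toEquiv
  set z' : S := ⟨z, hzS⟩ with hz'
  set t' : S := ⟨t, htS⟩ with ht'
  obtain ⟨k, hk⟩ := x.real_of_comm (g := e z') (t := e t') h2 hr2 (by
      rw [← map_mul, ← map_one e]
      congr 1
      apply Subtype.ext
      show t * t = 1
      rw [← pow_two, ← hto, pow_orderOf_eq_one]) (by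
      intro h
      have h1 : t' = 1 := e.injective (h.trans (map_one e).symm)
      have h3 : t = 1 := congrArg Subtype.val h1
      rw [h3, orderOf_one] at hto
      omega) (by
      rw [← map_mul, ← map_mul]
      congr 1
      exact Subtype.ext hzt.symm) (by
      rw [← map_pow, ← map_one e]
      congr 1
      apply Subtype.ext
      show z ^ l = 1
      rw [← hzo, pow_orderOf_eq_one])
  have h1 : e.symm k * z' * (e.symm k)⁻¹ = z'⁻¹ := by
    apply e.injective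
    rw [map_mul, map_mul, map_inv, map_inv, e.apply_symm_apply, hk]
  have h3 : (e.symm k : G) * z * (e.symm k : G)⁻¹ = z⁻¹ := congrArg Subtype.val h1
  have h4 := c.eq_of_conj hC hzc (g := (e.symm k : G)) (by
    rw [h3]
    intro y hy
    have := mem_centralizer_singleton_iff.1 (hzc hy)
    rw [mem_centralizer_singleton_iff]
    exact (Commute.inv_right this : Commute y z⁻¹))
  rw [h3] at h4
  exact ne_inv_of_odd (hzo ▸ hl) (hzo ▸ hr2) h4

end Cfsg.Agent.H18.Carter
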