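import Cfsg.Agent.H904.FR.Lift

/-!
# Conjugacy of unipotent isometries: one block (S3852)

`N` skew nilpotent for the `ε`-symmetric nondegenerate form `B`, `N ^ (k+1) = 0`.

* `exists_std'` : `M` complement of `ker N ^ k` with `B x (N ^ j y) = 0` on `M` for `j ≠ k`;
* `blk` : if `V = ⊕ N ^ i M` (i.e. `dim V = (k+1) rank (N ^ k)`), `N'` skew with `N' ^ k = n ^ k N ^ k`, and the form
  `B x (N ^ k y)` on `M` has a similitude with multiplier `μ n ^ (-k)`, then there is a similitude `h` of `V` with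
  multiplier `μ` and `h N = N' h`.
-/

set_option autoImplicit false
set_option linter.unusedSectionVars false
set_option linter.unusedVariables false

universe u

namespace Cfsg.Agent.H18.Carter.Uni

open Cfsg.Agent.H904.FR Cfsg.Agent.H721.FR Cfsg.Agent.H721.SR Module

variable {F V : Type u} [Field F] [AddCommGroup V] [Module F V]

variable {B : V →ₗ[F] V →ₗ[F] F} {N N' : V →ₗ[F] V} {k : ℕ} {ε : F}

theorem exists_std' [FiniteDimensional F V] (h2 : (2 : F) ≠ 0) (hε : ε * ε = 1)
    (hB : ∀ x y, B x y = ε * B y x)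
    (hnd : ∀ x, (∀ y, B x y = 0) → x = 0) (hs : ∀ x y, B (N x) y = - B x (N y)) (hN : N ^ (k + 1) = 0) :
    ∃ M : Submodule F V, IsCompl (LinearMap.ker (N ^ k)) M ∧ Std B N k M := by
  obtain ⟨M₀, hM₀⟩ : ∃ M : Submodule F V, Good B N ⊥ k k M := by
    obtain ⟨M, hc⟩ := Submodule.exists_isCompl (LinearMap.ker (N ^ k))
    exact ⟨M, fun g hg x hx => by rw [Subgroup.mem_bot.1 hg]; exact hx, hc, fun x _ y _ j h3 h4 => absurd h4 (not_lt.2 h3)⟩
  have hall : ∀ d, d ≤ k → ∃ M : Submodule F V, Good B N ⊥ k (k - d) M := by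
    intro d
    induction d with
    | zero => exact fun _ => ⟨M₀, hM₀⟩
    | succ d ih =>
      intro hd
      obtain ⟨M, hM⟩ := ih (by omega)
      have h3 : k - d = (k - (d + 1)) + 1 := by omega
      rw [h3] at hM
      refine hM.step h2 hε hB hnd hs hN bot_le (fun g hg => ⟨1, one_mul 1, ?_⟩) (by omega)
      rw [Subgroup.mem_bot.1 hg]
      intro x
      rw [one_smul]
      rfl
  obtain ⟨M, hM⟩ := hall k le_rfl
  rw [Nat.sub_self] at hM
  refine ⟨M, hM.compl, hs, hN, fun x hx y hy j hj => ?_, fun x hx h => nd_of_compl hnd hs hM.compl hx h⟩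
  rcases lt_or_gt_of_ne hj with h3 | h3
  · exact hM.orth x hx y hy j (Nat.zero_le _) h3
  · rw [pow_zero_of_lt hN h3, map_zero]

/-- two complements of the same subspace -/
theorem exists_proj {K M M' : Submodule F V} (h : IsCompl K M) (h' : IsCompl K M') :
    ∃ p : M ≃ₗ[F] M', ∀ x : M, (p x : V) - x ∈ K := by
  refine ⟨(Submodule.quotientEquivOfIsCompl K M h).symm ≪≫ₗ Submodule.quotientEquivOfIsCompl K M' h', fun x => ?_⟩
  have h1 := Submodule.mk_quotientEquivOfIsCompl_apply h' ((Submodule.quotientEquivOfIsCompl K M h).symm x)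
  rw [Submodule.quotientEquivOfIsCompl_symm_apply] at h1
  rw [← Submodule.Quotient.eq]
  exact h1

/-- the dimension of `M` -/
theorem finrank_M [FiniteDimensional F V] {M : Submodule F V} (hc : IsCompl (LinearMap.ker (N ^ k)) M) :
    finrank F M = finrank F (LinearMap.range (N ^ k)) := by
  have h1 := Submodule.finrank_add_eq_of_isCompl hc
  have h2 := LinearMap.finrank_range_add_finrank_ker (N ^ k)
  omega

theorem Phi_surj [FiniteDimensional F V] {M : Submodule F V} (hc : IsCompl (LinearMap.ker (N ^ k)) M)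
    (hS : Std B N k M) (hd : finrank F V = (k + 1) * finrank F (LinearMap.range (N ^ k))) :
    Function.Bijective (Phi N k M) := by
  refine ⟨hS.injective, ?_⟩
  refine (LinearMap.injective_iff_surjective_of_finrank_eq_finrank ?_).1 hS.injective
  rw [Module.finrank_pi_fintype, Finset.sum_const, Finset.card_univ, Fintype.card_fin, smul_eq_mul, hd, finrank_M hc]

/-- **one block** -/
theorem blk [FiniteDimensional F V] (h2 : (2 : F) ≠ 0) (hε : ε * ε = 1)
    (hB : ∀ x y, B x y = ε * B y x)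
    (hnd : ∀ x, (∀ y, B x y = 0) → x = 0) (hs : ∀ x y, B (N x) y = - B x (N y))
    (hs' : ∀ x y, B (N' x) y = - B x (N' y)) (hN : N ^ (k + 1) = 0) (hN' : N' ^ (k + 1) = 0) {n μ : F} (hn : n ≠ 0)
    (hNN : ∀ x, (N' ^ k) x = n ^ k • (N ^ k) x)
    (hd : finrank F V = (k + 1) * finrank F (LinearMap.range (N ^ k)))
    (hA : ∀ M : Submodule F V, Std B N k M → IsCompl (LinearMap.ker (N ^ k)) M →
      ∃ A : M ≃ₗ[F] M, ∀ x y, bet B N k M (A x) (A y) = μ * (n⁻¹) ^ k * bet B N k M x y) :
    ∃ h : V ≃ₗ[F] V, (∀ x y, B (h x) (h y) = μ * B x y) ∧ ∀ x, h (N x) = N' (h x) := by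
  obtain ⟨M, hc, hS⟩ := exists_std' h2 hε hB hnd hs hN
  obtain ⟨M', hc', hS'⟩ := exists_std' h2 hε hB hnd hs' hN'
  have hker : LinearMap.ker (N' ^ k) = LinearMap.ker (N ^ k) := by
    ext x
    rw [LinearMap.mem_ker, LinearMap.mem_ker, hNN]
    exact smul_eq_zero_iff_right (pow_ne_zero _ hn)
  have hd' : finrank F V = (k + 1) * finrank F (LinearMap.range (N' ^ k)) := by
    rw [hd]
    have e1 := LinearMap.finrank_range_add_finrank_ker (N ^ k)
    have e2 := LinearMap.finrank_range_add_finrank_ker (N' ^ k)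
    rw [hker] at e2
    congr 1
    omega
  obtain ⟨A, hA⟩ := hA M hS hc
  rw [hker] at hc'
  obtain ⟨p, hp⟩ := exists_proj hc hc'
  set C : M ≃ₗ[F] M' := A ≪≫ₗ p with hC
  have hCk : ∀ x : M, (N ^ k) (C x : V) = (N ^ k) (A x : V) := by
    intro x
    have := hp (A x)
    rw [LinearMap.mem_ker, map_sub, sub_eq_zero] at this
    exact this
  have hform : ∀ x y : M, B (C x : V) ((N' ^ k) (C y : V)) = μ * B x ((N ^ k) (y : V)) := by
    intro x y
    have h5 := hA x y
    rw [bet_apply, bet_apply] at h5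
    rw [hNN, hCk, map_smul, smul_eq_mul]
    have h6 : B (C x : V) ((N ^ k) (A y : V)) = B (A x : V) ((N ^ k) (A y : V)) := by
      have h7 := skew_pow hs k (C x : V) (A y : V)
      have h8 := skew_pow hs k (A x : V) (A y : V)
      rw [hCk] at h7
      have h9 := h7.symm.trans h8
      exact mul_left_cancel₀ (pow_ne_zero k (neg_ne_zero.2 one_ne_zero)) h9
    rw [h6, h5]
    have h10 : n ^ k * n⁻¹ ^ k = 1 := by rw [← mul_pow, mul_inv_cancel₀ hn, one_pow]
    linear_combination (μ * B x ((N ^ k) (y : V))) * h10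
  let e := LinearEquiv.ofBijective (Phi N k M) (Phi_surj hc hS hd)
  let e' := LinearEquiv.ofBijective (Phi N' k M') (Phi_surj (by rw [hker]; exact hc') hS' hd')
  let h : V ≃ₗ[F] V := e.symm ≪≫ₗ (LinearEquiv.piCongrRight fun _ => C) ≪≫ₗ e'
  have he : ∀ f, h (Phi N k M f) = Phi N' k M' (fun i => C (f i)) := by
    intro f
    have h1 : Phi N k M f = e f := rfl
    rw [h1]
    show e' ((LinearEquiv.piCongrRight fun _ => C) (e.symm (e f))) = _
    rw [e.symm_apply_apply]
    rfl
  have hpow : ∀ (j : ℕ) (x : M), h ((N ^ j) (x : V)) = (N' ^ j) (C x : V) := by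
    intro j x
    rcases Nat.lt_or_ge k j with hj | hj
    · rw [pow_zero_of_lt hN hj, pow_zero_of_lt hN' hj, map_zero]
    · have h1 := Phi_single N k M ⟨j, by omega⟩ x
      have h3 := Phi_single N' k M' ⟨j, by omega⟩ (C x)
      change Phi N k M _ = (N ^ j) (x : V) at h1
      change Phi N' k M' _ = (N' ^ j) (C x : V) at h3
      rw [← h1, ← h3, he]
      congr 1
      funext i
      by_cases hi : i = ⟨j, by omega⟩
      · subst hi
        rw [Pi.single_eq_same, Pi.single_eq_same]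
      · rw [Pi.single_eq_of_ne hi, Pi.single_eq_of_ne hi, map_zero]
  have hsur : ∀ v, ∃ f, v = Phi N k M f := fun v => ⟨e.symm v, (e.apply_symm_apply v).symm⟩
  refine ⟨h, ?_, ?_⟩
  · intro x y
    obtain ⟨f, rfl⟩ := hsur x
    obtain ⟨g, rfl⟩ := hsur y
    rw [he, he]
    simp only [Phi_apply, map_sum, LinearMap.sum_apply, Finset.mul_sum]
    refine Finset.sum_congr rfl fun i _ => Finset.sum_congr rfl fun j _ => ?_
    by_cases hij : (j : ℕ) + i = k
    · rw [hS'.form' _ _ _ _ hij, hS.form' _ _ _ _ hij, hform]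
      ring
    · rw [hS'.form (C (f j)).2 (C (g i)).2 _ _ hij, hS.form (f j).2 (g i).2 _ _ hij, mul_zero]
  · intro v
    obtain ⟨f, rfl⟩ := hsur v
    rw [he]
    simp only [Phi_apply, map_sum]
    refine Finset.sum_congr rfl fun i _ => ?_
    have h1 : N ((N ^ (i : ℕ)) (f i : V)) = (N ^ ((i : ℕ) + 1)) (f i : V) := by rw [pow_succ']; rfl
    have h3 : N' ((N' ^ (i : ℕ)) (C (f i) : V)) = (N' ^ ((i : ℕ) + 1)) (C (f i) : V) := by rw [pow_succ']; rfl
    rw [h1, h3, hpow]

end Cfsg.Agent.H18.Carter.Uni
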