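import Cfsg.Agent.H18.Carter.UniInd
import Cfsg.Agent.H904.FR.Cayley

/-!
# Conjugacy of unipotent isometries: Cayley transforms (S3852)
-/

set_option autoImplicit false
set_option linter.unusedSectionVars false
set_option linter.unusedVariables false

universe u

namespace Cfsg.Agent.H18.Carter.Uni

open Cfsg.Agent.H904.FR Cfsg.Agent.H721.FR Cfsg.Agent.H721.SR Cfsg.Agent.H955.FS Module

variable {F V : Type u} [Field F] [AddCommGroup V] [Module F V]

variable {B : V →ₗ[F] V →ₗ[F] F} {N N' : V →ₗ[F] V} {k : ℕ} {ε : F} {c : V ≃ₗ[F] V}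

theorem cay_mem [FiniteDimensional F V] (h : Cay c N) {U : Submodule F V} (hU : ∀ x ∈ U, N x ∈ U) :
    ∀ x ∈ U, c x ∈ U := by
  intro x hx
  have h1 : c x ∈ U.map (c : V →ₗ[F] V) := ⟨x, hx, rfl⟩
  rwa [h.map_eq hU] at h1

theorem pow_mem' [FiniteDimensional F V] (h : Cay c N) {U : Submodule F V} (hU : ∀ x ∈ U, N x ∈ U) (n : ℕ) :
    ∀ x ∈ U, (c ^ n) x ∈ U := by
  induction n with
  | zero => exact fun x hx => hx
  | succ n ih => exact fun x hx => by rw [pow_succ]; exact ih _ (cay_mem h hU x hx)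

/-- `c ^ n = 1 + 2 n N + N ^ 2 ( )` -/
theorem pow_expand [FiniteDimensional F V] (h : Cay c N) {U : Submodule F V} (hU : ∀ x ∈ U, N x ∈ U) (n : ℕ) :
    ∀ x ∈ U, ∃ y ∈ U, (c ^ n) x = x + (2 * (n : F)) • N x + N (N y) := by
  have h1 : ∀ x, c x = x + (2 : F) • N x + N (N (x + c x)) := by
    intro x
    have e : c x = x + N x + N (c x) := sub_eq_iff_eq_add.1 (h.eq' x)
    calc c x = x + N x + N (c x) := e
      _ = x + N x + N (x + N x + N (c x)) := congrArg (fun z => x + N x + N z) e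
      _ = _ := by
        simp only [map_add, two_smul]
        abel
  induction n with
  | zero => exact fun x hx => ⟨0, U.zero_mem, by simp⟩
  | succ n ih =>
    intro x hx
    obtain ⟨y, hy, e⟩ := ih x hx
    refine ⟨y + (2 * (2 * (n : F))) • x + (2 : F) • N y + ((c ^ n) x + c ((c ^ n) x)), ?_, ?_⟩
    · have h3 := pow_mem' h hU n x hx
      exact U.add_mem (U.add_mem (U.add_mem hy (U.smul_mem _ hx)) (U.smul_mem _ (hU y hy))) (U.add_mem h3 (cay_mem h hU _ h3))
    · have e1 : (c ^ (n + 1)) x = c ((c ^ n) x) := by rw [pow_succ']; rfl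
      rw [e1]
      refine (h1 ((c ^ n) x)).trans ?_
      have e2 : N ((c ^ n) x) = N x + (2 * (n : F)) • N (N x) + N (N (N y)) := by rw [e]; simp only [map_add, map_smul]
      have e3 : ∀ z : V, x + (2 * (n : F)) • N x + N (N y) + (2 : F) • (N x + (2 * (n : F)) • N (N x) + N (N (N y))) + N (N z) =
          x + (2 * ((n + 1 : ℕ) : F)) • N x + N (N (y + (2 * (2 * (n : F))) • x + (2 : F) • N y + z)) := by
        intro z
        simp only [map_add, map_smul, smul_add, smul_smul, Nat.cast_add, Nat.cast_one, mul_add, add_smul, mul_one]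
        abel
      have e4 := e3 ((c ^ n) x + c ((c ^ n) x))
      rw [← e2, ← e] at e4
      exact e4

/-- the Cayley transforms of `c` and `c ^ n` -/
theorem rel_cay [FiniteDimensional F V] (h2 : (2 : F) ≠ 0) (h : Cay c N) {n : ℕ} (h' : Cay (c ^ n) N') :
    Rel (n : F) N N' := by
  have hc : ∀ x, N' (c x) = c (N' x) := fun x => h'.of_comm h2 (by group) x
  refine ⟨fun x => ?_, fun U hU x hx => ?_⟩
  · obtain ⟨u, rfl⟩ := h.exists_eq h2 x
    rw [h.eq, map_add, map_sub, hc, h.eq]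
  · -- `x = c ^ n u + u` with `u ∈ U`
    let f : U →ₗ[F] U := ((c ^ n : V ≃ₗ[F] V) : V →ₗ[F] V).restrict (pow_mem' h hU n) + LinearMap.id
    have hf : Function.Injective f := by
      rw [← LinearMap.ker_eq_bot, LinearMap.ker_eq_bot']
      intro u hu
      have h1 : (c ^ n) (u : V) + u = 0 := congrArg Subtype.val hu
      have h3 := h'.eq (u : V)
      rw [h1, map_zero] at h3
      have h4 : (c ^ n) (u : V) = u := (sub_eq_zero.1 h3.symm)
      rw [h4, ← two_smul F] at h1
      exact Subtype.ext ((smul_eq_zero_iff_right h2).1 h1)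
    obtain ⟨u, hu⟩ := LinearMap.surjective_of_injective hf ⟨x, hx⟩
    have h1 : (c ^ n) (u : V) + u = x := congrArg Subtype.val hu
    obtain ⟨y, hy, e⟩ := pow_expand h hU n u u.2
    have h3 : N' x = (2 * (n : F)) • N (u : V) + N (N y) := by
      rw [← h1, h'.eq, e]
      abel
    have h4 : x = (2 : F) • (u : V) + (2 * (n : F)) • N (u : V) + N (N y) := by
      rw [← h1, e, two_smul]
      abel
    refine ⟨y - (n : F) • ((2 * (n : F)) • (u : V) + N y), ?_, ?_⟩
    · exact U.sub_mem hy (U.smul_mem _ (U.add_mem (U.smul_mem _ u.2) (hU y hy)))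
    · rw [h3, h4]
      simp only [map_add, map_sub, map_smul, smul_add, smul_smul]
      rw [mul_comm (n : F) 2]
      abel

theorem cay_inv (h : Cay c N) : Cay c⁻¹ (-N) := by
  refine ⟨?_, fun x => ?_, fun x => ?_⟩
  · exact h.nil.neg
  · have h1 := h.comm (c⁻¹ x)
    have h3 : c (c⁻¹ x) = x := by rw [← LinearEquiv.mul_apply, mul_inv_cancel]; rfl
    rw [h3] at h1
    have h4 : c⁻¹ (c (N (c⁻¹ x))) = N (c⁻¹ x) := by rw [← LinearEquiv.mul_apply, inv_mul_cancel]; rfl
    rw [LinearMap.neg_apply, LinearMap.neg_apply, map_neg, h1, h4]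
  · have h1 := h.eq (c⁻¹ x)
    have h3 : c (c⁻¹ x) = x := by rw [← LinearEquiv.mul_apply, mul_inv_cancel]; rfl
    rw [h3] at h1
    rw [LinearMap.neg_apply, add_comm, h1, neg_sub]

theorem rel_neg : Rel (-1 : F) N (-N) :=
  ⟨fun x => by simp, fun U hU x hx => ⟨0, U.zero_mem, by simp⟩⟩

/-- from `h N = N' h` to `h c h⁻¹ = c'` -/
theorem conj_of_cay {c' : V ≃ₗ[F] V} (h : Cay c N) (h' : Cay c' N') {g : V ≃ₗ[F] V} (hg : ∀ x, g (N x) = N' (g x)) :
    g * c * g⁻¹ = c' := by
  rw [mul_inv_eq_iff_eq_mul]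
  refine LinearEquiv.ext fun x => h'.inj ?_
  show g (c x) - N' (g (c x)) = c' (g x) - N' (c' (g x))
  rw [← hg, ← map_sub, h.eq', map_add, hg, h'.eq']

/-- the ranks of `N` and `c - 1` agree -/
theorem range_cay (h2 : (2 : F) ≠ 0) (h : Cay c N) :
    LinearMap.range N = LinearMap.range ((c : V →ₗ[F] V) - LinearMap.id) := by
  ext x
  constructor
  · rintro ⟨y, rfl⟩
    obtain ⟨u, rfl⟩ := h.exists_eq h2 y
    exact ⟨u, (h.eq u).symm⟩
  · rintro ⟨u, rfl⟩
    exact ⟨c u + u, h.eq u⟩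

end Cfsg.Agent.H18.Carter.Uni
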