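import Cfsg.Agent.H18.Carter.UniGlue

/-!
# Conjugacy of unipotent isometries: the induction (S3852)
-/

set_option autoImplicit false
set_option linter.unusedSectionVars false
set_option linter.unusedVariables false

universe u

namespace Cfsg.Agent.H18.Carter.Uni

open Cfsg.Agent.H904.FR Cfsg.Agent.H721.FR Cfsg.Agent.H721.SR Module

section

variable {F V : Type u} [Field F] [AddCommGroup V] [Module F V]

variable {B : V →ₗ[F] V →ₗ[F] F} {N N' : V →ₗ[F] V} {k : ℕ} {ε : F} {M : Submodule F V}

theorem finrank_map_pow [FiniteDimensional F V] (hc : IsCompl (LinearMap.ker (N ^ k)) M) :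
    finrank F (M.map (N ^ k)) = finrank F M := by
  have h : Function.Injective ((N ^ k) ∘ₗ M.subtype) := by
    rw [← LinearMap.ker_eq_bot, LinearMap.ker_eq_bot']
    intro x hx
    exact Subtype.ext (Submodule.disjoint_def.1 hc.disjoint x (LinearMap.mem_ker.2 hx) x.2)
  have h1 := LinearMap.finrank_range_of_inj h
  rwa [LinearMap.range_comp, Submodule.range_subtype] at h1

theorem finrank_range_Phi [FiniteDimensional F V] (hS : Std B N k M) :
    finrank F (LinearMap.range (Phi N k M)) = (k + 1) * finrank F M := by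
  rw [LinearMap.finrank_range_of_inj hS.injective, Module.finrank_pi_fintype, Finset.sum_const, Finset.card_univ,
    Fintype.card_fin, smul_eq_mul]

theorem pow_Phi (hN : N ^ (k + 1) = 0) (f : Fin (k + 1) → M) : (N ^ k) (Phi N k M f) = (N ^ k) (f 0 : V) := by
  rw [Phi_apply, map_sum, Finset.sum_eq_single 0]
  · rfl
  · intro i _ hi
    have hi' : 0 < (i : ℕ) := Nat.pos_of_ne_zero fun h => hi (Fin.ext h)
    rw [← Module.End.mul_apply, ← pow_add]
    exact pow_zero_of_lt hN (by omega) _
  · exact fun h => absurd (Finset.mem_univ _) h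

/-- the shift -/
theorem N_Phi (hN : N ^ (k + 1) = 0) (f : Fin (k + 1) → M) :
    N (Phi N k M f) = Phi N k M (Fin.cons 0 fun i : Fin k => f i.castSucc) := by
  have hl := Fin.sum_univ_castSucc (fun i : Fin (k + 1) => N ((N ^ (i : ℕ)) (f i : V)))
  have hr := Fin.sum_univ_succ (fun i : Fin (k + 1) => (N ^ (i : ℕ)) ((Fin.cons 0 (fun i : Fin k => f i.castSucc) : Fin (k + 1) → M) i : V))
  rw [Phi_apply, Phi_apply, map_sum, hl, hr]
  have h1 : N ((N ^ ((Fin.last k : Fin (k + 1)) : ℕ)) (f (Fin.last k) : V)) = 0 := by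
    have : (N ^ (k + 1)) (f (Fin.last k) : V) = 0 := by rw [hN]; rfl
    rw [pow_succ'] at this
    exact this
  rw [h1, add_zero]
  simp only [Fin.cons_zero, Fin.cons_succ, Submodule.coe_zero, map_zero, zero_add]
  refine Finset.sum_congr rfl fun i _ => ?_
  rw [Fin.val_castSucc, Fin.val_succ, pow_succ']
  rfl

theorem ker_on_range (hS : Std B N k M) {x : V} (hx : x ∈ LinearMap.range (Phi N k M)) (h0 : N x = 0) :
    x ∈ M.map (N ^ k) := by
  obtain ⟨f, rfl⟩ := hx
  rw [N_Phi hS.nil] at h0
  have h1 := hS.injective (h0.trans (map_zero _).symm)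
  have h2 : ∀ i : Fin k, f i.castSucc = 0 := by
    intro i
    have := congrFun h1 i.succ
    rwa [Fin.cons_succ] at this
  refine ⟨f (Fin.last k), (f (Fin.last k)).2, ?_⟩
  rw [Phi_apply, Fin.sum_univ_castSucc]
  simp [h2]

/-- ranks on the block -/
theorem rank_block [FiniteDimensional F V] (hS : Std B N k M) (hc : IsCompl (LinearMap.ker (N ^ k)) M)
    {U : Submodule F V} (hUd : U = LinearMap.range (Phi N k M)) (hU : ∀ x ∈ U, N x ∈ U) :
    finrank F (LinearMap.range ((N.restrict hU) ^ k)) = finrank F M ∧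
      finrank F (LinearMap.range (N.restrict hU)) = k * finrank F M := by
  have hpow : ∀ (j : ℕ) (x : U), (((N.restrict hU) ^ j) x : V) = (N ^ j) (x : V) := by
    intro j
    induction j with
    | zero => exact fun x => rfl
    | succ j ih =>
      intro x
      rw [pow_succ, pow_succ, Module.End.mul_apply, Module.End.mul_apply, ih]
      rfl
  constructor
  · rw [← finrank_map_pow hc, (Submodule.equivMapOfInjective U.subtype U.injective_subtype
      (LinearMap.range ((N.restrict hU) ^ k))).finrank_eq]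
    have hEq : (LinearMap.range ((N.restrict hU) ^ k)).map U.subtype = M.map (N ^ k) := ?_
    · rw [hEq]
    ext v
    constructor
    · rintro ⟨_, ⟨x, rfl⟩, rfl⟩
      obtain ⟨f, hf⟩ : (x : V) ∈ LinearMap.range (Phi N k M) := hUd ▸ x.2
      refine ⟨f 0, (f 0).2, ?_⟩
      rw [← pow_Phi hS.nil, hf]
      exact (hpow k x).symm
    · rintro ⟨m, hm, rfl⟩
      have hmU : m ∈ U := by
        have := pow_mem_range (M := M) hS.nil 0 hm
        rw [hUd]
        exact this
      exact ⟨_, ⟨⟨m, hmU⟩, rfl⟩, hpow k ⟨m, hmU⟩⟩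
  · have h1 := LinearMap.finrank_range_add_finrank_ker (N.restrict hU)
    have h0 : finrank F U = (k + 1) * finrank F M := by rw [hUd, finrank_range_Phi hS]
    rw [h0] at h1
    have h2 : finrank F (LinearMap.ker (N.restrict hU)) = finrank F M := by
      rw [← finrank_map_pow hc, (Submodule.equivMapOfInjective U.subtype U.injective_subtype
        (LinearMap.ker (N.restrict hU))).finrank_eq]
      have hEq : (LinearMap.ker (N.restrict hU)).map U.subtype = M.map (N ^ k) := ?_
      · rw [hEq]
      ext v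
      constructor
      · rintro ⟨x, hx, rfl⟩
        exact ker_on_range hS (hUd ▸ x.2) (congrArg Subtype.val (LinearMap.mem_ker.1 hx))
      · rintro ⟨m, hm, rfl⟩
        have hmU : (N ^ k) m ∈ U := by
          rw [hUd]
          exact pow_mem_range (M := M) hS.nil k hm
        refine ⟨⟨(N ^ k) m, hmU⟩, ?_, rfl⟩
        apply LinearMap.mem_ker.2
        apply Subtype.ext
        show N ((N ^ k) m) = 0
        have : (N ^ (k + 1)) m = 0 := by rw [hS.nil]; rfl
        rw [pow_succ'] at this
        exact this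
    have h3 : (k + 1) * finrank F M = k * finrank F M + finrank F M := by ring
    omega

/-- additivity of the rank -/
theorem rank_add [FiniteDimensional F V] {U W : Submodule F V} (h : IsCompl U W) (hU : ∀ x ∈ U, N x ∈ U)
    (hW : ∀ x ∈ W, N x ∈ W) :
    finrank F (LinearMap.range N) = finrank F (LinearMap.range (N.restrict hU)) + finrank F (LinearMap.range (N.restrict hW)) := by
  have e1 := (Submodule.equivMapOfInjective U.subtype U.injective_subtype (LinearMap.range (N.restrict hU))).finrank_eq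
  have e2 := (Submodule.equivMapOfInjective W.subtype W.injective_subtype (LinearMap.range (N.restrict hW))).finrank_eq
  rw [e1, e2, ← Submodule.finrank_sup_add_finrank_inf_eq]
  have h1 : (LinearMap.range (N.restrict hU)).map U.subtype ≤ U := Submodule.map_subtype_le _ _
  have h2 : (LinearMap.range (N.restrict hW)).map W.subtype ≤ W := Submodule.map_subtype_le _ _
  have h3 : (LinearMap.range (N.restrict hU)).map U.subtype ⊓ (LinearMap.range (N.restrict hW)).map W.subtype = ⊥ :=
    le_bot_iff.1 ((inf_le_inf h1 h2).trans h.inf_eq_bot.le)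
  have hEq : LinearMap.range N = (LinearMap.range (N.restrict hU)).map U.subtype ⊔ (LinearMap.range (N.restrict hW)).map W.subtype := ?_
  · rw [h3, finrank_bot, add_zero, hEq]
  apply le_antisymm
  · rintro _ ⟨v, rfl⟩
    have : v ∈ U ⊔ W := by rw [h.sup_eq_top]; exact Submodule.mem_top
    obtain ⟨x, hx, y, hy, rfl⟩ := Submodule.mem_sup.1 this
    rw [map_add]
    have m1 : N x ∈ (LinearMap.range (N.restrict hU)).map U.subtype := ⟨N.restrict hU ⟨x, hx⟩, ⟨⟨x, hx⟩, rfl⟩, rfl⟩
    have m2 : N y ∈ (LinearMap.range (N.restrict hW)).map W.subtype := ⟨N.restrict hW ⟨y, hy⟩, ⟨⟨y, hy⟩, rfl⟩, rfl⟩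
    exact Submodule.add_mem_sup m1 m2
  · refine sup_le ?_ ?_
    · rintro _ ⟨_, ⟨x, rfl⟩, rfl⟩
      exact ⟨x, rfl⟩
    · rintro _ ⟨_, ⟨x, rfl⟩, rfl⟩
      exact ⟨x, rfl⟩

end

/-- **the induction** -/
theorem conj_gen {F : Type u} [Field F] (h2 : (2 : F) ≠ 0) {ε : F} (hε : ε * ε = 1) {n μ : F} (hn : n ≠ 0)
    (km : ℕ) (Q : ℕ → Prop)
    (hblk : ∀ (M : Type u) [AddCommGroup M] [Module F M] [FiniteDimensional F M] (β : M →ₗ[F] M →ₗ[F] F) (k r : ℕ),
      k ≤ km → (k ≤ 1 → r = 0) → (∀ x y, β x y = ε * (-1) ^ k * β y x) → (∀ x, (∀ y, β x y = 0) → x = 0) →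
      Q (r + k * finrank F M) →
      (∃ A : M ≃ₗ[F] M, ∀ x y, β (A x) (A y) = μ * (n⁻¹) ^ k * β x y) ∧ Q r) :
    ∀ (d : ℕ) (V : Type u) [AddCommGroup V] [Module F V] [FiniteDimensional F V] (B : V →ₗ[F] V →ₗ[F] F)
      (N N' : V →ₗ[F] V), finrank F V = d → (∀ x y, B x y = ε * B y x) → (∀ x, (∀ y, B x y = 0) → x = 0) →
      (∀ x y, B (N x) y = - B x (N y)) → (∀ x y, B (N' x) y = - B x (N' y)) → N ^ (km + 1) = 0 → Rel n N N' →
      Q (finrank F (LinearMap.range N)) →
      ∃ h : V ≃ₗ[F] V, (∀ x y, B (h x) (h y) = μ * B x y) ∧ ∀ x, h (N x) = N' (h x) := by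
  intro d
  induction d using Nat.strong_induction_on with
  | _ d IH =>
  intro V _ _ _ B N N' hd hB hnd hs hs' hN hR hQ
  have hB0 : ∀ x y, B x y = 0 → B y x = 0 := fun x y h => by rw [hB, h, mul_zero]
  rcases subsingleton_or_nontrivial V with hV | hV
  · exact ⟨LinearEquiv.refl F V, fun x y => by rw [Subsingleton.elim x 0]; simp, fun x => Subsingleton.elim _ _⟩
  -- the top block
  obtain ⟨k, hk, hkm, hk0⟩ : ∃ k, N ^ (k + 1) = 0 ∧ k ≤ km ∧ N ^ k ≠ 0 := by
    classical
    have hex : ∃ k, N ^ (k + 1) = 0 := ⟨km, hN⟩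
    refine ⟨Nat.find hex, Nat.find_spec hex, Nat.find_min' hex hN, ?_⟩
    rcases Nat.eq_zero_or_pos (Nat.find hex) with h | h
    · rw [h, pow_zero]
      exact one_ne_zero
    · obtain ⟨j, hj⟩ : ∃ j, Nat.find hex = j + 1 := ⟨Nat.find hex - 1, by omega⟩
      rw [hj]
      exact Nat.find_min hex (by omega)
  obtain ⟨M, hc, hS⟩ := exists_std' h2 hε hB hnd hs hk
  set U := LinearMap.range (Phi N k M) with hUd
  have hU : ∀ x ∈ U, N x ∈ U := fun x hx => range_inv hk hx
  have hnU : NdOn B U := hS.ndOn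
  have hcU := isCompl_perp hε hB hnU
  have hW := perp_inv hs hU
  have hM0 : 0 < finrank F M := by
    rw [Nat.pos_iff_ne_zero]
    intro h
    have h1 : M = ⊥ := Submodule.finrank_eq_zero.1 h
    rw [h1] at hc
    have h3 := hc.sup_eq_top
    rw [sup_bot_eq, LinearMap.ker_eq_top] at h3
    exact hk0 h3
  have hdU : finrank F U = (k + 1) * finrank F M := finrank_range_Phi hS
  have hdW : finrank F (perp B U) < d := by
    have h1 := Submodule.finrank_add_eq_of_isCompl hcU
    have h3 : 0 < (k + 1) * finrank F M := Nat.mul_pos (Nat.succ_pos k) hM0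
    omega
  obtain ⟨hr1, hr2⟩ := rank_block hS hc hUd hU
  have hra := rank_add hcU hU hW
  rw [hr2] at hra
  have hrW : k ≤ 1 → finrank F (LinearMap.range (N.restrict hW)) = 0 := by
    intro hk1
    have h1 : ∀ w ∈ perp B U, (N ^ k) w = 0 := by
      intro w hw
      apply hnd
      intro v
      have : v ∈ LinearMap.ker (N ^ k) ⊔ M := by rw [hc.sup_eq_top]; exact Submodule.mem_top
      obtain ⟨x, hx, y, hy, rfl⟩ := Submodule.mem_sup.1 this
      rw [skew_pow hs, map_add, LinearMap.mem_ker.1 hx, zero_add, hB0 _ _ (hw _ (pow_mem_range hk k hy)), mul_zero]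
    have h3 : N.restrict hW = 0 := by
      ext x
      show N x = 0
      rcases Nat.le_one_iff_eq_zero_or_eq_one.1 hk1 with h | h
      · have h5 := hk
        rw [h, zero_add, pow_one] at h5
        rw [h5]; rfl
      · have h5 := h1 x x.2
        rwa [h, pow_one] at h5
    rw [h3, LinearMap.range_zero, finrank_bot]
  have hQ' : Q (finrank F (LinearMap.range (N.restrict hW)) + k * finrank F M) := by
    rwa [hra, add_comm] at hQ
  -- the block
  have hpow : ∀ (j : ℕ) (x : U), (((N.restrict hU) ^ j) x : V) = (N ^ j) (x : V) := by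
    intro j
    induction j with
    | zero => exact fun x => rfl
    | succ j ih =>
      intro x
      rw [pow_succ, pow_succ, Module.End.mul_apply, Module.End.mul_apply, ih]
      rfl
  have hNU : (N.restrict hU) ^ (k + 1) = 0 := by
    ext x
    rw [hpow, hk]
    rfl
  have hRU := hR.restrict hU
  have hRW := hR.restrict hW
  have hndU : ∀ x : U, (∀ y, res B U x y = 0) → x = 0 := fun x hx => Subtype.ext (hnU x x.2 fun y hy => hx ⟨y, hy⟩)
  have hQr : Q (finrank F (LinearMap.range (N.restrict hW))) := by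
    refine (hblk M (bet B N k M) k _ hkm hrW (fun x y => hS.bet_symm hB x y) (fun x hx => hS.bet_nondeg x hx) hQ').2
  obtain ⟨f, hf, hfN⟩ := blk (B := res B U) (N := N.restrict hU) (N' := N'.restrict (hR.inv hU)) (k := k) (μ := μ) h2 hε
    (fun x y => hB x y) hndU (fun x y => hs x y) (fun x y => hs' x y) hNU (hRU.pow_succ_eq hNU) hn (hRU.pow_eq hNU)
    (by rw [hr1, hdU]) (by
      intro M' hS' hc'
      have hM' : finrank F M' = finrank F M := by rw [finrank_M hc', hr1]
      refine (hblk M' (bet (res B U) (N.restrict hU) k M') k _ hkm hrW (fun x y => hS'.bet_symm (fun x y => hB x y) x y)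
        (fun x hx => hS'.bet_nondeg x hx) ?_).1
      rw [hM']
      exact hQ')
  -- the rest
  have hndW : ∀ x : perp B U, (∀ y, res B (perp B U) x y = 0) → x = 0 := by
    intro x hx
    apply Subtype.ext
    apply hnd
    intro v
    have : v ∈ U ⊔ perp B U := by rw [hcU.sup_eq_top]; exact Submodule.mem_top
    obtain ⟨y, hy, w, hw, rfl⟩ := Submodule.mem_sup.1 this
    rw [map_add, hB0 _ _ (x.2 y hy), zero_add]
    exact hx ⟨w, hw⟩
  have hNW : (N.restrict hW) ^ (km + 1) = 0 := by
    have hp : ∀ (j : ℕ) (x : perp B U), (((N.restrict hW) ^ j) x : V) = (N ^ j) (x : V) := by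
      intro j
      induction j with
      | zero => exact fun x => rfl
      | succ j ih =>
        intro x
        rw [pow_succ, pow_succ, Module.End.mul_apply, Module.End.mul_apply, ih]
        rfl
    ext x
    rw [hp, hN]
    rfl
  obtain ⟨g, hg, hgN⟩ := IH _ hdW (perp B U) (res B (perp B U)) (N.restrict hW) (N'.restrict (hR.inv hW)) rfl
    (fun x y => hB x y) hndW (fun x y => hs x y) (fun x y => hs' x y) hNW hRW hQr
  refine glue hε hB hcU f g hf hg ?_ ?_ hU hW
  · intro x y hy
    have : y = (N.restrict hU) x := Subtype.ext hy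
    rw [this, hfN]
    rfl
  · intro x y hy
    have : y = (N.restrict hW) x := Subtype.ext hy
    rw [this, hgN]
    rfl

end Cfsg.Agent.H18.Carter.Uni
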